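import Mathlib

/-!
# Arithmetic for the Brauer-Tuan theorem on groups of order `p q^b g₀`
-/

set_option autoImplicit false
set_option linter.style.haveILetI false
set_option linter.unusedVariables false
set_option linter.unusedSectionVars false
set_option linter.unusedSimpArgs false

namespace Cfsg.Agent.Lib.DefectOne.BT

/-- A degree `v p - 1` dividing `2^b d` with `e = 2^c`: `v ≡ 1` modulo `e`. -/
lemma minus_case {p e c b d D v t : ℕ} (he : e = 2 ^ c) (het : p - 1 = e * t) (hp : 1 ≤ p) (hep : e < p)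
    (hdd : d = p - e) (hD : D ∣ 2 ^ b * d) (hD0 : D ≠ 0) (hDv : D + 1 = v * p) (hv : 1 ≤ v) :
    (e : ℤ) ∣ (v : ℤ) - 1 := by
  obtain ⟨k, m, hm, hkm⟩ := Nat.exists_eq_two_pow_mul_odd hD0
  have hpe : p = e * t + 1 := by omega
  have hdlt : d < p := by
    have : 0 < e := by rw [he]; positivity
    omega
  have hd0 : 0 < d := by omega
  have hmd : m ∣ d := by
    have h1 : m ∣ 2 ^ b * d := Dvd.dvd.trans ⟨2 ^ k, by rw [hkm]; ring⟩ hD
    have h2 : Nat.Coprime m (2 ^ b) := Nat.Coprime.pow_right _ (Nat.coprime_two_right.2 hm)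
    exact h2.dvd_of_dvd_mul_left h1
  have hmle : m ≤ d := Nat.le_of_dvd hd0 hmd
  have hvZ : ((D : ℤ)) = v * (e * t + 1) - 1 := by
    have h1 : ((D + 1 : ℕ) : ℤ) = ((v * p : ℕ) : ℤ) := by rw [hDv]
    rw [hpe] at h1
    push_cast at h1
    linear_combination h1
  by_cases hk : c ≤ k
  · have h1 : e ∣ D := by
      rw [he, hkm]
      exact Dvd.dvd.mul_right (pow_dvd_pow 2 hk) _
    have h2 : (e : ℤ) ∣ (D : ℤ) := by exact_mod_cast h1
    rw [hvZ] at h2
    have h3 : (v : ℤ) - 1 = (v * (e * t + 1) - 1) - e * (v * t) := by ring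
    rw [h3]
    exact dvd_sub h2 (dvd_mul_right _ _)
  · push Not at hk
    by_cases hv1 : v = 1
    · rw [hv1]
      simp
    exfalso
    have h2k : (2 : ℤ) ^ k ∣ (e : ℤ) := by
      rw [he]
      push_cast
      exact pow_dvd_pow 2 hk.le
    have h1 : (2 : ℤ) ^ k ∣ (D : ℤ) := by
      rw [hkm]
      push_cast
      exact dvd_mul_right _ _
    have h3 : (2 : ℤ) ^ k ∣ (v : ℤ) - 1 := by
      rw [hvZ] at h1
      have h3 : (v : ℤ) - 1 = (v * (e * t + 1) - 1) - e * (v * t) := by ring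
      rw [h3]
      exact dvd_sub h1 (Dvd.dvd.mul_right h2k _)
    have h4 : (2 : ℤ) ^ k ≤ (v : ℤ) - 1 := by
      apply Int.le_of_dvd _ h3
      have : 2 ≤ v := by omega
      have : (2 : ℤ) ≤ v := by exact_mod_cast this
      linarith
    have h5 : 2 ^ k + 1 ≤ v := by
      have : ((2 ^ k + 1 : ℕ) : ℤ) ≤ v := by
        push_cast
        linarith
      exact_mod_cast this
    have h6 : 2 ^ k * m ≤ 2 ^ k * d := Nat.mul_le_mul_left _ hmle
    have h7 : (2 ^ k + 1) * p ≤ v * p := Nat.mul_le_mul_right _ h5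
    have h8 : 2 ^ k * d < 2 ^ k * p := Nat.mul_lt_mul_of_pos_left hdlt (by positivity)
    have h9 : D = 2 ^ k * m := hkm
    nlinarith

/-- A degree `u p + 1` dividing `2^b d` with `e = 2^c`: `u ≡ -1` modulo `e`, or `u + 1 = t` and `t ∣ e`. -/
lemma plus_case {p e c b d D u t : ℕ} (he : e = 2 ^ c) (het : p - 1 = e * t) (hp : 1 ≤ p) (hep : e < p)
    (hdd : d = p - e) (hD : D ∣ 2 ^ b * d) (hDu : D = u * p + 1) (hu : 1 ≤ u) (hev : Even D) :
    (e : ℤ) ∣ (u : ℤ) + 1 ∨ (u + 1 = t ∧ t ∣ e) := by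
  have hD0 : D ≠ 0 := by omega
  obtain ⟨k, m, hm, hkm⟩ := Nat.exists_eq_two_pow_mul_odd hD0
  have hpe : p = e * t + 1 := by omega
  have he0 : 0 < e := by rw [he]; positivity
  have hdlt : d < p := by omega
  have hd0 : 0 < d := by omega
  have hmd : m ∣ d := by
    have h1 : m ∣ 2 ^ b * d := Dvd.dvd.trans ⟨2 ^ k, by rw [hkm]; ring⟩ hD
    have h2 : Nat.Coprime m (2 ^ b) := Nat.Coprime.pow_right _ (Nat.coprime_two_right.2 hm)
    exact h2.dvd_of_dvd_mul_left h1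
  have hmle : m ≤ d := Nat.le_of_dvd hd0 hmd
  have hk1 : 1 ≤ k := by
    by_contra hk0
    have hk : k = 0 := by omega
    rw [hk, pow_zero, one_mul] at hkm
    rw [hkm] at hev
    exact (Nat.not_even_iff_odd.2 hm) hev
  have huZ : ((D : ℤ)) = u * (e * t + 1) + 1 := by
    rw [hDu, hpe]
    push_cast
    ring
  by_cases hk : c ≤ k
  · left
    have h1 : e ∣ D := by
      rw [he, hkm]
      exact Dvd.dvd.mul_right (pow_dvd_pow 2 hk) _
    have h2 : (e : ℤ) ∣ (D : ℤ) := by exact_mod_cast h1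
    rw [huZ] at h2
    have h3 : (u : ℤ) + 1 = (u * (e * t + 1) + 1) - e * (u * t) := by ring
    rw [h3]
    exact dvd_sub h2 (dvd_mul_right _ _)
  · right
    push Not at hk
    obtain ⟨l, hl⟩ : ∃ l, c = k + l := ⟨c - k, by omega⟩
    set e₁ := 2 ^ l with he₁
    have he₁0 : 0 < e₁ := by positivity
    have hee : e = 2 ^ k * e₁ := by rw [he, hl, pow_add]
    have h2k : 2 ^ k ∣ e := ⟨e₁, hee⟩
    have hkpos : 0 < 2 ^ k := by positivity
    have hk2 : 2 ≤ 2 ^ k := by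
      calc 2 = 2 ^ 1 := by norm_num
        _ ≤ 2 ^ k := Nat.pow_le_pow_right (by norm_num) hk1
    -- `u + 1 = 2^k`
    have h1 : (2 : ℤ) ^ k ∣ (D : ℤ) := by
      rw [hkm]
      push_cast
      exact dvd_mul_right _ _
    have h2kZ : (2 : ℤ) ^ k ∣ (e : ℤ) := by exact_mod_cast h2k
    have h3 : (2 : ℤ) ^ k ∣ (u : ℤ) + 1 := by
      rw [huZ] at h1
      have h3 : (u : ℤ) + 1 = (u * (e * t + 1) + 1) - e * (u * t) := by ring
      rw [h3]
      exact dvd_sub h1 (Dvd.dvd.mul_right h2kZ _)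
    have h4 : 2 ^ k ≤ u + 1 := by
      have h5 : (2 : ℤ) ^ k ≤ (u : ℤ) + 1 := Int.le_of_dvd (by positivity) h3
      exact_mod_cast h5
    have h6 : 2 ^ k * m ≤ 2 ^ k * d := Nat.mul_le_mul_left _ hmle
    have h7 : u < 2 ^ k := by
      by_contra hge
      push Not at hge
      have h8 : 2 ^ k * p ≤ u * p := Nat.mul_le_mul_right _ hge
      have h9 : 2 ^ k * d < 2 ^ k * p := Nat.mul_lt_mul_of_pos_left hdlt hkpos
      nlinarith
    have hu1 : u + 1 = 2 ^ k := by omega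
    -- the odd part
    have h8 : m + e₁ * t = p := by
      have h9 : 2 ^ k * (m + e₁ * t) = 2 ^ k * p := by
        have h10 : D = u * p + 1 := hDu
        have h11 : 2 ^ k * m = u * p + 1 := by rw [← hkm, h10]
        have h12 : u * p + p = 2 ^ k * p := by rw [← hu1]; ring
        have h13 : 2 ^ k * (e₁ * t) = e * t := by rw [hee]; ring
        calc 2 ^ k * (m + e₁ * t) = 2 ^ k * m + 2 ^ k * (e₁ * t) := by ring
          _ = (u * p + 1) + e * t := by rw [h11, h13]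
          _ = u * p + p := by omega
          _ = 2 ^ k * p := h12
      exact Nat.eq_of_mul_eq_mul_left hkpos h9
    have h9 : 2 * (e₁ * t) + 1 ≤ p := by
      have h10 : 2 * (e₁ * t) ≤ 2 ^ k * (e₁ * t) := Nat.mul_le_mul_right _ hk2
      have h11 : 2 ^ k * (e₁ * t) = e * t := by rw [hee]; ring
      omega
    obtain ⟨w, hw⟩ := hmd
    have hw1 : w = 1 := by
      have hw0 : w ≠ 0 := by
        rintro rfl
        omega
      by_contra hne
      have hw2 : 2 ≤ w := by omega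
      have h10 : m * 2 ≤ m * w := Nat.mul_le_mul_left _ hw2
      omega
    rw [hw1, mul_one] at hw
    have hmt : e₁ * t = e := by omega
    have ht : t = 2 ^ k := by
      have h10 : e₁ * t = e₁ * 2 ^ k := by rw [hmt, hee]; ring
      exact Nat.eq_of_mul_eq_mul_left he₁0 h10
    exact ⟨by rw [hu1, ht], by rw [ht]; exact h2k⟩

/-- The sum of the degree data modulo `r`. -/
lemma t_eq_two_aux {ι : Type*} [DecidableEq ι] (X : Finset ι) (n : ι → ℤ) (T : ι) (hT : T ∈ X) (hT0 : n T = 0)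
    (hsum : ∑ χ ∈ X, n χ = -1) {r e : ℕ} (hcard : X.card = e) (hre : r ∣ e)
    (hn : ∀ χ ∈ X, χ ≠ T → (r : ℤ) ∣ n χ + 1) : r ∣ 2 := by
  have h1 : (r : ℤ) ∣ ∑ χ ∈ X.erase T, (n χ + 1) := Finset.dvd_sum fun χ hχ => hn χ (Finset.mem_of_mem_erase hχ) (Finset.ne_of_mem_erase hχ)
  rw [Finset.sum_add_distrib, Finset.sum_const, nsmul_eq_mul, mul_one, Finset.card_erase_of_mem hT, hcard] at h1
  have h2 : ∑ χ ∈ X.erase T, n χ = -1 := by
    rw [← Finset.add_sum_erase X n hT, hT0, zero_add] at hsum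
    exact hsum
  rw [h2] at h1
  have he1 : 1 ≤ e := by
    rw [← hcard]
    exact Finset.card_pos.2 ⟨T, hT⟩
  push_cast [Nat.cast_sub he1] at h1
  have h3 : (r : ℤ) ∣ (e : ℤ) := by exact_mod_cast hre
  have h4 : (r : ℤ) ∣ 2 := by
    have h5 : (2 : ℤ) = (e : ℤ) - (-1 + ((e : ℤ) - 1)) := by ring
    rw [h5]
    exact dvd_sub h3 h1
  exact_mod_cast h4

/-- The final arithmetic step: the number of Sylow subgroups is `p + 1`. -/
lemma two_pow_eq {p e b M : ℕ} (hp : 3 ≤ p) (hpe : p = 2 * e + 1) (hG : 2 ^ b * (e + 1) = e * M)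
    (hM : (M : ℤ) ≡ 1 [ZMOD p]) (hle : 2 ^ b ≤ p) : 2 ^ b = 2 * e ∧ M = p + 1 := by
  have he0 : 0 < e := by omega
  have h1 : (p : ℤ) ∣ (2 : ℤ) ^ b + 1 := by
    obtain ⟨w, hw⟩ := (Int.modEq_iff_dvd.1 hM.symm)
    have hZ : ((2 : ℤ) ^ b) * ((e : ℤ) + 1) = e * M := by exact_mod_cast hG
    have hMw : (M : ℤ) = 1 + p * w := by linear_combination hw
    have hpZ : (p : ℤ) = 2 * e + 1 := by exact_mod_cast hpe
    refine ⟨M - 2 ^ b - w, ?_⟩
    rw [hpZ] at hMw ⊢
    linear_combination 2 * hZ - hMw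
  have h2 : p ∣ 2 ^ b + 1 := by exact_mod_cast h1
  have h3 : p ≤ 2 ^ b + 1 := Nat.le_of_dvd (by positivity) h2
  have h4 : 2 ^ b + 1 = p := by
    rcases Nat.lt_or_ge (2 ^ b + 1) (p + 1) with h | h
    · omega
    · have h5 : 2 ^ b + 1 = p + 1 := by omega
      rw [h5] at h2
      have h6 : p ∣ 1 := (Nat.dvd_add_right (dvd_refl p)).1 h2
      have := Nat.le_of_dvd (by norm_num) h6
      omega
  have h5 : 2 ^ b = 2 * e := by omega
  refine ⟨h5, ?_⟩
  rw [h5] at hG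
  have h6 : e * M = e * (p + 1) := by
    rw [← hG, hpe]
    ring
  exact Nat.eq_of_mul_eq_mul_left he0 h6

end Cfsg.Agent.Lib.DefectOne.BT
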