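import Mathlib
import Cfsg.Agent.Lib.DefectOne.FewChar

/-!
# Sylow subgroups of prime order with few conjugates: the quadratic character of the normalizer
-/

set_option autoImplicit false
set_option linter.unusedSectionVars false
set_option linter.style.haveILetI false
set_option linter.unusedVariables false
set_option linter.unusedSimpArgs false

namespace Cfsg.Agent.Lib.DefectOne.FewInd

open Cfsg Subgroup Finset Cfsg.Agent.Lib.Char.Induced
open Cfsg.Agent.Lib.DefectOne
open scoped ComplexConjugate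

universe u

variable {G : Type u} [Group G] [Fintype G]
variable {p : ℕ} [hp : Fact p.Prime] {x : G}
variable {ζ : ℂ} {e t : ℕ} {X Y : Finset (IrrCharacter G)} {δ : IrrCharacter G → ℤ} {ε : ℤ} {b : IrrCharacter G → ZMod p}

/-- The kernel of the action on `⟨x⟩`. -/
lemma alphaHom_eq_one_iff' (hord : orderOf x = p) (hcen : ∀ c : G, c * x = x * c → c ∈ zpowers x)
    (hL : LocalData p x (⊥ : Subgroup G)) (y : normalizer (zpowers x : Set G)) :
    alphaHom hL y = 1 ↔ (y : G) ∈ zpowers x := by
  rw [alphaHom_eq_one_iff]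
  refine ⟨hcen _, fun h => ?_⟩
  obtain ⟨k, hk⟩ := Subgroup.mem_zpowers_iff.1 h
  rw [← hk]
  exact ((Commute.refl x).zpow_left k).eq

lemma card_range_alphaHom (hord : orderOf x = p) (hcen : ∀ c : G, c * x = x * c → c ∈ zpowers x)
    (hL : LocalData p x (⊥ : Subgroup G)) (hN : Nat.card (normalizer (zpowers x : Set G)) = p * e) :
    Nat.card (alphaHom hL).range = e := by
  have h1 := Subgroup.card_mul_index (alphaHom hL).ker
  rw [Subgroup.index_ker, hN] at h1
  have h2 : (alphaHom hL).ker = (zpowers x).subgroupOf (normalizer (zpowers x : Set G)) := by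
    ext y
    rw [MonoidHom.mem_ker, alphaHom_eq_one_iff' hord hcen hL, Subgroup.mem_subgroupOf]
  have h3 : Nat.card (alphaHom hL).ker = p := by
    rw [h2]
    have h4 : Nat.card ((zpowers x).subgroupOf (normalizer (zpowers x : Set G))) = Nat.card (zpowers x) :=
      Nat.card_congr (Subgroup.subgroupOfEquivOfLe le_normalizer).toEquiv
    rw [h4, Nat.card_zpowers, hord]
  rw [h3] at h1
  exact Nat.eq_of_mul_eq_mul_left hp.out.pos h1

/-- The quadratic character of the normalizer when `e` is even. -/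
theorem exists_quad (hord : orderOf x = p) (hcen : ∀ c : G, c * x = x * c → c ∈ zpowers x)
    (hL : LocalData p x (⊥ : Subgroup G)) (hN : Nat.card (normalizer (zpowers x : Set G)) = p * e)
    (hodd : p ≠ 2) (he : Even e) (he0 : 0 < e) :
    ∃ φ : normalizer (zpowers x : Set G) →* ℂˣ,
      (∀ y : normalizer (zpowers x : Set G), (y : G) ∈ zpowers x → φ y = 1) ∧
      (∃ y, φ y ≠ 1) ∧
      (∀ (y y' : normalizer (zpowers x : Set G)) (c : G), (y' : G) = c⁻¹ * y * c → φ y' = φ y) := by
  classical
  obtain ⟨k, hk⟩ := he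
  have hk0 : 0 < k := by omega
  set α := alphaHom hL with hα
  have hcard := card_range_alphaHom hord hcen hL hN
  set w : normalizer (zpowers x : Set G) →* (ZMod p)ˣ := (powMonoidHom k).comp α with hw
  have hwv : ∀ y, w y = (α y) ^ k := fun y => rfl
  have hsq : ∀ y, w y * w y = 1 := by
    intro y
    rw [hwv, ← pow_add, ← two_mul]
    have h1 : α y ∈ α.range := ⟨y, rfl⟩
    have h2 := pow_card_eq_one' (x := (⟨α y, h1⟩ : α.range))
    rw [hcard] at h2
    have h3 : (α y) ^ e = 1 := congrArg Subtype.val h2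
    rw [hk, ← two_mul] at h3
    exact h3
  have hne : (-1 : (ZMod p)ˣ) ≠ 1 := by
    intro h
    have h1 := congrArg (Units.val) h
    simp only [Units.val_neg, Units.val_one] at h1
    haveI : NeZero (2 : ZMod p) := by
      refine ⟨fun h2 => ?_⟩
      have h3 : ((2 : ℕ) : ZMod p) = 0 := by exact_mod_cast h2
      rw [ZMod.natCast_eq_zero_iff] at h3
      exact hodd ((Nat.prime_dvd_prime_iff_eq hp.out Nat.prime_two).1 h3)
    have h2 : (2 : ZMod p) = 0 := by
      linear_combination (-1 : ZMod p) * h1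
    exact (NeZero.ne (2 : ZMod p)) h2
  have hone_or : ∀ y, w y = 1 ∨ w y = -1 := by
    intro y
    have h1 : ((w y : (ZMod p)ˣ) : ZMod p) * ((w y : (ZMod p)ˣ) : ZMod p) = 1 := by
      rw [← Units.val_mul, hsq, Units.val_one]
    rcases mul_self_eq_one_iff.1 h1 with h2 | h2
    · left
      exact Units.ext h2
    · right
      apply Units.ext
      rw [h2]
      simp
  let φ : normalizer (zpowers x : Set G) →* ℂˣ := MonoidHom.mk' (fun y => if w y = 1 then 1 else -1) (by
    intro a b
    rcases hone_or a with h1 | h1 <;> rcases hone_or b with h2 | h2 <;> simp only [map_mul, h1, h2, hne, mul_one, one_mul, neg_mul_neg, if_true, if_false]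
    )
  have hφ : ∀ y, φ y = if w y = 1 then 1 else -1 := fun y => rfl
  have h1 : ∀ y : normalizer (zpowers x : Set G), (y : G) ∈ zpowers x → w y = 1 := by
    intro y hy
    rw [hwv, (alphaHom_eq_one_iff' hord hcen hL y).2 hy, one_pow]
  have h2 : ∀ y : normalizer (zpowers x : Set G), (y : G) ∉ zpowers x → (w y = 1 ↔ (y : G) ^ k = 1) := by
    intro y hy
    constructor
    · intro h
      have h3 : α (y ^ k) = 1 := by rw [map_pow]; exact h
      have h4 := (alphaHom_eq_one_iff' hord hcen hL _).1 h3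
      simp only [Subgroup.coe_pow] at h4
      by_contra h5
      exact hy (mem_of_comm_of_ne hord hcen h4 h5 (Commute.pow_right (Commute.refl (y : G)) k).eq)
    · intro h
      have h3 : y ^ k = 1 := Subtype.ext (by simpa using h)
      rw [hwv, ← map_pow, h3, map_one]
  refine ⟨φ, fun y hy => ?_, ?_, ?_⟩
  · rw [hφ, if_pos (h1 y hy)]
  · by_contra hno
    push Not at hno
    have hall : ∀ y, w y = 1 := by
      intro y
      by_contra h3
      have h4 := hno y
      rw [hφ, if_neg h3] at h4
      have h5 := congrArg (Units.val) h4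
      simp only [Units.val_neg, Units.val_one] at h5
      norm_num at h5
    have h3 : (univ.filter (fun u : (ZMod p)ˣ => u ∈ α.range)).card ≤ (univ.filter (fun u : (ZMod p)ˣ => u ^ k = 1)).card := by
      apply card_le_card
      intro u hu
      have hu' : u ∈ α.range := (mem_filter.1 hu).2
      obtain ⟨y, rfl⟩ := hu'
      simp only [mem_filter, mem_univ, true_and]
      exact hall y
    have h4 := IsCyclic.card_pow_eq_one_le (α := (ZMod p)ˣ) hk0
    have h5 : (univ.filter (fun u : (ZMod p)ˣ => u ∈ α.range)).card = e := by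
      rw [← hcard, Nat.card_eq_fintype_card, ← Fintype.card_subtype]
    omega
  · intro y y' c hc
    have hsame : (y : G) ∈ zpowers x ↔ (y' : G) ∈ zpowers x := by
      have hL' := hL
      constructor
      · intro h
        apply mem_zpowers_of_normalizer hL y'.2
        have h3 : (y : G) ^ p = 1 := by
          have h4 := Subgroup.orderOf_dvd_natCard (zpowers x) h
          rw [Nat.card_zpowers, hord] at h4
          exact orderOf_dvd_iff_pow_eq_one.1 h4
        rw [hc]
        have h4 : c⁻¹ * (y : G) * c = c⁻¹ * (y : G) * c⁻¹⁻¹ := by rw [inv_inv]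
        rw [h4, conj_pow, h3]
        group
      · intro h
        apply mem_zpowers_of_normalizer hL y.2
        have h3 : (y' : G) ^ p = 1 := by
          have h4 := Subgroup.orderOf_dvd_natCard (zpowers x) h
          rw [Nat.card_zpowers, hord] at h4
          exact orderOf_dvd_iff_pow_eq_one.1 h4
        have h4 : (y : G) = c * (y' : G) * c⁻¹ := by rw [hc]; group
        rw [h4, conj_pow, h3]
        group
    rw [hφ, hφ]
    by_cases hy : (y : G) ∈ zpowers x
    · rw [if_pos (h1 y hy), if_pos (h1 y' (hsame.1 hy))]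
    · have hy' : (y' : G) ∉ zpowers x := fun h => hy (hsame.2 h)
      have h3 : w y' = 1 ↔ w y = 1 := by
        rw [h2 y hy, h2 y' hy', hc]
        have h4 : c⁻¹ * (y : G) * c = c⁻¹ * (y : G) * c⁻¹⁻¹ := by rw [inv_inv]
        rw [h4, conj_pow]
        constructor
        · intro h
          have h5 : (y : G) ^ k = c * (c⁻¹ * (y : G) ^ k * c⁻¹⁻¹) * c⁻¹ := by group
          rw [h5, h]
          group
        · intro h
          rw [h]
          group
      by_cases h5 : w y = 1
      · rw [if_pos h5, if_pos (h3.2 h5)]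
      · rw [if_neg h5, if_neg (fun h => h5 (h3.1 h))]

/-- The values of the induced character on `⟨x⟩`. -/
theorem indFun_XX (hL : LocalData p x (⊥ : Subgroup G)) (φ : normalizer (zpowers x : Set G) →* ℂˣ)
    (hφ : ∀ y : normalizer (zpowers x : Set G), (y : G) ∈ zpowers x → φ y = 1) {i : ZMod p} (hi : i ≠ 0) :
    indFun (normalizer (zpowers x : Set G)) (hf φ) (XX x i) = 1 := by
  classical
  have hord := hL.ord
  have h1 : ∀ a : G, extendByZero (normalizer (zpowers x : Set G)) (hf φ) (a⁻¹ * XX x i * a) =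
      if a ∈ normalizer (zpowers x : Set G) then 1 else 0 := by
    intro a
    have hpow : (a⁻¹ * XX x i * a) ^ p = 1 := by
      have h4 : a⁻¹ * XX x i * a = a⁻¹ * XX x i * a⁻¹⁻¹ := by rw [inv_inv]
      have h3 : XX x i ^ p = 1 := by
        have h5 := Subgroup.orderOf_dvd_natCard (zpowers x) (XX_mem_zpowers i)
        rw [Nat.card_zpowers, hord] at h5
        exact orderOf_dvd_iff_pow_eq_one.1 h5
      rw [h4, conj_pow, h3]
      group
    by_cases ha : a ∈ normalizer (zpowers x : Set G)
    · rw [if_pos ha]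
      have h2 : a⁻¹ * XX x i * a ∈ zpowers x := by
        have h3 := (mem_normalizer_iff.1 (inv_mem ha) (XX x i)).1 (XX_mem_zpowers i)
        simpa using h3
      rw [extendByZero_of_mem _ _ (le_normalizer h2)]
      show ((φ _ : ℂˣ) : ℂ) = 1
      rw [hφ _ h2, Units.val_one]
    · rw [if_neg ha]
      apply extendByZero_of_notMem
      intro h
      apply ha
      have h2 := mem_zpowers_of_normalizer hL h hpow
      obtain ⟨j, hj⟩ := exists_XX_of_mem hord h2
      have h3 : a⁻¹ * (XX x i * 1) * a⁻¹⁻¹ = XX x j * 1 := by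
        rw [mul_one, mul_one, inv_inv]
        exact hj
      have h4 := mem_normalizer_of_W hL hi (one_mem ⊥) (one_mem ⊥) h3
      simpa using inv_mem h4
  rw [indFun_apply, sum_congr rfl (fun a _ => h1 a)]
  have h5 : ∑ a : G, (if a ∈ normalizer (zpowers x : Set G) then (1 : ℂ) else 0) = (Nat.card (normalizer (zpowers x : Set G)) : ℂ) := by
    rw [sum_boole, Nat.card_eq_fintype_card, Fintype.card_subtype]
  rw [h5]
  exact inv_mul_cancel₀ (by exact_mod_cast Nat.card_pos.ne')

/-- The characters of degree congruent to `1` do not occur in the induced character. -/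
theorem no_plus (hperf : commutator G = ⊤) (hT : SCTable x ζ e t X Y δ ε b) {n M : ℕ}
    (hG : Nat.card G = p * e * M) (hM : M = 1 + n * p) (hn : 1 ≤ n) (hen : 2 * n < p + 3)
    (hidx : (normalizer (zpowers x : Set G)).index = M)
    (φ : normalizer (zpowers x : Set G) →* ℂˣ)
    (hconj : ∀ (y y' : normalizer (zpowers x : Set G)) (c : G), (y' : G) = c⁻¹ * y * c → φ y' = φ y)
    (χ : IrrCharacter G) (hχ1 : χ ≠ Cfsg.Agent.Lib.Blocks.Principal.trivChar G)
    (hcong : (charDegree (χ : G → ℂ) : ℤ) ≡ 1 [ZMOD p])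
    (hm : classInner (indFun (normalizer (zpowers x : Set G)) (hf φ)) (χ : G → ℂ) ≠ 0) : False := by
  classical
  have hd := deg_plus hperf hT hG hM hen χ hχ1 hcong
  have hPi : IsCharacter G (indFun (normalizer (zpowers x : Set G)) (hf φ)) :=
    Cfsg.Agent.Lib.Char.IndRep.isCharacter_indFun _
      (Cfsg.Agent.Lib.Char.Basic.isCharacter_of_isIrrCharacter (Cfsg.Agent.Lib.Char.LinearChars.isIrr_of_hom φ))
  obtain ⟨h1, h2⟩ := eq_sum_of_deg hPi {χ} (d := M) (by
      intro θ hθ
      rw [mem_singleton.1 hθ, irr_degree_cast, hd]) (by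
      intro θ hθ
      rw [mem_singleton.1 hθ]
      exact hm) (by
      rw [indFun_one, hidx]
      simp [hf])
  have h3 : indFun (normalizer (zpowers x : Set G)) (hf φ) = (χ : G → ℂ) := funext (fun g => by simpa using h1 g)
  have h4 : classInner (indFun (normalizer (zpowers x : Set G)) (hf φ)) (indFun (normalizer (zpowers x : Set G)) (hf φ)) = 1 := by
    rw [h3]
    exact Cfsg.Agent.Lib.Char.Ortho.classInner_irr_self χ.2
  rw [classInner_indFun_self _ φ hconj] at h4
  refine classInner_one_ne _ ?_ h4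
  rw [hidx, hM]
  have := hp.out.pos
  have : 0 < n * p := by positivity
  omega

/-- The trivial character does not occur in the induced character of a nontrivial linear character. -/
theorem inner_triv_zero (φ : normalizer (zpowers x : Set G) →* ℂˣ) (hφ : ∃ y, φ y ≠ 1) :
    classInner (indFun (normalizer (zpowers x : Set G)) (hf φ))
      (Cfsg.Agent.Lib.Blocks.Principal.trivChar G : G → ℂ) = 0 := by
  classical
  have hcl : IsClassFunction G (Cfsg.Agent.Lib.Blocks.Principal.trivChar G : G → ℂ) :=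
    Cfsg.Agent.Lib.Char.Basic.isClassFunction_of_isCharacter
      (Cfsg.Agent.Lib.Char.Basic.isCharacter_of_isIrrCharacter (Cfsg.Agent.Lib.Blocks.Principal.trivChar G).2)
  rw [frobenius_reciprocity _ _ _ hcl]
  have h1 : (fun h : normalizer (zpowers x : Set G) => (Cfsg.Agent.Lib.Blocks.Principal.trivChar G : G → ℂ) h) = fun _ => 1 := rfl
  rw [h1]
  refine Cfsg.Agent.Lib.Char.Ortho.classInner_irr_of_ne (Cfsg.Agent.Lib.Char.LinearChars.isIrr_of_hom φ)
    Cfsg.Agent.Lib.Char.Burnside2.isIrrCharacter_one ?_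
  intro h
  obtain ⟨y, hy⟩ := hφ
  apply hy
  apply Units.ext
  exact congrFun h y

/-- The decomposition of a character, with natural coefficients. -/
theorem exists_decomp {Ξ : G → ℂ} (hΞ : IsCharacter G Ξ) [Fintype (IrrCharacter G)] :
    ∃ m : IrrCharacter G → ℕ, (∀ χ : IrrCharacter G, classInner Ξ (χ : G → ℂ) = m χ) ∧
      ∀ g, Ξ g = ∑ χ : IrrCharacter G, (m χ : ℂ) * (χ : G → ℂ) g := by
  classical
  have hirrc : ∀ χ : IrrCharacter G, IsCharacter G (χ : G → ℂ) := fun χ =>
    Cfsg.Agent.Lib.Char.Basic.isCharacter_of_isIrrCharacter χ.2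
  have hΞcl : IsClassFunction G Ξ := Cfsg.Agent.Lib.Char.Basic.isClassFunction_of_isCharacter hΞ
  choose m hm' using fun χ : IrrCharacter G =>
    Cfsg.Agent.Lib.Char.Ortho.exists_nat_classInner_of_isCharacter hΞ (hirrc χ)
  refine ⟨m, hm', fun g => ?_⟩
  have h1 := congrFun (Cfsg.Agent.Lib.Char.Complete.eq_sum_classInner Ξ hΞcl) g
  rw [h1, Finset.sum_apply]
  refine sum_congr rfl fun χ _ => ?_
  rw [Pi.smul_apply, hm' χ, smul_eq_mul]

/-- The sum of the values of an induced character on `⟨x⟩`, in terms of its constituents. -/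
theorem sum_ind [Fintype (IrrCharacter G)] (hζ : IsPrimitiveRoot ζ p) (hT : SCTable x ζ e t X Y δ ε b)
    (hL : LocalData p x (⊥ : Subgroup G)) (φ : normalizer (zpowers x : Set G) →* ℂˣ)
    (hφ : ∀ y : normalizer (zpowers x : Set G), (y : G) ∈ zpowers x → φ y = 1) (m : IrrCharacter G → ℕ)
    (hval : ∀ g, indFun (normalizer (zpowers x : Set G)) (hf φ) g = ∑ χ : IrrCharacter G, (m χ : ℂ) * (χ : G → ℂ) g) :
    (t : ℤ) * ∑ χ ∈ X, (m χ : ℤ) * δ χ - ε * ∑ θ ∈ Y, (m θ : ℤ) = t := by
  classical
  have hp' := hp.out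
  have h1 := hT.sum_char hζ (fun χ => (m χ : ℂ))
  have h2 : ∑ i ∈ univ.erase (0 : ZMod p), ∑ χ : IrrCharacter G, (m χ : ℂ) * (χ : G → ℂ) (XX x i) = (p : ℂ) - 1 := by
    have h3 : ∀ i ∈ univ.erase (0 : ZMod p), ∑ χ : IrrCharacter G, (m χ : ℂ) * (χ : G → ℂ) (XX x i) = 1 := by
      intro i hi
      rw [← hval, indFun_XX hL φ hφ (mem_erase.1 hi).1]
    rw [sum_congr rfl h3, sum_const, card_erase_of_mem (mem_univ _), card_univ, ZMod.card, nsmul_eq_mul, mul_one]
    push_cast [Nat.cast_sub hp'.one_le]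
    ring
  rw [h2] at h1
  have hhet := hT.het
  have hpZ1 : ((p : ℤ) - 1) = e * t := by
    have : ((p - 1 : ℕ) : ℤ) = (e * t : ℕ) := by rw [hhet]
    push_cast [Nat.cast_sub hp'.one_le] at this
    exact this
  have h3 : ((p : ℤ) - 1) = ((p : ℤ) - 1) * ∑ χ ∈ X, (m χ : ℤ) * δ χ - ε * e * ∑ θ ∈ Y, (m θ : ℤ) := by
    have h4 : (((p : ℤ) - 1 : ℤ) : ℂ) = ((((p : ℤ) - 1) * ∑ χ ∈ X, (m χ : ℤ) * δ χ - ε * e * ∑ θ ∈ Y, (m θ : ℤ) : ℤ) : ℂ) := by
      push_cast
      exact h1
    exact_mod_cast h4
  rw [hpZ1] at h3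
  have h4 : (e : ℤ) ≠ 0 := by exact_mod_cast hT.epos.ne'
  apply mul_left_cancel₀ h4
  linear_combination -h3

end Cfsg.Agent.Lib.DefectOne.FewInd
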