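import Mathlib
import Cfsg.Agent.Lib.DefectOne.FewQuad

/-!
# Sylow subgroups of prime order with few conjugates: averaging over the Sylow subgroup
-/

set_option autoImplicit false
set_option linter.unusedSectionVars false
set_option linter.style.haveILetI false
set_option linter.unusedVariables false
set_option linter.unusedSimpArgs false

namespace Cfsg.Agent.Lib.DefectOne.FewInd

open Cfsg Subgroup Finset Cfsg.Agent.Lib.Char.Induced
open Cfsg.Agent.Lib.DefectOne
open scoped ComplexConjugate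

universe u

section Abstract

variable {Γ : Type*} [Group Γ] [Fintype Γ] {p : ℕ} [hp : Fact p.Prime] {x' : Γ}

/-- A character with no invariants under `⟨x'⟩` is orthogonal to the invariant functions. -/
lemma inner_ne_of_invariant (hord : orderOf x' = p) (hnorm : ∀ g : Γ, g * x' * g⁻¹ ∈ zpowers x') {f τ : Γ → ℂ}
    (hτ : IsCharacter Γ τ) (hinv : ∀ (y : Γ) (i : ZMod p), f (y * XX x' i) = f y) (h : classInner f τ ≠ 0) :
    ∑ i : ZMod p, τ (XX x' i) ≠ 0 := by
  classical
  intro hs
  have hp0 : (p : ℂ) ≠ 0 := by exact_mod_cast hp.out.ne_zero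
  have hT := isCharacter_avg hord hnorm hτ
  set T : Γ → ℂ := fun y => (p : ℂ)⁻¹ * ∑ i : ZMod p, τ (y * XX x' i) with hTdef
  have hT1 : T 1 = 0 := by
    simp only [hTdef, one_mul, hs, mul_zero]
  have hT0 : ∀ y, T y = 0 := by
    intro y
    have h1 := Cfsg.Agent.Lib.Char.Values.IsCharacter.norm_le hT y
    rw [hT1, norm_zero] at h1
    exact norm_le_zero_iff.1 h1
  have hsum : ∀ y, ∑ i : ZMod p, τ (y * XX x' i) = 0 := by
    intro y
    have h1 := hT0 y
    simp only [hTdef] at h1
    rcases mul_eq_zero.1 h1 with h2 | h2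
    · exact absurd h2 (inv_ne_zero hp0)
    · exact h2
  have h1 : ∑ i : ZMod p, ∑ y : Γ, f y * conj (τ (y * XX x' i)) = 0 := by
    rw [sum_comm]
    refine sum_eq_zero fun y _ => ?_
    rw [← mul_sum, ← map_sum, hsum, map_zero, mul_zero]
  have h2 : ∀ i : ZMod p, ∑ y : Γ, f y * conj (τ (y * XX x' i)) = ∑ y : Γ, f y * conj (τ y) := by
    intro i
    refine Fintype.sum_equiv (Equiv.mulRight (XX x' i)) _ _ fun y => ?_
    simp only [Equiv.coe_mulRight, hinv]
  simp_rw [h2] at h1
  rw [sum_const, card_univ, ZMod.card, nsmul_eq_mul] at h1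
  apply h
  rw [classInner_def]
  rcases mul_eq_zero.1 h1 with h3 | h3
  · exact absurd h3 hp0
  · rw [h3, mul_zero]

end Abstract

variable {G : Type u} [Group G] [Fintype G]
variable {p : ℕ} [hp : Fact p.Prime] {x : G}
variable {ζ : ℂ} {e t : ℕ} {X Y : Finset (IrrCharacter G)} {δ : IrrCharacter G → ℤ} {ε : ℤ} {b : IrrCharacter G → ZMod p}

/-- The average of a function over `⟨x⟩`. -/
noncomputable def avgN (p : ℕ) [Fact p.Prime] (x : G) (θ : G → ℂ) : normalizer (zpowers x : Set G) → ℂ :=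
  fun y => (p : ℂ)⁻¹ * ∑ i : ZMod p, θ ((y : G) * XX x i)

/-- The generator in the normalizer. -/
def xN (x : G) : normalizer (zpowers x : Set G) := ⟨x, le_normalizer (mem_zpowers x)⟩

lemma orderOf_xN : orderOf (xN x) = orderOf x := Subgroup.orderOf_mk _ _

lemma coe_XX_xN (i : ZMod p) : ((XX (xN x) i : normalizer (zpowers x : Set G)) : G) = XX x i := by
  unfold XX xN
  simp

lemma xN_norm (hord : orderOf x = p) (g : normalizer (zpowers x : Set G)) : g * xN x * g⁻¹ ∈ zpowers (xN x) := by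
  have h1 : (g : G) * x * (g : G)⁻¹ ∈ zpowers x := (mem_normalizer_iff.1 g.2 x).1 (mem_zpowers x)
  refine Subgroup.mem_zpowers_iff.2 ?_
  obtain ⟨k, hk⟩ := Subgroup.mem_zpowers_iff.1 h1
  refine ⟨k, Subtype.ext ?_⟩
  simp only [Subgroup.coe_mul, InvMemClass.coe_inv, Subgroup.coe_zpow, xN]
  exact hk

lemma avgN_eq (θ : G → ℂ) (y : normalizer (zpowers x : Set G)) :
    avgN p x θ y = (p : ℂ)⁻¹ * ∑ i : ZMod p, (fun y : normalizer (zpowers x : Set G) => θ y) (y * XX (xN x) i) := by
  unfold avgN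
  simp only [Subgroup.coe_mul, coe_XX_xN]

lemma isCharacter_avgN (hord : orderOf x = p) {θ : G → ℂ} (hθ : IsCharacter G θ) :
    IsCharacter (normalizer (zpowers x : Set G)) (avgN p x θ) := by
  have h1 := isCharacter_avg (x' := xN x) (p := p) (orderOf_xN.trans hord) (xN_norm hord)
    (Cfsg.Agent.Lib.Char.Basic.isCharacter_restrict hθ (normalizer (zpowers x : Set G)))
  have h2 : avgN p x θ = _ := funext (avgN_eq θ)
  rw [h2]
  exact h1

lemma avgN_off (hord : orderOf x = p) (hcen : ∀ c : G, c * x = x * c → c ∈ zpowers x) {θ : G → ℂ}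
    (hθ : IsClassFunction G θ) (y : normalizer (zpowers x : Set G)) (hy : (y : G) ∉ zpowers x) :
    avgN p x θ y = θ y := by
  have hp0 : (p : ℂ) ≠ 0 := by exact_mod_cast hp.out.ne_zero
  have h3 : ∀ i : ZMod p, θ ((y : G) * XX x i) = θ y := by
    intro i
    obtain ⟨w, hw, hwy⟩ := exists_conj_eq hord hcen y.2 hy (XX_mem_zpowers i)
    rw [← hwy]
    exact hθ _ _
  unfold avgN
  simp_rw [h3]
  rw [sum_const, card_univ, ZMod.card, nsmul_eq_mul]
  field_simp

lemma avgN_on (hord : orderOf x = p) {θ : G → ℂ} {c : ℂ} (hsum : ∑ i : ZMod p, θ (XX x i) = p * c)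
    (y : normalizer (zpowers x : Set G)) (hy : (y : G) ∈ zpowers x) : avgN p x θ y = c := by
  have hp0 : (p : ℂ) ≠ 0 := by exact_mod_cast hp.out.ne_zero
  obtain ⟨j, hj⟩ := exists_XX_of_mem hord hy
  have h3 : ∑ i : ZMod p, θ ((y : G) * XX x i) = ∑ i : ZMod p, θ (XX x i) := by
    refine Fintype.sum_equiv (Equiv.addLeft j) _ _ fun i => ?_
    simp only [hj, Equiv.coe_addLeft, XX_add hord]
  unfold avgN
  rw [h3, hsum]
  field_simp

/-- The constituents of an invariant function are linear and trivial on `⟨x⟩`. -/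
theorem avg_constituent [Fintype (normalizer (zpowers x : Set G))] (hord : orderOf x = p)
    (hcen : ∀ c : G, c * x = x * c → c ∈ zpowers x) (hL : LocalData p x (⊥ : Subgroup G))
    {f : normalizer (zpowers x : Set G) → ℂ} (hinv : ∀ (y : normalizer (zpowers x : Set G)) (i : ZMod p), f (y * XX (xN x) i) = f y)
    (τ : IrrCharacter (normalizer (zpowers x : Set G))) (h : classInner f (τ : _ → ℂ) ≠ 0) :
    ∃ ψ : normalizer (zpowers x : Set G) →* ℂˣ, (τ : _ → ℂ) = hf ψ ∧
      ∀ y : normalizer (zpowers x : Set G), (y : G) ∈ zpowers x → ψ y = 1 := by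
  classical
  have hτc := Cfsg.Agent.Lib.Char.Basic.isCharacter_of_isIrrCharacter τ.2
  have h1 := inner_ne_of_invariant (orderOf_xN.trans hord) (xN_norm hord) hτc hinv h
  set A : Subgroup (normalizer (zpowers x : Set G)) := (zpowers x).subgroupOf (normalizer (zpowers x : Set G)) with hA
  haveI hAn : A.Normal := ⟨fun n hn g => by
    rw [hA, Subgroup.mem_subgroupOf] at hn ⊢
    exact (mem_normalizer_iff.1 g.2 n).1 hn⟩
  have hab : ∀ a b : normalizer (zpowers x : Set G), a * b * a⁻¹ * b⁻¹ ∈ A := by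
    intro a b
    rw [hA, Subgroup.mem_subgroupOf, ← alphaHom_eq_one_iff' hord hcen hL]
    simp only [map_mul, map_inv]
    rw [mul_comm (alphaHom hL a) (alphaHom hL b)]
    group
  have hinner : classInner (fun n : A => (τ : normalizer (zpowers x : Set G) → ℂ) n) (fun _ => 1) ≠ 0 := by
    rw [classInner_def]
    have hA0 : (Nat.card A : ℂ)⁻¹ ≠ 0 := inv_ne_zero (by exact_mod_cast (Nat.card_pos (α := A)).ne')
    refine mul_ne_zero hA0 ?_
    have h2 : ∑ n : A, (τ : normalizer (zpowers x : Set G) → ℂ) n * conj (1 : ℂ) = ∑ i : ZMod p, (τ : normalizer (zpowers x : Set G) → ℂ) (XX (xN x) i) := by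
      symm
      have hmem : ∀ i : ZMod p, XX (xN x) i ∈ A := fun i => by
        rw [hA, Subgroup.mem_subgroupOf, coe_XX_xN]
        exact XX_mem_zpowers i
      refine Fintype.sum_bijective (fun i : ZMod p => (⟨XX (xN x) i, hmem i⟩ : A)) ⟨?_, ?_⟩ _ _ ?_
      · intro i j hij
        have h3 : ((XX (xN x) i : normalizer (zpowers x : Set G)) : G) = XX (xN x) j :=
          congrArg (fun a : A => ((a : normalizer (zpowers x : Set G)) : G)) hij
        rw [coe_XX_xN, coe_XX_xN] at h3
        exact XX_inj hord h3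
      · rintro ⟨n, hn⟩
        rw [hA, Subgroup.mem_subgroupOf] at hn
        obtain ⟨i, hi⟩ := exists_XX_of_mem hord hn
        refine ⟨i, Subtype.ext (Subtype.ext ?_)⟩
        show ((XX (xN x) i : normalizer (zpowers x : Set G)) : G) = n
        rw [coe_XX_xN, hi]
      · intro i
        simp
    rw [h2]
    exact h1
  obtain ⟨h3, -, -⟩ := Cfsg.Agent.Lib.Char.AbelianQuot.linear_of_over_one A hab τ.2 hinner
  have h4 : (τ : normalizer (zpowers x : Set G) → ℂ) 1 = 1 := h3 1
  obtain ⟨ψ, hψ⟩ := Cfsg.Agent.Lib.Char.LinearChars.exists_hom_of_isCharacter_one hτc h4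
  refine ⟨ψ, hψ, fun y hy => ?_⟩
  have h5 : y ∈ A := by
    rw [hA, Subgroup.mem_subgroupOf]
    exact hy
  have h6 := h3 ⟨y, h5⟩
  have h7 : (τ : normalizer (zpowers x : Set G) → ℂ) y = 1 := h6
  rw [hψ] at h7
  exact Units.ext h7

/-- The function `avgN` is invariant. -/
lemma avgN_inv (hord : orderOf x = p) (θ : G → ℂ) (y : normalizer (zpowers x : Set G)) (i : ZMod p) :
    avgN p x θ (y * XX (xN x) i) = avgN p x θ y := by
  unfold avgN
  congr 1
  refine Fintype.sum_equiv (Equiv.addLeft i) _ _ fun j => ?_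
  simp only [Subgroup.coe_mul, coe_XX_xN, mul_assoc, Equiv.coe_addLeft, XX_add hord]

/-- The inner product of `avgN`. -/
theorem inner_avgN [Fintype (normalizer (zpowers x : Set G))] (hord : orderOf x = p)
    (hcen : ∀ c : G, c * x = x * c → c ∈ zpowers x)
    (ψ : normalizer (zpowers x : Set G) →* ℂˣ)
    (hψ : ∀ y : normalizer (zpowers x : Set G), (y : G) ∈ zpowers x → ψ y = 1)
    {θ : G → ℂ} (hθ : IsClassFunction G θ) {c : ℂ} (hsum : ∑ i : ZMod p, θ (XX x i) = p * c) :
    classInner (hf ψ) (avgN p x θ) = classInner (indFun (normalizer (zpowers x : Set G)) (hf ψ)) θ := by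
  classical
  rw [frobenius_reciprocity _ _ _ hθ, classInner_def, classInner_def]
  congr 1
  rw [← sub_eq_zero, ← sum_sub_distrib, sum_N_of_zero hord]
  · have h1 : ∀ i : ZMod p, (XX x i : G) ∈ zpowers x := fun i => XX_mem_zpowers i
    have h2 : ∀ i : ZMod p, hf ψ ⟨XX x i, le_normalizer (XX_mem_zpowers i)⟩ *
        conj (avgN p x θ ⟨XX x i, le_normalizer (XX_mem_zpowers i)⟩) - hf ψ ⟨XX x i, le_normalizer (XX_mem_zpowers i)⟩ *
        conj (θ (XX x i)) = conj c - conj (θ (XX x i)) := by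
      intro i
      show ((ψ _ : ℂˣ) : ℂ) * _ - ((ψ _ : ℂˣ) : ℂ) * _ = _
      rw [hψ _ (h1 i), Units.val_one, one_mul, one_mul, avgN_on hord hsum _ (h1 i)]
    simp_rw [h2]
    rw [sum_sub_distrib, ← map_sum (starRingEnd ℂ) (fun i => θ (XX x i)), hsum, sum_const, card_univ, ZMod.card, nsmul_eq_mul, map_mul, map_natCast, sub_self]
  · intro y hy
    rw [avgN_off hord hcen hθ y hy, sub_self]

end Cfsg.Agent.Lib.DefectOne.FewInd
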