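import Mathlib
import Cfsg.Agent.Lib.DefectOne.FewAvg

/-!
# Sylow subgroups of prime order with few conjugates: the sign `-`
-/

set_option autoImplicit false
set_option linter.unusedSectionVars false
set_option linter.style.haveILetI false
set_option linter.unusedVariables false
set_option linter.unusedSimpArgs false

namespace Cfsg.Agent.Lib.DefectOne.FewInd

open Cfsg Subgroup Finset Cfsg.Agent.Lib.Char.Induced
open Cfsg.Agent.Lib.DefectOne
open scoped ComplexConjugate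

universe u

section Abstract

variable {Γ : Type*} [Group Γ] [Fintype Γ]

lemma isIntegral_of_isCharacter {χ : Γ → ℂ} (hχ : IsCharacter Γ χ) (g : Γ) : IsIntegral ℤ (χ g) := by
  obtain ⟨n, ρ, rfl⟩ := hχ
  exact Cfsg.Agent.Lib.Char.Values.isIntegral_character ρ g

lemma exists_half [DecidableEq Γ] {f : Γ → ℂ} (hint : ∀ y, IsIntegral ℤ (f y)) (hinv : ∀ y, f y⁻¹ = f y)
    (hodd : ∀ y : Γ, y ≠ 1 → y⁻¹ ≠ y) :
    ∀ T : Finset Γ, (∀ y ∈ T, y ≠ 1 ∧ y⁻¹ ∈ T) → ∃ w, IsIntegral ℤ w ∧ ∑ y ∈ T, f y = 2 * w := by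
  intro T
  induction T using Finset.strongInduction with
  | H T ih =>
    intro hT
    rcases T.eq_empty_or_nonempty with rfl | ⟨y, hy⟩
    · exact ⟨0, isIntegral_zero, by simp⟩
    · obtain ⟨h1, h2⟩ := hT y hy
      have hy' : y⁻¹ ∈ T.erase y := mem_erase.2 ⟨hodd y h1, h2⟩
      have hsub : (T.erase y).erase y⁻¹ ⊂ T :=
        lt_of_le_of_lt (erase_subset _ _) (erase_ssubset hy)
      obtain ⟨w, hw, hs⟩ := ih _ hsub (fun u hu => by
        obtain ⟨h3, h4⟩ := mem_erase.1 hu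
        obtain ⟨h5, h6⟩ := mem_erase.1 h4
        obtain ⟨h7, h8⟩ := hT u h6
        refine ⟨h7, mem_erase.2 ⟨fun h => h5 (inv_injective h), mem_erase.2 ⟨fun h => h3 (inv_eq_iff_eq_inv.1 h), h8⟩⟩⟩)
      refine ⟨f y + w, (hint y).add hw, ?_⟩
      rw [← add_sum_erase T _ hy, ← add_sum_erase _ _ hy', hs, hinv]
      ring

/-- A real valued function with integral values and sum zero on a group of odd order. -/
theorem two_dvd_of_sum_zero [DecidableEq Γ] (hodd : Odd (Nat.card Γ)) {f : Γ → ℂ} (hint : ∀ y, IsIntegral ℤ (f y))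
    (hinv : ∀ y, f y⁻¹ = f y) (hs : ∑ y, f y = 0) {s : ℕ} (h1 : f 1 = s) : 2 ∣ s := by
  have hodd' : ∀ y : Γ, y ≠ 1 → y⁻¹ ≠ y := by
    intro y hy h
    apply hy
    have h2 : y ^ 2 = 1 := by
      rw [pow_two]
      nth_rewrite 1 [← h]
      exact inv_mul_cancel y
    have h3 : orderOf y ∣ 2 := orderOf_dvd_of_pow_eq_one h2
    have h4 : orderOf y ∣ Nat.card Γ := orderOf_dvd_natCard y
    have h5 : Nat.Coprime 2 (Nat.card Γ) := Nat.coprime_two_left.2 hodd
    have h6 := Nat.eq_one_of_dvd_coprimes h5 h3 h4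
    exact orderOf_eq_one_iff.1 h6
  obtain ⟨w, hw, hw2⟩ := exists_half hint hinv hodd' (univ.erase 1) (fun y hy => by
    have h3 := (mem_erase.1 hy).1
    refine ⟨h3, mem_erase.2 ⟨?_, mem_univ _⟩⟩
    intro h
    apply h3
    simpa using h)
  rw [← add_sum_erase univ _ (mem_univ (1 : Γ)), hw2, h1] at hs
  refine Cfsg.Agent.Lib.Char.Integrality.natCast_dvd_of_isIntegral_div (by norm_num) ?_
  have h2 : ((s : ℂ) / ((2 : ℕ) : ℂ)) = -w := by
    push_cast
    field_simp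
    linear_combination hs
  rw [h2]
  exact hw.neg

lemma sum_zmod_two (F : ZMod 2 → ℂ) : ∑ i : ZMod 2, F i = F 0 + F 1 := by
  have h : (univ : Finset (ZMod 2)) = {0, 1} := by decide
  rw [h, sum_pair (by decide)]

/-- The parity of the degree of a character vanishing on an involution. -/
theorem two_dvd_of_invol {χ : Γ → ℂ} (hχ : IsCharacter Γ χ) {τ : Γ} (hτ : orderOf τ = 2) (h0 : χ τ = 0) :
    2 ∣ charDegree χ := by
  classical
  haveI : Fact (Nat.Prime 2) := ⟨Nat.prime_two⟩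
  set τ' : zpowers τ := ⟨τ, mem_zpowers τ⟩ with hτ'
  have hord : orderOf τ' = 2 := by
    rw [← hτ]
    exact Subgroup.orderOf_mk _ _
  have hnorm : ∀ g : zpowers τ, g * τ' * g⁻¹ ∈ zpowers τ' := by
    intro g
    obtain ⟨k, hk⟩ := Subgroup.mem_zpowers_iff.1 g.2
    have hcomm : g * τ' = τ' * g := Subtype.ext (by
      show (g : Γ) * τ = τ * (g : Γ)
      rw [← hk]
      exact ((Commute.refl τ).zpow_left k).eq)
    rw [hcomm, mul_inv_cancel_right]
    exact mem_zpowers _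
  have h1 := isCharacter_avg hord hnorm (Cfsg.Agent.Lib.Char.Basic.isCharacter_restrict hχ (zpowers τ))
  set T := fun y : zpowers τ => ((2 : ℕ) : ℂ)⁻¹ * ∑ i : ZMod 2, χ ((y * XX τ' i : zpowers τ) : Γ) with hT
  have h2 := Cfsg.Agent.Lib.Char.Values.IsCharacter.charDegree_cast h1
  have h3 : T 1 = ((2 : ℕ) : ℂ)⁻¹ * χ 1 := by
    simp only [hT, one_mul]
    congr 1
    rw [sum_zmod_two]
    have h5 : XX τ' (0 : ZMod 2) = 1 := XX_zero _
    have h6 : ((XX τ' (1 : ZMod 2) : zpowers τ) : Γ) = τ := by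
      rw [XX_one hord]
    rw [h5, h6, h0, add_zero]
    rfl
  have h4 : χ 1 = ((charDegree χ : ℕ) : ℂ) := (Cfsg.Agent.Lib.Char.Values.IsCharacter.charDegree_cast hχ).symm
  have h5 : (charDegree T : ℂ) = T 1 := h2
  rw [h3, h4] at h5
  have h6 : charDegree χ = 2 * charDegree T := by
    have h7 : ((charDegree χ : ℕ) : ℂ) = ((2 * charDegree T : ℕ) : ℂ) := by
      push_cast
      push_cast at h5
      rw [h5]
      field_simp
    exact_mod_cast h7
  exact ⟨_, h6⟩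

end Abstract

variable {G : Type u} [Group G] [Fintype G]
variable {p : ℕ} [hp : Fact p.Prime] {x : G}
variable {ζ : ℂ} {e t : ℕ} {X Y : Finset (IrrCharacter G)} {δ : IrrCharacter G → ℤ} {ε : ℤ} {b : IrrCharacter G → ZMod p}

/-- The sum on `⟨x⟩` of the exceptional characters. -/
lemma sum_XX_Y (hζ : IsPrimitiveRoot ζ p) (hT : SCTable x ζ e t X Y δ ε b) (hε : ε = -1) {d s : ℕ}
    (hds : d + e = p * s) (hd : ∀ θ ∈ Y, (θ : G → ℂ) 1 = d) {θ : IrrCharacter G} (hθ : θ ∈ Y) :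
    ∑ i : ZMod p, (θ : G → ℂ) (XX x i) = (p : ℂ) * s := by
  rw [← add_sum_erase univ _ (mem_univ (0 : ZMod p)), XX_zero, hd θ hθ, hT.sum_Y hζ hθ, hε]
  have h1 : (d : ℂ) + e = p * s := by exact_mod_cast hds
  push_cast
  linear_combination h1

lemma same_reg (hT : SCTable x ζ e t X Y δ ε b) {g : G} (hg : ¬ p ∣ orderOf g) {θ θ₀ : IrrCharacter G}
    (hθ : θ ∈ Y) (hθ₀ : θ₀ ∈ Y) : (θ : G → ℂ) g = (θ₀ : G → ℂ) g := by
  have hε0 : (ε : ℂ) ≠ 0 := by
    rcases hT.sign with h | h <;> rw [h] <;> norm_num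
  have h1 := hT.rel g hg θ hθ
  have h2 := hT.rel g hg θ₀ hθ₀
  rw [← h2] at h1
  exact mul_left_cancel₀ hε0 h1

/-- The average does not depend on the exceptional character. -/
lemma avgN_same (hζ : IsPrimitiveRoot ζ p) (hT : SCTable x ζ e t X Y δ ε b) (hε : ε = -1) (hord : orderOf x = p)
    (hcen : ∀ c : G, c * x = x * c → c ∈ zpowers x) (hL : LocalData p x (⊥ : Subgroup G)) {d s : ℕ}
    (hds : d + e = p * s) (hd : ∀ θ ∈ Y, (θ : G → ℂ) 1 = d) {θ θ₀ : IrrCharacter G} (hθ : θ ∈ Y) (hθ₀ : θ₀ ∈ Y) :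
    avgN p x (θ : G → ℂ) = avgN p x (θ₀ : G → ℂ) := by
  funext y
  have hcl : ∀ χ : IrrCharacter G, IsClassFunction G (χ : G → ℂ) := fun χ =>
    Cfsg.Agent.Lib.Char.Basic.isClassFunction_of_isCharacter (Cfsg.Agent.Lib.Char.Basic.isCharacter_of_isIrrCharacter χ.2)
  by_cases hy : (y : G) ∈ zpowers x
  · rw [avgN_on hord (sum_XX_Y hζ hT hε hds hd hθ) y hy, avgN_on hord (sum_XX_Y hζ hT hε hds hd hθ₀) y hy]
  · rw [avgN_off hord hcen (hcl θ) y hy, avgN_off hord hcen (hcl θ₀) y hy]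
    exact same_reg hT (not_dvd_orderOf hord hcen hL y.2 hy) hθ hθ₀

/-- If an induced linear character meets `Y` then it is the sum of `Y`. -/
theorem ind_eq_sum [Fintype (normalizer (zpowers x : Set G))] (hζ : IsPrimitiveRoot ζ p) (hT : SCTable x ζ e t X Y δ ε b)
    (hε : ε = -1) (hord : orderOf x = p)
    (hcen : ∀ c : G, c * x = x * c → c ∈ zpowers x) (hL : LocalData p x (⊥ : Subgroup G)) {d s : ℕ}
    (hds : d + e = p * s) (hd : ∀ θ ∈ Y, (θ : G → ℂ) 1 = d)
    (hidx : (normalizer (zpowers x : Set G)).index = t * d)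
    (ψ : normalizer (zpowers x : Set G) →* ℂˣ)
    (hψ : ∀ y : normalizer (zpowers x : Set G), (y : G) ∈ zpowers x → ψ y = 1)
    {θ₁ : IrrCharacter G} (hθ₁ : θ₁ ∈ Y)
    (hne : classInner (indFun (normalizer (zpowers x : Set G)) (hf ψ)) (θ₁ : G → ℂ) ≠ 0) :
    (∀ g, indFun (normalizer (zpowers x : Set G)) (hf ψ) g = ∑ θ ∈ Y, (θ : G → ℂ) g) ∧
      ∀ θ ∈ Y, classInner (indFun (normalizer (zpowers x : Set G)) (hf ψ)) (θ : G → ℂ) = 1 := by
  classical
  have hcl : ∀ χ : IrrCharacter G, IsClassFunction G (χ : G → ℂ) := fun χ =>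
    Cfsg.Agent.Lib.Char.Basic.isClassFunction_of_isCharacter (Cfsg.Agent.Lib.Char.Basic.isCharacter_of_isIrrCharacter χ.2)
  have hI : IsCharacter G (indFun (normalizer (zpowers x : Set G)) (hf ψ)) :=
    Cfsg.Agent.Lib.Char.IndRep.isCharacter_indFun _
      (Cfsg.Agent.Lib.Char.Basic.isCharacter_of_isIrrCharacter (Cfsg.Agent.Lib.Char.LinearChars.isIrr_of_hom ψ))
  refine eq_sum_of_deg hI Y hd ?_ ?_
  · intro θ hθ
    have h1 := inner_avgN hord hcen ψ hψ (hcl θ) (sum_XX_Y hζ hT hε hds hd hθ)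
    have h2 := inner_avgN hord hcen ψ hψ (hcl θ₁) (sum_XX_Y hζ hT hε hds hd hθ₁)
    rw [avgN_same hζ hT hε hord hcen hL hds hd hθ hθ₁, h2] at h1
    rw [← h1]
    exact hne
  · rw [indFun_one, hidx, hT.cardY]
    simp [hf]

/-- The case where `e` is even: the average is a linear character. -/
theorem even_case (hζ : IsPrimitiveRoot ζ p) (hT : SCTable x ζ e t X Y δ ε b)
    (hε : ε = -1) (hord : orderOf x = p)
    (hcen : ∀ c : G, c * x = x * c → c ∈ zpowers x) (hL : LocalData p x (⊥ : Subgroup G)) {d s : ℕ}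
    (hds : d + e = p * s) (hd : ∀ θ ∈ Y, (θ : G → ℂ) 1 = d)
    (hidx : (normalizer (zpowers x : Set G)).index = t * d)
    (φ : normalizer (zpowers x : Set G) →* ℂˣ)
    (hφ : ∀ y : normalizer (zpowers x : Set G), (y : G) ∈ zpowers x → φ y = 1)
    (hconj : ∀ (y y' : normalizer (zpowers x : Set G)) (c : G), (y' : G) = c⁻¹ * y * c → φ y' = φ y)
    {θ₁ : IrrCharacter G} (hθ₁ : θ₁ ∈ Y)
    (hne : classInner (indFun (normalizer (zpowers x : Set G)) (hf φ)) (θ₁ : G → ℂ) ≠ 0) : s = 1 := by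
  classical
  letI : Fintype (normalizer (zpowers x : Set G)) := Fintype.ofFinite _
  haveI : Finite (IrrCharacter (normalizer (zpowers x : Set G))) := Cfsg.Agent.Lib.Char.Complete.finite_irr
  letI : Fintype (IrrCharacter (normalizer (zpowers x : Set G))) := Fintype.ofFinite _
  have hcl : ∀ χ : IrrCharacter G, IsClassFunction G (χ : G → ℂ) := fun χ =>
    Cfsg.Agent.Lib.Char.Basic.isClassFunction_of_isCharacter (Cfsg.Agent.Lib.Char.Basic.isCharacter_of_isIrrCharacter χ.2)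
  have hc : IsCharacter G (θ₁ : G → ℂ) := Cfsg.Agent.Lib.Char.Basic.isCharacter_of_isIrrCharacter θ₁.2
  obtain ⟨hsum, hone⟩ := ind_eq_sum hζ hT hε hord hcen hL hds hd hidx φ hφ hθ₁ hne
  set f := avgN p x (θ₁ : G → ℂ) with hfdef
  have hfc : IsCharacter _ f := isCharacter_avgN hord hc
  have hfcl := Cfsg.Agent.Lib.Char.Basic.isClassFunction_of_isCharacter hfc
  have hinv : ∀ (y : normalizer (zpowers x : Set G)) (i : ZMod p), f (y * XX (xN x) i) = f y := avgN_inv hord _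
  have hdec := Cfsg.Agent.Lib.Char.Complete.eq_sum_classInner f hfcl
  have key : ∀ τ : IrrCharacter (normalizer (zpowers x : Set G)), (τ : _ → ℂ) ≠ hf φ → classInner f (τ : _ → ℂ) = 0 := by
    intro τ hτ
    by_contra hne2
    obtain ⟨ψ, hψ, hψ1⟩ := avg_constituent hord hcen hL hinv τ hne2
    rw [hψ] at hne2
    have h1 : classInner (hf ψ) f ≠ 0 := by
      rw [← Cfsg.Agent.Lib.Char.Ortho.classInner_conj_symm]
      exact (map_ne_zero _).2 hne2
    rw [hfdef, inner_avgN hord hcen ψ hψ1 (hcl θ₁) (sum_XX_Y hζ hT hε hds hd hθ₁)] at h1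
    obtain ⟨hsum2, -⟩ := ind_eq_sum hζ hT hε hord hcen hL hds hd hidx ψ hψ1 hθ₁ h1
    have h2 : indFun (normalizer (zpowers x : Set G)) (hf ψ) = indFun (normalizer (zpowers x : Set G)) (hf φ) :=
      funext fun g => by rw [hsum2, hsum]
    apply hτ
    rw [hψ]
    funext y
    show ((ψ y : ℂˣ) : ℂ) = ((φ y : ℂˣ) : ℂ)
    rw [eq_of_indFun_eq _ φ ψ hconj h2 y]
  set τφ : IrrCharacter (normalizer (zpowers x : Set G)) := ⟨hf φ, Cfsg.Agent.Lib.Char.LinearChars.isIrr_of_hom φ⟩ with hτφ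
  have hcoef : classInner f (τφ : _ → ℂ) = 1 := by
    have h1 : classInner (hf φ) f = 1 := by
      rw [hfdef, inner_avgN hord hcen φ hφ (hcl θ₁) (sum_XX_Y hζ hT hε hds hd hθ₁)]
      exact hone θ₁ hθ₁
    rw [← Cfsg.Agent.Lib.Char.Ortho.classInner_conj_symm] at h1
    have h2 := congrArg (starRingEnd ℂ) h1
    rw [Complex.conj_conj, map_one] at h2
    exact h2
  have h1 : f 1 = s := avgN_on hord (sum_XX_Y hζ hT hε hds hd hθ₁) 1 (one_mem _)
  have h2 := congrFun hdec 1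
  rw [Finset.sum_apply, sum_eq_single τφ] at h2
  · rw [Pi.smul_apply, hcoef, h1, one_smul] at h2
    have h3 : (τφ : normalizer (zpowers x : Set G) → ℂ) 1 = 1 := by
      show ((φ 1 : ℂˣ) : ℂ) = 1
      simp
    rw [h3] at h2
    exact_mod_cast h2
  · intro τ _ hτ
    rw [Pi.smul_apply, key τ (fun h => hτ (Subtype.ext h)), zero_smul]
  · intro h
    exact absurd (mem_univ _) h

end Cfsg.Agent.Lib.DefectOne.FewInd
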