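import Mathlib
import Cfsg.Agent.Lib.DefectOne.FewEnd

/-!
# Sylow subgroups of prime order with few conjugates: the case of odd `e`
-/

set_option autoImplicit false
set_option linter.unusedSectionVars false
set_option linter.style.haveILetI false
set_option linter.unusedVariables false
set_option linter.unusedSimpArgs false

namespace Cfsg.Agent.Lib.DefectOne.FewInd

open Cfsg Subgroup Finset Cfsg.Agent.Lib.Char.Induced
open Cfsg.Agent.Lib.DefectOne
open scoped ComplexConjugate

universe u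

variable {G : Type u} [Group G] [Fintype G]
variable {p : ℕ} [hp : Fact p.Prime] {x : G}
variable {ζ : ℂ} {e t : ℕ} {X Y : Finset (IrrCharacter G)} {δ : IrrCharacter G → ℤ} {ε : ℤ} {b : IrrCharacter G → ZMod p}

/-- The conjugate of an exceptional character. -/
noncomputable def barChar (θ : IrrCharacter G) : IrrCharacter G :=
  ⟨fun g => conj ((θ : G → ℂ) g), Cfsg.Agent.Lib.DefectOne.isIrr_map starRingAut θ.2⟩

lemma barChar_apply (θ : IrrCharacter G) (g : G) : (barChar θ : G → ℂ) g = conj ((θ : G → ℂ) g) := rfl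

/-- The conjugate of an exceptional character is exceptional. -/
theorem bar_mem_Y (hζ : IsPrimitiveRoot ζ p) (hT : SCTable x ζ e t X Y δ ε b) (hε : ε = -1) (ht : 1 < t)
    {θ₀ : IrrCharacter G} (hθ₀ : θ₀ ∈ Y) : barChar θ₀ ∈ Y := by
  classical
  have hsumE : ∑ i ∈ univ.erase (0 : ZMod p), (θ₀ : G → ℂ) (XX x i) = e := by
    rw [hT.sum_Y hζ hθ₀, hε]
    push_cast
    ring
  by_contra hno
  have hep : (e : ℂ) ≠ 0 := by exact_mod_cast hT.epos.ne'
  by_cases hbX : barChar θ₀ ∈ X
  · have h1 : ∀ i ∈ univ.erase (0 : ZMod p), (θ₀ : G → ℂ) (XX x i) = (δ (barChar θ₀) : ℂ) := by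
      intro i hi
      have h2 := hT.valX (barChar θ₀) hbX i (mem_erase.1 hi).1
      rw [barChar_apply] at h2
      have h3 := congrArg (starRingEnd ℂ) h2
      rw [Complex.conj_conj] at h3
      rw [h3]
      simp
    have h2 := hsumE
    rw [sum_congr rfl h1, sum_const, card_erase_of_mem (mem_univ _), card_univ, ZMod.card, nsmul_eq_mul] at h2
    have h3 : (((p - 1 : ℕ) : ℤ)) * δ (barChar θ₀) = e := by exact_mod_cast h2
    have hepos := hT.epos
    have hhet := hT.het
    have h5 : ((p - 1 : ℕ) : ℤ) = (e : ℤ) * t := by exact_mod_cast hhet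
    rcases hT.signX (barChar θ₀) hbX with h4 | h4
    · rw [h4, mul_one, h5] at h3
      have h6 : (e : ℤ) * t = e * 1 := by rw [h3, mul_one]
      have h7 : (t : ℤ) = 1 := mul_left_cancel₀ (by exact_mod_cast hepos.ne') h6
      omega
    · rw [h4, h5] at h3
      have h6 : (0 : ℤ) < e := by exact_mod_cast hepos
      have h7 : (0 : ℤ) < t := by omega
      nlinarith [mul_pos h6 h7]
  · have hb2 : barChar θ₀ ∉ X ∪ Y := by
      simp only [mem_union, not_or]
      exact ⟨hbX, hno⟩
    have h1 : ∀ i ∈ univ.erase (0 : ZMod p), (θ₀ : G → ℂ) (XX x i) = 0 := by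
      intro i hi
      have h2 := hT.out (barChar θ₀) hb2 i (mem_erase.1 hi).1
      rw [barChar_apply] at h2
      exact (map_eq_zero (starRingEnd ℂ)).1 h2
    have h2 := hsumE
    rw [sum_eq_zero h1] at h2
    exact hep h2.symm

/-- The value of the sum of `Y` at an element outside the conjugates of the normalizer. -/
lemma indFun_eq_zero (N : Subgroup G) (f : N → ℂ) {g : G} (hg : ∀ a : G, a⁻¹ * g * a ∉ N) : indFun N f g = 0 := by
  rw [indFun_apply, sum_eq_zero, mul_zero]
  intro a _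
  exact extendByZero_of_notMem N f (hg a)

/-- **The case of odd `e` does not occur.** -/
theorem odd_false (hζ : IsPrimitiveRoot ζ p) (hT : SCTable x ζ e t X Y δ ε b)
    (hε : ε = -1) (hord : orderOf x = p)
    (hcen : ∀ c : G, c * x = x * c → c ∈ zpowers x) (hL : LocalData p x (⊥ : Subgroup G)) {d s : ℕ}
    (hodd : p ≠ 2) (heo : Odd e) (ht : 1 < t)
    (hds : d + e = p * s) (hd : ∀ θ ∈ Y, (θ : G → ℂ) 1 = d)
    (hidx : (normalizer (zpowers x : Set G)).index = t * d) : False := by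
  classical
  letI : Fintype (normalizer (zpowers x : Set G)) := Fintype.ofFinite _
  haveI : Finite (IrrCharacter (normalizer (zpowers x : Set G))) := Cfsg.Agent.Lib.Char.Complete.finite_irr
  letI : Fintype (IrrCharacter (normalizer (zpowers x : Set G))) := Fintype.ofFinite _
  have hp' := hp.out
  have hpodd : Odd p := hp'.odd_of_ne_two hodd
  have hcl : ∀ χ : IrrCharacter G, IsClassFunction G (χ : G → ℂ) := fun χ =>
    Cfsg.Agent.Lib.Char.Basic.isClassFunction_of_isCharacter (Cfsg.Agent.Lib.Char.Basic.isCharacter_of_isIrrCharacter χ.2)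
  obtain ⟨θ₀, hθ₀⟩ : Y.Nonempty := card_pos.1 (by rw [hT.cardY]; omega)
  have hc : IsCharacter G (θ₀ : G → ℂ) := Cfsg.Agent.Lib.Char.Basic.isCharacter_of_isIrrCharacter θ₀.2
  have hepos := hT.epos
  have hhet := hT.het
  -- `t` is even
  have htev : Even t := by
    have h1 : Even (e * t) := by
      rw [← hhet]
      obtain ⟨k, hk⟩ := hpodd
      exact ⟨k, by omega⟩
    rcases Nat.even_mul.1 h1 with h2 | h2
    · exact absurd heo (Nat.not_odd_iff_even.2 h2)
    · exact h2
  -- an involution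
  have hcardG : Nat.card G = Nat.card (normalizer (zpowers x : Set G)) * (t * d) := by
    rw [← Subgroup.card_mul_index (normalizer (zpowers x : Set G)), hidx]
  have h2G : 2 ∣ Nat.card G := by
    rw [hcardG]
    exact Dvd.dvd.mul_left (Dvd.dvd.mul_right htev.two_dvd _) _
  haveI : Fact (Nat.Prime 2) := ⟨Nat.prime_two⟩
  obtain ⟨τ, hτ⟩ := exists_prime_orderOf_dvd_card' 2 h2G
  have hNodd : Odd (Nat.card (normalizer (zpowers x : Set G))) := by
    rw [hT.cardN]
    exact hpodd.mul heo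
  have hτN : ∀ a : G, a⁻¹ * τ * a ∉ normalizer (zpowers x : Set G) := by
    intro a h
    have h1 : orderOf (a⁻¹ * τ * a) = 2 := by
      rw [← hτ]
      have h2 : a⁻¹ * τ * a = a⁻¹ * τ * a⁻¹⁻¹ := by rw [inv_inv]
      rw [h2]
      exact (MulAut.conj a⁻¹).orderOf_eq τ
    have h2 := Subgroup.orderOf_dvd_natCard _ h
    rw [h1] at h2
    obtain ⟨k, hk⟩ := hNodd
    omega
  have hτreg : ¬ p ∣ orderOf τ := by
    rw [hτ]
    intro h
    exact hodd ((Nat.prime_dvd_prime_iff_eq hp' Nat.prime_two).1 h)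
  have hIτ : ∀ ψ : normalizer (zpowers x : Set G) →* ℂˣ, indFun (normalizer (zpowers x : Set G)) (hf ψ) τ = 0 :=
    fun ψ => indFun_eq_zero _ _ hτN
  -- the average
  set f := avgN p x (θ₀ : G → ℂ) with hfdef
  have hfc : IsCharacter _ f := isCharacter_avgN hord hc
  have hfcl := Cfsg.Agent.Lib.Char.Basic.isClassFunction_of_isCharacter hfc
  have hinv : ∀ (y : normalizer (zpowers x : Set G)) (i : ZMod p), f (y * XX (xN x) i) = f y := avgN_inv hord _
  have hsumθ := sum_XX_Y hζ hT hε hds hd hθ₀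
  have hf1 : f 1 = s := avgN_on hord hsumθ 1 (one_mem _)
  have hs0 : s ≠ 0 := by
    rintro rfl
    have : d + e = 0 := by simpa using hds
    omega
  -- a constituent
  obtain ⟨τ₀, hτ₀⟩ : ∃ τ₀ : IrrCharacter (normalizer (zpowers x : Set G)), classInner f (τ₀ : _ → ℂ) ≠ 0 := by
    by_contra hno
    push Not at hno
    have h1 := congrFun (Cfsg.Agent.Lib.Char.Complete.eq_sum_classInner f hfcl) 1
    rw [Finset.sum_apply, sum_eq_zero (fun χ _ => by rw [Pi.smul_apply, hno χ, zero_smul]), hf1] at h1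
    exact hs0 (by exact_mod_cast h1)
  obtain ⟨ψ₀, hψ₀, hψ₀1⟩ := avg_constituent hord hcen hL hinv τ₀ hτ₀
  rw [hψ₀] at hτ₀
  have h1 : classInner (hf ψ₀) f ≠ 0 := by
    rw [← Cfsg.Agent.Lib.Char.Ortho.classInner_conj_symm]
    exact (map_ne_zero _).2 hτ₀
  rw [hfdef, inner_avgN hord hcen ψ₀ hψ₀1 (hcl θ₀) hsumθ] at h1
  obtain ⟨hsum, -⟩ := ind_eq_sum hζ hT hε hord hcen hL hds hd hidx ψ₀ hψ₀1 hθ₀ h1
  -- the value at the involution
  have hθτ : (θ₀ : G → ℂ) τ = 0 := by
    have h2 := hsum τ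
    rw [hIτ, sum_congr rfl (fun θ hθ => same_reg hT hτreg hθ hθ₀), sum_const, hT.cardY, nsmul_eq_mul] at h2
    have ht0 : (t : ℂ) ≠ 0 := by
      have : t ≠ 0 := by omega
      exact_mod_cast this
    rcases mul_eq_zero.1 h2.symm with h3 | h3
    · exact absurd h3 ht0
    · exact h3
  have h2d : 2 ∣ charDegree (θ₀ : G → ℂ) := two_dvd_of_invol hc hτ hθτ
  have hdeg : charDegree (θ₀ : G → ℂ) = d := by
    have h2 := hd θ₀ hθ₀
    rw [irr_degree_cast] at h2
    exact_mod_cast h2
  rw [hdeg] at h2d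
  have hsodd : Odd s := by
    have h3 : Odd (p * s) := by
      rw [← hds]
      exact Even.add_odd (even_iff_two_dvd.2 h2d) heo
    exact (Nat.odd_mul.1 h3).2
  -- the trivial character does not occur
  set ψ₁ : normalizer (zpowers x : Set G) →* ℂˣ := 1 with hψ₁
  have hψ₁1 : ∀ y : normalizer (zpowers x : Set G), (y : G) ∈ zpowers x → ψ₁ y = 1 := fun y _ => rfl
  have hhf1 : hf ψ₁ = fun _ => 1 := by
    funext y
    simp [hf, hψ₁]
  have h0 : classInner (indFun (normalizer (zpowers x : Set G)) (hf ψ₁)) (θ₀ : G → ℂ) = 0 := by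
    by_contra hne
    obtain ⟨hsum1, -⟩ := ind_eq_sum hζ hT hε hord hcen hL hds hd hidx ψ₁ hψ₁1 hθ₀ hne
    set tr := Cfsg.Agent.Lib.Blocks.Principal.trivChar G with htr
    have h2 : classInner (indFun (normalizer (zpowers x : Set G)) (hf ψ₁)) (tr : G → ℂ) = 1 := by
      rw [frobenius_reciprocity _ _ _ (hcl tr), hhf1]
      exact Cfsg.Agent.Lib.Char.Ortho.classInner_irr_self Cfsg.Agent.Lib.Char.Burnside2.isIrrCharacter_one
    have h3 : indFun (normalizer (zpowers x : Set G)) (hf ψ₁) = ∑ θ ∈ Y, (θ : G → ℂ) := by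
      funext g
      rw [hsum1, Finset.sum_apply]
    rw [h3, Cfsg.Agent.Lib.Char.Ortho.classInner_sum_left, sum_eq_zero] at h2
    · exact zero_ne_one h2
    · intro θ hθ
      refine Cfsg.Agent.Lib.Char.Ortho.classInner_irr_of_ne θ.2 tr.2 ?_
      intro h
      have h4 : θ = tr := Subtype.ext h
      have h5 := (hT.triv ht).1
      rw [h4] at hθ
      exact (Finset.disjoint_left.1 hT.disj h5) hθ
  have hsum0 : ∑ y, f y = 0 := by
    have h2 := inner_avgN hord hcen ψ₁ hψ₁1 (hcl θ₀) hsumθ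
    rw [h0, hhf1, classInner_def] at h2
    have hN0 : (Nat.card (normalizer (zpowers x : Set G)) : ℂ)⁻¹ ≠ 0 := inv_ne_zero (by exact_mod_cast Nat.card_pos.ne')
    have h3 := (mul_eq_zero.1 h2).resolve_left hN0
    simp only [one_mul] at h3
    rw [← map_sum] at h3
    exact (map_eq_zero _).1 h3
  -- the values are real
  have hreal : ∀ y, conj (f y) = f y := by
    intro y
    have h2 := avgN_same hζ hT hε hord hcen hL hds hd (bar_mem_Y hζ hT hε ht hθ₀) hθ₀
    have h3 : avgN p x (barChar θ₀ : G → ℂ) y = conj (f y) := by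
      rw [hfdef]
      unfold avgN
      rw [map_mul, map_sum, map_inv₀, map_natCast]
      rfl
    rw [← h3, h2]
  have hinv2 : ∀ y, f y⁻¹ = f y := by
    intro y
    rw [Cfsg.Agent.Lib.Char.Ortho.character_inv_of_isCharacter hfc, hreal]
  have hs2 := two_dvd_of_sum_zero hNodd (isIntegral_of_isCharacter hfc) hinv2 hsum0 hf1
  obtain ⟨k, hk⟩ := hsodd
  omega

end Cfsg.Agent.Lib.DefectOne.FewInd
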