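import Mathlib
import Cfsg.Agent.Lib.DefectOne.FewOdd
import Cfsg.Agent.Lib.DefectOne.PSLOut

/-!
# Sylow subgroups of prime order with few conjugates: the main theorem
-/

set_option autoImplicit false
set_option linter.unusedSectionVars false
set_option linter.style.haveILetI false
set_option linter.unusedVariables false
set_option linter.unusedSimpArgs false

namespace Cfsg.Agent.Lib.DefectOne.FewInd

open Cfsg Subgroup Finset Cfsg.Agent.Lib.Char.Induced
open Cfsg.Agent.Lib.DefectOne
open scoped ComplexConjugate MatrixGroups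

universe u

variable {G : Type u} [Group G] [Fintype G]
variable {p : ℕ} [hp : Fact p.Prime] {x : G}
variable {ζ : ℂ} {e t : ℕ} {X Y : Finset (IrrCharacter G)} {δ : IrrCharacter G → ℤ} {ε : ℤ} {b : IrrCharacter G → ZMod p}

/-- The `+` part of an induced nontrivial quadratic character vanishes. -/
lemma A_nonpos (hperf : commutator G = ⊤) (hT : SCTable x ζ e t X Y δ ε b) {n M : ℕ}
    (hG : Nat.card G = p * e * M) (hM : M = 1 + n * p) (hn : 1 ≤ n) (hen : 2 * n < p + 3)
    (hidx : (normalizer (zpowers x : Set G)).index = M)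
    (φ : normalizer (zpowers x : Set G) →* ℂˣ) (hφn : ∃ y, φ y ≠ 1)
    (hconj : ∀ (y y' : normalizer (zpowers x : Set G)) (c : G), (y' : G) = c⁻¹ * y * c → φ y' = φ y)
    {m : IrrCharacter G → ℕ}
    (hm : ∀ χ : IrrCharacter G, classInner (indFun (normalizer (zpowers x : Set G)) (hf φ)) (χ : G → ℂ) = m χ) :
    ∑ χ ∈ X, (m χ : ℤ) * δ χ ≤ 0 := by
  refine sum_nonpos fun χ hχ => ?_
  rcases hT.signX χ hχ with h | h
  · rw [h, mul_one]
    by_contra hne
    have hne' : m χ ≠ 0 := by
      intro h0
      rw [h0] at hne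
      simp at hne
    have htr : χ ≠ Cfsg.Agent.Lib.Blocks.Principal.trivChar G := by
      rintro rfl
      have h1 := inner_triv_zero φ hφn
      rw [hm] at h1
      exact hne' (by exact_mod_cast h1)
    have hcong := hT.degX χ hχ
    rw [h] at hcong
    refine no_plus hperf hT hG hM hn hen hidx φ hconj χ htr hcong ?_
    rw [hm]
    exact_mod_cast hne'
  · rw [h]
    have : (0 : ℤ) ≤ m χ := by positivity
    linarith

set_option maxHeartbeats 1000000 in
/-- **The case of at least two Sylow multiples.** -/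
theorem few_large (hperf : commutator G = ⊤) (hζ : IsPrimitiveRoot ζ p) (hT : SCTable x ζ e t X Y δ ε b)
    (hord : orderOf x = p) (hcen : ∀ c : G, c * x = x * c → c ∈ zpowers x) (hL : LocalData p x (⊥ : Subgroup G))
    (P : Sylow p G) (hz : zpowers x = (P : Subgroup G)) (hodd : p ≠ 2) {n M : ℕ}
    (hG : Nat.card G = p * e * M) (hM : M = 1 + n * p) (hn : 2 ≤ n) (hen : 2 * n < p + 3) (he2 : 2 ≤ e)
    (hidx : (normalizer (zpowers x : Set G)).index = M) :
    ∃ (m : ℕ) (F : Type) (_ : Field F) (_ : Fintype F), Fintype.card F = 2 ^ m ∧ p = 2 ^ m + 1 ∧ 3 < p ∧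
      Nonempty (G ≃* PSL(2, F)) := by
  classical
  haveI : Finite (IrrCharacter G) := Cfsg.Agent.Lib.Char.Complete.finite_irr
  letI : Fintype (IrrCharacter G) := Fintype.ofFinite _
  have hp' := hp.out
  have hpodd : Odd p := hp'.odd_of_ne_two hodd
  have hhet := hT.het
  have hepos := hT.epos
  have hepZ : (p : ℤ) - 1 = e * t := by
    have h3 : ((p - 1 : ℕ) : ℤ) = ((e * t : ℕ) : ℤ) := by rw [hhet]
    push_cast [Nat.cast_sub hp'.one_le] at h3
    exact h3
  have ht0 : 0 < t := by
    rcases Nat.eq_zero_or_pos t with h | h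
    · rw [h, mul_zero] at hhet
      have := hp'.two_le
      omega
    · exact h
  have hMZ : (M : ℤ) = 1 + n * p := by rw [hM]; push_cast; ring
  have hpZ : (0 : ℤ) < p := by exact_mod_cast hp'.pos
  have hpr : Prime (p : ℤ) := Nat.prime_iff_prime_int.1 hp'
  have hep : e < p := by
    have h1 : e ≤ e * t := Nat.le_mul_of_pos_right _ ht0
    have := hp'.two_le
    omega
  have hpe : ¬ (p : ℤ) ∣ (e : ℤ) := by
    intro h
    have h1 : p ∣ e := by exact_mod_cast h
    have h2 := Nat.le_of_dvd hT.epos h1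
    omega
  -- the case `t = 1`
  by_cases ht1 : t = 1
  · exfalso
    have heev : Even e := by
      rw [ht1, mul_one] at hhet
      rw [← hhet]
      obtain ⟨k, hk⟩ := hpodd
      exact ⟨k, by omega⟩
    obtain ⟨φ, hφ1, hφn, hconj⟩ := exists_quad hord hcen hL hT.cardN hodd heev hepos
    have hI : IsCharacter G (indFun (normalizer (zpowers x : Set G)) (hf φ)) :=
      Cfsg.Agent.Lib.Char.IndRep.isCharacter_indFun _
        (Cfsg.Agent.Lib.Char.Basic.isCharacter_of_isIrrCharacter (Cfsg.Agent.Lib.Char.LinearChars.isIrr_of_hom φ))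
    obtain ⟨m, hm, hval⟩ := exists_decomp hI
    have h1 := sum_ind hζ hT hL φ hφ1 m hval
    have hA := A_nonpos hperf hT hG hM (by omega) hen hidx φ hφn hconj hm
    have hB : (0 : ℤ) ≤ ∑ θ ∈ Y, (m θ : ℤ) := sum_nonneg fun θ _ => by positivity
    rw [ht1] at h1
    push_cast at h1
    have hε : ε = -1 := by
      rcases hT.sign with h | h
      · rw [h] at h1
        omega
      · exact h
    rw [hε] at h1
    have hB1 : 0 < ∑ θ ∈ Y, (m θ : ℤ) := by omega
    obtain ⟨θ, hθ, hθ0⟩ : ∃ θ ∈ Y, m θ ≠ 0 := by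
      by_contra hno
      push Not at hno
      rw [sum_eq_zero (fun θ hθ => by rw [hno θ hθ]; simp)] at hB1
      exact lt_irrefl _ hB1
    have htr : θ ≠ Cfsg.Agent.Lib.Blocks.Principal.trivChar G := by
      rintro rfl
      have h2 := inner_triv_zero φ hφn
      rw [hm] at h2
      exact hθ0 (by exact_mod_cast h2)
    have hcong : (charDegree (θ : G → ℂ) : ℤ) ≡ 1 [ZMOD p] := by
      obtain ⟨s, hs, -⟩ := hT.degY θ hθ
      rw [hε] at hs
      rw [hs]
      rw [ht1] at hepZ
      symm
      apply (Int.modEq_iff_dvd).2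
      refine ⟨s - 1, ?_⟩
      push_cast at hepZ
      linear_combination hepZ
    refine no_plus hperf hT hG hM (by omega) hen hidx φ hconj θ htr hcong ?_
    rw [hm]
    exact_mod_cast hθ0
  have ht2 : 2 ≤ t := by omega
  -- the sign
  rcases hT.sign with hε | hε
  · exact (plus_false' hperf hζ hT hε hG hM hn he2 hen ht2).elim
  -- the degrees
  have hkey : ∀ θ ∈ Y, ∃ s : ℕ, (charDegree (θ : G → ℂ) : ℤ) = p * s - e ∧ (t : ℤ) * (p * s - e) = 1 + n * p := by
    intro θ hθ
    obtain ⟨s, hs, hs1⟩ := hT.degY θ hθ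
    have hs1' := hs1 hε
    rw [hε] at hs
    refine ⟨s, by rw [hs]; ring, ?_⟩
    have hnd : ¬ p ∣ charDegree (θ : G → ℂ) := by
      intro h
      have h1 : (p : ℤ) ∣ (charDegree (θ : G → ℂ) : ℤ) := by exact_mod_cast h
      rw [hs] at h1
      have h2 := (dvd_add_right (dvd_mul_right _ _)).1 h1
      rw [neg_one_mul, dvd_neg] at h2
      exact hpe h2
    obtain ⟨k, hk⟩ := exists_cofactor hG θ.2 hnd
    have hk0 : 1 ≤ k := by
      rcases Nat.eq_zero_or_pos k with h | h
      · rw [h, mul_zero] at hk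
        have : 0 < e * M := Nat.mul_pos hT.epos (by omega)
        omega
      · exact h
    have hkZ : (e : ℤ) * (1 + n * p) = (p * s + (-1) * e) * k := by
      have h1 : (e : ℤ) * M = (charDegree (θ : G → ℂ) : ℤ) * k := by exact_mod_cast hk
      rw [hMZ, hs] at h1
      exact h1
    have hk1 : (p : ℤ) ∣ (k : ℤ) + 1 := by
      have h1 : (p : ℤ) ∣ (e : ℤ) * ((k : ℤ) + 1) := ⟨s * k - e * n, by linear_combination hkZ⟩
      exact (hpr.dvd_or_dvd h1).resolve_left hpe
    obtain ⟨c, hc⟩ := hk1
    have hc1 : 1 ≤ c := by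
      by_contra hneg
      push Not at hneg
      have h1 : (k : ℤ) ≥ 1 := by exact_mod_cast hk0
      have h2 : c ≤ 0 := by omega
      nlinarith
    have hk2 : (k : ℤ) = c * p - 1 := by linear_combination hc
    have hdpos : (0 : ℤ) < charDegree (θ : G → ℂ) := by exact_mod_cast irr_degree_pos' θ
    refine FewNum.num_minus' (p := p) (e := e) (n := n) (s := s) (c := c) (t := t) (p' := p) rfl hp'
      (by exact_mod_cast hT.epos) hepZ (by exact_mod_cast ht2) (by positivity) (by exact_mod_cast hen)
      (by exact_mod_cast hs1') hc1 (by rw [hs] at hdpos; linarith) ?_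
    rw [← hk2]
    linear_combination -hkZ
  obtain ⟨θ₀, hθ₀⟩ : Y.Nonempty := card_pos.1 (by rw [hT.cardY]; omega)
  obtain ⟨s, hs, hst⟩ := hkey θ₀ hθ₀
  set d := charDegree (θ₀ : G → ℂ) with hddef
  have hds : d + e = p * s := by
    have h1 : ((d + e : ℕ) : ℤ) = ((p * s : ℕ) : ℤ) := by
      push_cast
      rw [hs]
      ring
    exact_mod_cast h1
  have hMt : M = t * d := by
    have h1 : (M : ℤ) = ((t * d : ℕ) : ℤ) := by
      push_cast
      rw [hMZ, hs, hst]
    exact_mod_cast h1
  have hidx' : (normalizer (zpowers x : Set G)).index = t * d := by rw [hidx, hMt]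
  have hd : ∀ θ ∈ Y, (θ : G → ℂ) 1 = d := by
    intro θ hθ
    obtain ⟨s', hs', hst'⟩ := hkey θ hθ
    rw [irr_degree_cast]
    have h1 : (t : ℤ) * (charDegree (θ : G → ℂ) : ℤ) = t * d := by
      rw [hs', hst', hs, hst]
    have h2 : (charDegree (θ : G → ℂ) : ℤ) = d := mul_left_cancel₀ (by exact_mod_cast ht0.ne') h1
    have h3 : charDegree (θ : G → ℂ) = d := by exact_mod_cast h2
    rw [h3]
  rcases Nat.even_or_odd e with heev | heo
  · obtain ⟨φ, hφ1, hφn, hconj⟩ := exists_quad hord hcen hL hT.cardN hodd heev hepos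
    have hI : IsCharacter G (indFun (normalizer (zpowers x : Set G)) (hf φ)) :=
      Cfsg.Agent.Lib.Char.IndRep.isCharacter_indFun _
        (Cfsg.Agent.Lib.Char.Basic.isCharacter_of_isIrrCharacter (Cfsg.Agent.Lib.Char.LinearChars.isIrr_of_hom φ))
    obtain ⟨m, hm, hval⟩ := exists_decomp hI
    have h1 := sum_ind hζ hT hL φ hφ1 m hval
    have hA := A_nonpos hperf hT hG hM (by omega) hen hidx φ hφn hconj hm
    rw [hε] at h1
    have ht0Z : (0 : ℤ) < t := by exact_mod_cast ht0
    have hB1 : 0 < ∑ θ ∈ Y, (m θ : ℤ) := by nlinarith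
    obtain ⟨θ₁, hθ₁, hθ10⟩ : ∃ θ ∈ Y, m θ ≠ 0 := by
      by_contra hno
      push Not at hno
      rw [sum_eq_zero (fun θ hθ => by rw [hno θ hθ]; simp)] at hB1
      exact lt_irrefl _ hB1
    have hs1 : s = 1 := by
      refine even_case hζ hT hε hord hcen hL hds hd hidx' φ hφ1 hconj hθ₁ ?_
      rw [hm]
      exact_mod_cast hθ10
    rw [hs1, mul_one] at hds
    have ht3 : 3 ≤ t := by
      have h2 : (t : ℤ) = n + 1 := by
        have h3 : (p : ℤ) * t = p * (n + 1) := by
          have h4 := hst
          rw [hs1] at h4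
          push_cast at h4
          linear_combination h4 - hepZ
        exact mul_left_cancel₀ hpZ.ne' h3
      have h3 : t = n + 1 := by exact_mod_cast h2
      omega
    exact psl_of_table hζ hodd hT hε hord hcen P hz hds hd hidx' (by omega) (Or.inr ht3)
  · exact (odd_false hζ hT hε hord hcen hL hodd heo (by omega) hds hd hidx').elim

/-- **The case of `p + 1` Sylow subgroups.** -/
theorem few_one (hperf : commutator G = ⊤) (hord : orderOf x = p) (hcen : ∀ c : G, c * x = x * c → c ∈ zpowers x)
    (P : Sylow p G) (hz : zpowers x = (P : Subgroup G)) (hPc : Nat.card P = p) (hodd : p ≠ 2) {e t : ℕ}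
    (het : p - 1 = e * t) (hM : Nat.card (Sylow p G) = p + 1) (hG : Nat.card G = p * e * (p + 1)) :
    3 < p ∧ Nonempty (G ≃* PSL(2, ZMod p)) := by
  classical
  have hp' := hp.out
  have ht0 : 0 < t := by
    rcases Nat.eq_zero_or_pos t with h | h
    · rw [h, mul_zero] at het
      have := hp'.two_le
      omega
    · exact h
  have he0 : 0 < e := by
    rcases Nat.eq_zero_or_pos e with h | h
    · rw [h, zero_mul] at het
      have := hp'.two_le
      omega
    · exact h
  have hep : e < p := by
    have h1 : e ≤ e * t := Nat.le_mul_of_pos_right _ ht0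
    have := hp'.two_le
    omega
  have hbig : Nat.card G < p ^ 3 := by
    rw [hG]
    have h2 : e + 1 ≤ p := hep
    have h3 : p * (e * (p + 1)) < p * (p * p) := by
      apply Nat.mul_lt_mul_of_pos_left _ hp'.pos
      have := hp'.two_le
      have h4 : e * (p + 1) ≤ (p - 1) * (p + 1) := Nat.mul_le_mul_right _ (by omega)
      obtain ⟨q, rfl⟩ : ∃ q, p = q + 1 := ⟨p - 1, by omega⟩
      simp only [Nat.add_sub_cancel] at h4
      nlinarith
    calc p * e * (p + 1) = p * (e * (p + 1)) := by ring
      _ < p * (p * p) := h3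
      _ = p ^ 3 := by ring
  obtain ⟨h3, f, hf⟩ := PerfectN1.surj_of_card hperf P hPc hM hbig
  refine ⟨h3, ?_⟩
  have hk := Subgroup.card_mul_index f.ker
  rw [Subgroup.index_ker, f.range_eq_top.2 hf, Subgroup.card_top, hG] at hk
  have hcardp := card_psl_zmod (p := p) h3
  have h2K : Nat.card f.ker * t = 2 := by
    have h5 : Nat.card f.ker * (p * (p ^ 2 - 1)) = 2 * (p * e * (p + 1)) := by
      rw [← hcardp, ← hk]
      ring
    have h6 : p ^ 2 - 1 = (p - 1) * (p + 1) := by
      obtain ⟨q, rfl⟩ : ∃ q, p = q + 1 := ⟨p - 1, by omega⟩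
      simp only [Nat.add_sub_cancel]
      have : (q + 1) ^ 2 = q * (q + 1 + 1) + 1 := by ring
      rw [this]
      simp
    rw [h6, het] at h5
    have h7 : (p * e * (p + 1)) * (Nat.card f.ker * t) = (p * e * (p + 1)) * 2 := by
      linear_combination h5
    exact Nat.eq_of_mul_eq_mul_left (by positivity) h7
  have hk1 : f.ker = ⊥ := by
    by_contra hne
    have hK2 : Nat.card f.ker = 2 := by
      have h5 : Nat.card f.ker ∣ 2 := ⟨t, h2K.symm⟩
      rcases (Nat.dvd_prime Nat.prime_two).1 h5 with h6 | h6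
      · exact absurd (Subgroup.eq_bot_of_card_eq _ h6) hne
      · exact h6
    -- a normal subgroup of order two is central
    obtain ⟨u, hu, hu1⟩ : ∃ u ∈ f.ker, u ≠ 1 := by
      by_contra hno
      push Not at hno
      exact hne ((Subgroup.eq_bot_iff_forall _).2 hno)
    have huo : orderOf u = 2 := by
      have h5 := Subgroup.orderOf_dvd_natCard f.ker hu
      rw [hK2] at h5
      rcases (Nat.dvd_prime Nat.prime_two).1 h5 with h6 | h6
      · exact absurd (orderOf_eq_one_iff.1 h6) hu1
      · exact h6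
    have huz : u * x = x * u := by
      have h5 : x * u * x⁻¹ ∈ f.ker := (inferInstance : f.ker.Normal).conj_mem u hu x
      have h6 : (⟨x * u * x⁻¹, h5⟩ : f.ker) = ⟨u, hu⟩ := by
        have h7 : Nat.card f.ker = 2 := hK2
        by_contra hne2
        have h8 : ∀ a : f.ker, a = 1 ∨ a = ⟨u, hu⟩ := by
          intro a
          by_contra hno
          push Not at hno
          have h9 : ({1, ⟨u, hu⟩, a} : Finset f.ker).card ≤ Fintype.card f.ker := card_le_univ _
          rw [← Nat.card_eq_fintype_card, hK2, card_insert_of_notMem, card_insert_of_notMem, card_singleton] at h9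
          · omega
          · simpa using hno.2.symm
          · simp only [mem_insert, mem_singleton, not_or]
            refine ⟨fun h => hu1 ?_, fun h => hno.1 h.symm⟩
            exact (congrArg Subtype.val h).symm
        rcases h8 ⟨x * u * x⁻¹, h5⟩ with h9 | h9
        · exfalso
          apply hu1
          have h10 : x * u * x⁻¹ = 1 := congrArg Subtype.val h9
          have h11 : u = x⁻¹ * (x * u * x⁻¹) * x := by group
          rw [h11, h10]
          group
        · exact hne2 h9
      have h7 : x * u * x⁻¹ = u := congrArg Subtype.val h6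
      calc u * x = (x * u * x⁻¹) * x := by rw [h7]
        _ = x * u := by group
    have h5 := hcen u huz
    have h6 := Subgroup.orderOf_dvd_natCard (zpowers x) h5
    rw [Nat.card_zpowers, huo, hord] at h6
    exact hodd ((Nat.prime_dvd_prime_iff_eq Nat.prime_two hp').1 h6).symm
  exact equiv_of_surj hf hk1

/-- **Brauer's theorem.** -/
theorem few_main (hperf : commutator G = ⊤) (hord : orderOf x = p) (hcen : ∀ c : G, c * x = x * c → c ∈ zpowers x)
    (P : Sylow p G) (hz : zpowers x = (P : Subgroup G)) (hn : 2 * Nat.card (Sylow p G) < (p + 1) * (p + 2)) :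
    (3 < p ∧ Nonempty (G ≃* PSL(2, ZMod p))) ∨
      ∃ (m : ℕ) (F : Type) (_ : Field F) (_ : Fintype F), Fintype.card F = 2 ^ m ∧ p = 2 ^ m + 1 ∧ 3 < p ∧
        Nonempty (G ≃* PSL(2, F)) := by
  classical
  have hp' := hp.out
  have hPc : Nat.card P = p := by
    have h1 : Nat.card (P : Subgroup G) = Nat.card (zpowers x) := by rw [hz]
    rw [Nat.card_zpowers, hord] at h1
    exact h1
  have hdvdG : p ∣ Nat.card G := by
    have h1 := Subgroup.card_subgroup_dvd_card (P : Subgroup G)
    rwa [show Nat.card (P : Subgroup G) = p from hPc] at h1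
  have hnot := not_normalizer_le_of_perfect hperf P hdvdG
  have hsyl : ¬ p ^ 2 ∣ Nat.card G := by
    intro h
    have h1 := P.pow_dvd_card_of_pow_dvd_card h
    rw [hPc] at h1
    have h2 := Nat.le_of_dvd hp'.pos h1
    have h3 := hp'.two_le
    nlinarith
  have hL := localData_bot hord hcen hsyl
  have hζ : IsPrimitiveRoot (Complex.exp (2 * Real.pi * Complex.I / p)) p := Complex.isPrimitiveRoot_exp p hp'.ne_zero
  obtain ⟨e, t, X, Y, δ, ε, b, hT⟩ := exists_scTable hord hcen P hz hζ
  have hN : normalizer ((P : Subgroup G) : Set G) = normalizer (zpowers x : Set G) := by rw [hz]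
  have hCc : centralizer ((P : Subgroup G) : Set G) = centralizer (zpowers x : Set G) := by rw [hz]
  -- `e ≥ 2`
  have he2 : 2 ≤ e := by
    by_contra hlt
    have he1 : e = 1 := by
      have := hT.epos
      omega
    apply hnot
    rw [hN, hCc]
    have h1 : normalizer (zpowers x : Set G) = zpowers x := by
      symm
      refine Subgroup.eq_of_le_of_card_ge le_normalizer ?_
      rw [hT.cardN, he1, Nat.card_zpowers, hord, mul_one]
    rw [h1]
    intro c hc
    rw [Subgroup.mem_centralizer_iff]
    intro y hy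
    obtain ⟨k, rfl⟩ := Subgroup.mem_zpowers_iff.1 hc
    obtain ⟨l, rfl⟩ := Subgroup.mem_zpowers_iff.1 hy
    exact (Commute.refl x).zpow_zpow _ _
  have hhet := hT.het
  have hodd : p ≠ 2 := by
    rintro rfl
    have h1 : e * t = 1 := hhet.symm
    have h2 := Nat.eq_one_of_mul_eq_one_right h1
    omega
  have hM1 : (normalizer (zpowers x : Set G)).index = Nat.card (Sylow p G) := by
    rw [← hN]
    exact (Sylow.card_eq_index_normalizer P).symm
  set M := Nat.card (Sylow p G) with hMdef
  have hGc : Nat.card G = p * e * M := by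
    rw [← Subgroup.card_mul_index (normalizer (zpowers x : Set G)), hT.cardN, hM1]
  obtain ⟨n, hn'⟩ : ∃ n, M = 1 + n * p := by
    have h1 := card_sylow_modEq_one p G
    have h2 : 1 ≤ M := Nat.card_pos
    have h3 : p ∣ M - 1 := (Nat.modEq_iff_dvd' h2).1 h1.symm
    obtain ⟨n, hn⟩ := h3
    exact ⟨n, by rw [mul_comm, ← hn]; omega⟩
  have hn0 : n ≠ 0 := by
    rintro rfl
    have hM : M = 1 := by rw [hn']; ring
    rw [hM] at hM1
    have htop : normalizer (zpowers x : Set G) = ⊤ := Subgroup.index_eq_one.1 hM1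
    apply hnot
    rw [hN, hCc]
    intro g hg
    have hg' : ∀ h : G, h ∈ normalizer (zpowers x : Set G) := fun h => by rw [htop]; exact mem_top h
    let f : G →* (ZMod p)ˣ := (alphaHom hL).comp ((MonoidHom.id G).codRestrict _ hg')
    have h1 := PerfectN1.hom_trivial (fun u v => mul_comm u v) hperf f g
    have h2 := (alphaHom_eq_one_iff hL ⟨g, hg' g⟩).1 h1
    rw [Subgroup.mem_centralizer_iff]
    intro y hy
    obtain ⟨k, rfl⟩ := Subgroup.mem_zpowers_iff.1 hy
    have hc : Commute x g := h2.symm
    exact (hc.zpow_left k).eq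
  have hen : 2 * n < p + 3 := by
    rw [hn'] at hn
    have h1 : p * (2 * n) < p * (p + 3) := by
      have : 2 * (1 + n * p) = p * (2 * n) + 2 := by ring
      have h2 : (p + 1) * (p + 2) = p * (p + 3) + 2 := by ring
      omega
    exact Nat.lt_of_mul_lt_mul_left h1
  by_cases hn1 : n = 1
  · left
    have hM2 : M = p + 1 := by rw [hn', hn1]; ring
    rw [hM2] at hGc
    exact few_one hperf hord hcen P hz hPc hodd hhet hM2 hGc
  · right
    exact few_large hperf hζ hT hord hcen hL P hz hodd hGc hn' (by omega) hen he2 hM1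

end Cfsg.Agent.Lib.DefectOne.FewInd
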