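import Mathlib
import Cfsg.Agent.Lib.DefectOne.BTNum
import Cfsg.Agent.Lib.DefectOne.FewMain

/-!
# The degrees in the principal block for a group of order `p q^b g₀`
-/

set_option autoImplicit false
set_option linter.style.haveILetI false
set_option linter.unusedVariables false
set_option linter.unusedSectionVars false
set_option linter.unusedSimpArgs false

namespace Cfsg.Agent.Lib.DefectOne.BT

open Cfsg Subgroup Finset
open Cfsg.Agent.Lib.DefectOne Cfsg.Agent.Lib.DefectOne.FewInd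

universe u

lemma not_dvd_of_cong {p D : ℕ} (hp : p.Prime) (hc : (D : ℤ) ≡ 1 [ZMOD p] ∨ (D : ℤ) ≡ -1 [ZMOD p]) : ¬ p ∣ D := by
  intro h
  have h1 : (p : ℤ) ∣ (D : ℤ) := by exact_mod_cast h
  have h2 : (p : ℤ) ∣ 1 := by
    rcases hc with hc | hc
    · have h3 := Int.modEq_iff_dvd.1 hc.symm
      have h4 : (1 : ℤ) = (D : ℤ) - ((D : ℤ) - 1) := by ring
      rw [h4]
      exact dvd_sub h1 h3
    · have h3 := Int.modEq_iff_dvd.1 hc.symm
      have h4 : (1 : ℤ) = ((D : ℤ) - -1) - (D : ℤ) := by ring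
      rw [h4]
      exact dvd_sub h3 h1
  have h3 : p ∣ 1 := by exact_mod_cast h2
  exact hp.one_lt.ne' (Nat.dvd_one.1 h3)

lemma dvd_g₀ {p q b g₀ D : ℕ} (hp : p.Prime) (hq : q.Prime) (hD : D ∣ p * q ^ b * g₀) (hnq : ¬ q ∣ D) (hnp : ¬ p ∣ D) :
    D ∣ g₀ := by
  have h1 : Nat.Coprime D p := ((Nat.Prime.coprime_iff_not_dvd hp).2 hnp).symm
  have h2 : Nat.Coprime D (q ^ b) := Nat.Coprime.pow_right _ ((Nat.Prime.coprime_iff_not_dvd hq).2 hnq).symm
  rw [mul_assoc] at hD
  have h3 := h1.dvd_of_dvd_mul_left hD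
  exact h2.dvd_of_dvd_mul_left h3

/-- A degree which is `≡ ±1` modulo `p` and not `1` is divisible by `q`. -/
lemma q_dvd_of_cong {p q b g₀ D : ℕ} (hp : p.Prime) (hq : q.Prime) (hD : D ∣ p * q ^ b * g₀) (hg : g₀ < p - 1) (hg0 : 0 < g₀)
    (hD2 : 2 ≤ D) (hc : (D : ℤ) ≡ 1 [ZMOD p] ∨ (D : ℤ) ≡ -1 [ZMOD p]) : q ∣ D := by
  by_contra hnq
  have h1 := dvd_g₀ hp hq hD hnq (not_dvd_of_cong hp hc)
  have h2 := Nat.le_of_dvd hg0 h1
  have hp2 := hp.two_le
  rcases hc with hc | hc
  · obtain ⟨w, hw⟩ := Int.modEq_iff_dvd.1 hc.symm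
    have hw0 : 1 ≤ w := by
      by_contra hneg
      have hw0 : w ≤ 0 := by omega
      have : (p : ℤ) * w ≤ 0 := mul_nonpos_of_nonneg_of_nonpos (by positivity) hw0
      have : (2 : ℤ) ≤ D := by exact_mod_cast hD2
      omega
    have : (p : ℤ) ≤ (p : ℤ) * w := le_mul_of_one_le_right (by positivity) hw0
    have h3 : (D : ℤ) ≤ g₀ := by exact_mod_cast h2
    have h4 : (g₀ : ℤ) < p - 1 := by omega
    omega
  · obtain ⟨w, hw⟩ := Int.modEq_iff_dvd.1 hc.symm
    have hw0 : 1 ≤ w := by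
      by_contra hneg
      have hw0 : w ≤ 0 := by omega
      have : (p : ℤ) * w ≤ 0 := mul_nonpos_of_nonneg_of_nonpos (by positivity) hw0
      have : (2 : ℤ) ≤ D := by exact_mod_cast hD2
      omega
    have : (p : ℤ) ≤ (p : ℤ) * w := le_mul_of_one_le_right (by positivity) hw0
    have h3 : (D : ℤ) ≤ g₀ := by exact_mod_cast h2
    have h4 : (g₀ : ℤ) < p - 1 := by omega
    omega

variable {G : Type u} [Group G] [Fintype G]

/-- The degrees of the principal block. -/
theorem table_deg {p q b g₀ e t : ℕ} (hp : p.Prime) (hq : q.Prime) (hperf : commutator G = ⊤)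
    (hG : Nat.card G = p * q ^ b * g₀) (hg : g₀ < p - 1)
    {X Y : Finset (IrrCharacter G)} {δ : IrrCharacter G → ℤ} {ε : ℤ}
    (hcardY : Y.card = t) (hdisj : Disjoint X Y)
    (hsignX : ∀ χ ∈ X, δ χ = 1 ∨ δ χ = -1) (hsign : ε = 1 ∨ ε = -1)
    (hdegX : ∀ χ ∈ X, (charDegree (χ : G → ℂ) : ℤ) ≡ δ χ [ZMOD p])
    (hdegY : ∀ θ ∈ Y, (charDegree (θ : G → ℂ) : ℤ) ≡ ε * e [ZMOD p])
    (hrel : ∀ θ ∈ Y, ε * (charDegree (θ : G → ℂ) : ℤ) = ∑ χ ∈ X, δ χ * (charDegree (χ : G → ℂ) : ℤ))
    (htriv : 1 < t → Cfsg.Agent.Lib.Blocks.Principal.trivChar G ∈ X ∧ δ (Cfsg.Agent.Lib.Blocks.Principal.trivChar G) = 1)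
    (hTin : Cfsg.Agent.Lib.Blocks.Principal.trivChar G ∈ X ∪ Y) (he0 : 0 < e) (het : p - 1 = e * t) :
    2 ≤ t ∧ Cfsg.Agent.Lib.Blocks.Principal.trivChar G ∈ X ∧ δ (Cfsg.Agent.Lib.Blocks.Principal.trivChar G) = 1 ∧
      (∀ χ ∈ X, χ ≠ Cfsg.Agent.Lib.Blocks.Principal.trivChar G → q ∣ charDegree (χ : G → ℂ)) ∧
      ∀ θ ∈ Y, ¬ q ∣ charDegree (θ : G → ℂ) ∧ charDegree (θ : G → ℂ) ∣ g₀ ∧
        ((ε = 1 ∧ charDegree (θ : G → ℂ) = e) ∨ (ε = -1 ∧ charDegree (θ : G → ℂ) + e = p)) := by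
  classical
  set T := Cfsg.Agent.Lib.Blocks.Principal.trivChar G with hTdef
  have hG0 : 0 < g₀ := by
    rcases Nat.eq_zero_or_pos g₀ with h | h
    · rw [h, mul_zero] at hG
      exact absurd hG Nat.card_pos.ne'
    · exact h
  have hp3 : 3 ≤ p := by
    have := hp.two_le
    omega
  have hpZ : (3 : ℤ) ≤ p := by exact_mod_cast hp3
  have hdvd : ∀ χ : IrrCharacter G, charDegree (χ : G → ℂ) ∣ p * q ^ b * g₀ := by
    intro χ
    rw [← hG]
    exact Cfsg.Agent.Lib.Blocks.HeightZero.charDegree_dvd_card χ.2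
  have hdeg2 : ∀ χ : IrrCharacter G, χ ≠ T → 2 ≤ charDegree (χ : G → ℂ) := by
    intro χ hχ
    have h1 := irr_degree_pos' χ
    by_contra hlt
    have h2 : charDegree (χ : G → ℂ) = 1 := by omega
    exact hχ (eq_triv_of_deg_one hperf χ h2)
  have hX : ∀ χ ∈ X, χ ≠ T → q ∣ charDegree (χ : G → ℂ) := by
    intro χ hχ hne
    refine q_dvd_of_cong hp hq (hdvd χ) hg hG0 (hdeg2 χ hne) ?_
    have := hdegX χ hχ
    rcases hsignX χ hχ with h | h <;> rw [h] at this
    · exact Or.inl this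
    · exact Or.inr this
  have hep : e * t + 1 = p := by omega
  have ht0 : 0 < t := by
    rcases Nat.eq_zero_or_pos t with h | h
    · rw [h, mul_zero] at het
      omega
    · exact h
  have hqZ : ¬ (q : ℤ) ∣ 1 := by
    intro h
    have h1 : q ∣ 1 := by exact_mod_cast h
    exact hq.one_lt.ne' (Nat.dvd_one.1 h1)
  -- if the trivial character lies in `X` with sign one, the degrees of `Y` are prime to `q`
  have hYq : T ∈ X → δ T = 1 → ∀ θ ∈ Y, ¬ q ∣ charDegree (θ : G → ℂ) := by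
    intro hTX hδT θ hθ hdv
    have h1 := hrel θ hθ
    rw [← add_sum_erase X _ hTX, hδT] at h1
    have h2 : charDegree ((T : IrrCharacter G) : G → ℂ) = 1 := by
      have h3 := irr_degree_cast T
      have h4 : ((T : IrrCharacter G) : G → ℂ) 1 = 1 := rfl
      rw [h4] at h3
      exact_mod_cast h3.symm
    rw [h2] at h1
    have h3 : (q : ℤ) ∣ ∑ χ ∈ X.erase T, δ χ * (charDegree (χ : G → ℂ) : ℤ) := by
      refine dvd_sum fun χ hχ => ?_
      refine Dvd.dvd.mul_left ?_ _
      exact_mod_cast hX χ (mem_of_mem_erase hχ) (ne_of_mem_erase hχ)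
    have h4 : (q : ℤ) ∣ (charDegree (θ : G → ℂ) : ℤ) := by exact_mod_cast hdv
    apply hqZ
    have h5 : (1 : ℤ) = ε * (charDegree (θ : G → ℂ) : ℤ) - ∑ χ ∈ X.erase T, δ χ * (charDegree (χ : G → ℂ) : ℤ) := by
      rw [h1]
      push_cast
      ring
    rw [h5]
    exact dvd_sub (Dvd.dvd.mul_left h4 _) h3
  -- the case `t = 1`
  have ht2 : 2 ≤ t := by
    by_contra hlt
    have ht1 : t = 1 := by omega
    rw [ht1, mul_one] at hep
    obtain ⟨θ₀, hθ₀⟩ : Y.Nonempty := card_pos.1 (by omega)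
    have hcong : (charDegree (θ₀ : G → ℂ) : ℤ) ≡ 1 [ZMOD p] ∨ (charDegree (θ₀ : G → ℂ) : ℤ) ≡ -1 [ZMOD p] := by
      have h1 := hdegY θ₀ hθ₀
      have h2 : (e : ℤ) = p - 1 := by
        have : ((e + 1 : ℕ) : ℤ) = p := by rw [hep]
        push_cast at this
        linarith
      rcases hsign with h | h
      · right
        rw [h, h2] at h1
        refine h1.trans ?_
        apply Int.modEq_iff_dvd.2
        exact ⟨-1, by ring⟩
      · left
        rw [h, h2] at h1
        refine h1.trans ?_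
        apply Int.modEq_iff_dvd.2
        exact ⟨1, by ring⟩
    by_cases hTX : T ∈ X
    · have hδT : δ T = 1 := by
        rcases hsignX T hTX with h | h
        · exact h
        · exfalso
          have h1 := hdegX T hTX
          rw [h] at h1
          have h2 : charDegree ((T : IrrCharacter G) : G → ℂ) = 1 := by
            have h3 := irr_degree_cast T
            have h4 : ((T : IrrCharacter G) : G → ℂ) 1 = 1 := rfl
            rw [h4] at h3
            exact_mod_cast h3.symm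
          rw [h2] at h1
          obtain ⟨w, hw⟩ := Int.modEq_iff_dvd.1 h1.symm
          have h3 : (p : ℤ) ∣ 2 := ⟨w, by push_cast at hw; linarith⟩
          have h4 : p ∣ 2 := by exact_mod_cast h3
          have := Nat.le_of_dvd (by norm_num) h4
          omega
      have hne : θ₀ ≠ T := by
        rintro rfl
        exact (disjoint_left.1 hdisj hTX) hθ₀
      exact (hYq hTX hδT θ₀ hθ₀) (q_dvd_of_cong hp hq (hdvd θ₀) hg hG0 (hdeg2 θ₀ hne) hcong)
    · have hTY : T ∈ Y := by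
        rcases mem_union.1 hTin with h | h
        · exact absurd h hTX
        · exact h
      have h1 := hrel T hTY
      have h2 : charDegree ((T : IrrCharacter G) : G → ℂ) = 1 := by
        have h3 := irr_degree_cast T
        have h4 : ((T : IrrCharacter G) : G → ℂ) 1 = 1 := rfl
        rw [h4] at h3
        exact_mod_cast h3.symm
      rw [h2] at h1
      have h3 : (q : ℤ) ∣ ∑ χ ∈ X, δ χ * (charDegree (χ : G → ℂ) : ℤ) := by
        refine dvd_sum fun χ hχ => ?_
        refine Dvd.dvd.mul_left ?_ _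
        have hne : χ ≠ T := by
          rintro rfl
          exact hTX hχ
        exact_mod_cast hX χ hχ hne
      rw [← h1] at h3
      apply hqZ
      rcases hsign with h | h
      · rw [h] at h3
        simpa using h3
      · rw [h] at h3
        simpa using h3
  obtain ⟨hTX, hδT⟩ := htriv (by omega)
  refine ⟨ht2, hTX, hδT, hX, fun θ hθ => ?_⟩
  have h1 := hYq hTX hδT θ hθ
  have hepZ : (e : ℤ) * t + 1 = p := by exact_mod_cast hep
  have hep' : (0 : ℤ) < e := by exact_mod_cast he0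
  have ht2Z : (2 : ℤ) ≤ t := by exact_mod_cast ht2
  have hepl : (e : ℤ) < p := by nlinarith
  have hdY := Int.modEq_iff_dvd.1 (hdegY θ hθ).symm
  have hnp : ¬ p ∣ charDegree (θ : G → ℂ) := by
    intro hdv
    have h2 : (p : ℤ) ∣ (charDegree (θ : G → ℂ) : ℤ) := by exact_mod_cast hdv
    have h3 : (p : ℤ) ∣ ε * e := by
      have h4 := dvd_sub h2 hdY
      simpa using h4
    have h5 : (p : ℤ) ∣ e := by
      rcases hsign with h | h
      · rw [h] at h3
        simpa using h3
      · rw [h] at h3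
        simpa using h3
    have := Int.le_of_dvd hep' h5
    omega
  have h2 := dvd_g₀ hp hq (hdvd θ) h1 hnp
  refine ⟨h1, h2, ?_⟩
  have hdle : charDegree (θ : G → ℂ) ≤ g₀ := Nat.le_of_dvd hG0 h2
  have hdlt : ((charDegree (θ : G → ℂ) : ℕ) : ℤ) < p := by
    have : charDegree (θ : G → ℂ) < p := by omega
    exact_mod_cast this
  have hd0 : (0 : ℤ) < ((charDegree (θ : G → ℂ) : ℕ) : ℤ) := by exact_mod_cast irr_degree_pos' θ
  rcases hsign with h | h
  · left
    refine ⟨h, ?_⟩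
    rw [h, one_mul] at hdY
    have h3 : (charDegree (θ : G → ℂ) : ℤ) - e = 0 := by
      apply Int.eq_zero_of_abs_lt_dvd hdY
      rw [abs_lt]
      constructor <;> linarith
    have h4 : (charDegree (θ : G → ℂ) : ℤ) = e := by linarith
    exact_mod_cast h4
  · right
    refine ⟨h, ?_⟩
    rw [h] at hdY
    obtain ⟨w, hw⟩ := hdY
    have hw1 : w = 1 := by
      have h3 : 0 < (p : ℤ) * w := by nlinarith
      have hw0 : 0 < w := by
        by_contra hneg
        have : w ≤ 0 := by omega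
        have : (p : ℤ) * w ≤ 0 := mul_nonpos_of_nonneg_of_nonpos (by omega) this
        omega
      have hw2 : w < 2 := by
        by_contra hge
        have : 2 ≤ w := by omega
        nlinarith
      omega
    rw [hw1] at hw
    have h4 : (charDegree (θ : G → ℂ) : ℤ) + e = p := by linarith
    exact_mod_cast h4

end Cfsg.Agent.Lib.DefectOne.BT
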