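import Mathlib
import Cfsg.Agent.Lib.DefectOne.BTDeg
import Cfsg.Agent.Lib.DefectOne.MomentTwo

/-!
# The values of the exceptional characters when `t = 2`
-/

set_option autoImplicit false
set_option linter.style.haveILetI false
set_option linter.unusedVariables false
set_option linter.unusedSectionVars false
set_option linter.unusedSimpArgs false

namespace Cfsg.Agent.Lib.DefectOne.BT

open Cfsg Subgroup Finset
open Cfsg.Agent.Lib.DefectOne Cfsg.Agent.Lib.DefectOne.FewInd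
open scoped ComplexConjugate

universe u

variable {G : Type u} [Group G] [Fintype G]
variable {p : ℕ} [hp : Fact p.Prime] {x : G}
variable {ζ : ℂ} {e t : ℕ} {X Y : Finset (IrrCharacter G)} {δ : IrrCharacter G → ℤ} {ε : ℤ} {b : IrrCharacter G → ZMod p}

lemma perEta_neg (he : Even e) (c i : ZMod p) : perEta ζ e c (-i) = perEta ζ e c i := by
  classical
  unfold perEta
  refine sum_nbij' (fun a => -a) (fun a => -a) ?_ ?_ ?_ ?_ ?_
  · intro a ha
    unfold perF at ha ⊢
    simp only [mem_filter, mem_erase, mem_univ, and_true, ne_eq] at ha ⊢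
    refine ⟨neg_ne_zero.2 ha.1, ?_⟩
    rw [he.neg_pow]
    exact ha.2
  · intro a ha
    unfold perF at ha ⊢
    simp only [mem_filter, mem_erase, mem_univ, and_true, ne_eq] at ha ⊢
    refine ⟨neg_ne_zero.2 ha.1, ?_⟩
    rw [he.neg_pow]
    exact ha.2
  · intro a _
    exact neg_neg a
  · intro a _
    exact neg_neg a
  · intro a _
    rw [mul_neg, neg_mul]

lemma conj_eq_neg (hord : orderOf x = p) (χ : IrrCharacter G) (i : ZMod p) :
    conj ((χ : G → ℂ) (XX x i)) = (χ : G → ℂ) (XX x (-i)) := by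
  rw [XX_neg hord]
  exact (Cfsg.Agent.Lib.Char.Ortho.character_inv_of_isCharacter
    (Cfsg.Agent.Lib.Char.Basic.isCharacter_of_isIrrCharacter χ.2) _).symm

/-- The values of an exceptional character are real if `e` is even. -/
theorem val_real (hT : SCTable x ζ e t X Y δ ε b) (hord : orderOf x = p) (he : Even e) {θ : IrrCharacter G} (hθ : θ ∈ Y)
    {i : ZMod p} (hi : i ≠ 0) : conj ((θ : G → ℂ) (XX x i)) = (θ : G → ℂ) (XX x i) := by
  rw [conj_eq_neg hord, hT.valY θ hθ (-i) (neg_ne_zero.2 hi), hT.valY θ hθ i hi, perEta_neg he]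

/-- The centralizer of a nontrivial element of `⟨x⟩`. -/
lemma card_centralizer_XX (hord : orderOf x = p) (hcen : ∀ c : G, c * x = x * c → c ∈ zpowers x) {i : ZMod p} (hi : i ≠ 0) :
    Nat.card (centralizer ({XX x i} : Set G)) = p := by
  have hp' := hp.out
  have h1 : centralizer ({XX x i} : Set G) = zpowers x := by
    apply le_antisymm
    · intro c hc
      have h2 := Subgroup.mem_centralizer_singleton_iff.1 hc
      -- `x` is a power of `x ^ i`
      obtain ⟨k, hk⟩ : ∃ k : ℕ, (XX x i) ^ k = x := by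
        refine ⟨(i⁻¹).val, ?_⟩
        rw [← XX_mul_val hord, mul_comm, mul_inv_cancel₀ hi, XX_one hord]
      apply hcen
      rw [← hk]
      exact (Commute.pow_right (show Commute c (XX x i) from h2) k).eq
    · intro c hc
      rw [Subgroup.mem_centralizer_singleton_iff]
      obtain ⟨k, rfl⟩ := Subgroup.mem_zpowers_iff.1 hc
      have h2 : Commute x (XX x i) := (Commute.refl x).pow_right _
      exact (h2.zpow_left k).eq
  rw [h1, Nat.card_zpowers, hord]

/-- The value of the degree relation at `1`. -/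
lemma rel_one (hT : SCTable x ζ e t X Y δ ε b) {θ : IrrCharacter G} (hθ : θ ∈ Y) :
    ε * (charDegree (θ : G → ℂ) : ℤ) = ∑ χ ∈ X, δ χ * (charDegree (χ : G → ℂ) : ℤ) := by
  have h1 : ¬ p ∣ orderOf (1 : G) := by
    rw [orderOf_one]
    exact fun h => hp.out.one_lt.ne' (Nat.dvd_one.1 h)
  have h2 := hT.rel 1 h1 θ hθ
  simp_rw [irr_degree_cast] at h2
  exact_mod_cast h2

/-- The trivial character lies in the table. -/
lemma triv_mem (hT : SCTable x ζ e t X Y δ ε b) : Cfsg.Agent.Lib.Blocks.Principal.trivChar G ∈ X ∪ Y := by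
  by_contra h
  have h1 := hT.out _ h 1 one_ne_zero
  have h2 : (Cfsg.Agent.Lib.Blocks.Principal.trivChar G : G → ℂ) (XX x (1 : ZMod p)) = 1 := rfl
  rw [h2] at h1
  exact one_ne_zero h1

section Two

variable {θ θ' : IrrCharacter G}

/-- The sum over all irreducible characters of a function vanishing off `X ∪ Y`. -/
lemma sum_split [Fintype (IrrCharacter G)] (hT : SCTable x ζ e t X Y δ ε b) (hne : θ ≠ θ') (hY : Y = {θ, θ'}) (f : IrrCharacter G → ℂ)
    (hf : ∀ ψ, ψ ∉ X ∪ Y → f ψ = 0) : ∑ ψ, f ψ = ∑ ψ ∈ X, f ψ + (f θ + f θ') := by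
  classical
  rw [← sum_add_sum_compl (X ∪ Y), sum_union hT.disj, sum_eq_zero (s := (X ∪ Y)ᶜ) (fun ψ hψ => hf ψ (mem_compl.1 hψ)), add_zero,
    hY, sum_pair hne]

/-- The relations for the two exceptional values. -/
theorem t2_vals [Fintype (IrrCharacter G)] (hT : SCTable x ζ e 2 X Y δ (-1) b) (hord : orderOf x = p)
    (hcen : ∀ c : G, c * x = x * c → c ∈ zpowers x) (he : Even e) (hdeg : ∀ θ ∈ Y, charDegree (θ : G → ℂ) + e = p)
    (hne : θ ≠ θ') (hY : Y = {θ, θ'}) {i : ZMod p} (hi : i ≠ 0) :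
    (θ : G → ℂ) (XX x i) + (θ' : G → ℂ) (XX x i) = 1 ∧
      (θ : G → ℂ) (XX x i) ^ 2 + (θ' : G → ℂ) (XX x i) ^ 2 = (e : ℂ) + 1 := by
  classical
  have hp' := hp.out
  have hhet := hT.het
  have hpe : p = e * 2 + 1 := by
    have := hp'.two_le
    omega
  have hpC : (p : ℂ) = 2 * e + 1 := by
    rw [hpe]
    push_cast
    ring
  have hθY : θ ∈ Y := by rw [hY]; simp
  have hθ'Y : θ' ∈ Y := by rw [hY]; simp
  set g := XX x i with hg
  have hg1 : g ≠ 1 := by
    intro h
    apply hi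
    have h2 : XX x i = XX x (0 : ZMod p) := by rw [← hg, h, XX_zero]
    exact XX_inj hord h2
  have hdc : ∀ ψ ∈ Y, (ψ : G → ℂ) 1 = (e : ℂ) + 1 := by
    intro ψ hψ
    rw [irr_degree_cast]
    have h1 := hdeg ψ hψ
    have h2 : charDegree (ψ : G → ℂ) = e + 1 := by omega
    rw [h2]
    push_cast
    ring
  have hconj1 : ∀ ψ : IrrCharacter G, conj ((ψ : G → ℂ) 1) = (ψ : G → ℂ) 1 := fun ψ =>
    Cfsg.Agent.Lib.Char.CompleteCor.conj_apply_one ψ.2
  have hout : ∀ ψ : IrrCharacter G, ψ ∉ X ∪ Y → (ψ : G → ℂ) g = 0 := fun ψ hψ => hT.out ψ hψ i hi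
  have hXsum : ∑ χ ∈ X, (χ : G → ℂ) g * conj ((χ : G → ℂ) 1) = -((e : ℂ) + 1) := by
    have h1 := rel_one hT hθY
    have h2 := hdeg θ hθY
    have h3 : charDegree (θ : G → ℂ) = e + 1 := by omega
    rw [h3] at h1
    have h4 : ∑ χ ∈ X, (χ : G → ℂ) g * conj ((χ : G → ℂ) 1) = ((∑ χ ∈ X, δ χ * (charDegree (χ : G → ℂ) : ℤ) : ℤ) : ℂ) := by
      push_cast
      refine sum_congr rfl fun χ hχ => ?_
      rw [hconj1, irr_degree_cast, hT.valX χ hχ i hi]
    rw [h4, ← h1]
    push_cast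
    ring
  have hs1 : (θ : G → ℂ) g + (θ' : G → ℂ) g = 1 := by
    have h1 : ¬ IsConj g 1 := fun h => hg1 (isConj_one_left.1 h)
    have h2 := Cfsg.Agent.Lib.Char.CompleteCor.column_orth_not_conj h1
    rw [sum_split hT hne hY _ (fun ψ hψ => by rw [hout ψ hψ, zero_mul]), hXsum, hconj1, hconj1, hdc θ hθY, hdc θ' hθ'Y] at h2
    have h3 : (e : ℂ) + 1 ≠ 0 := by
      have : ((e + 1 : ℕ) : ℂ) ≠ 0 := by exact_mod_cast Nat.succ_ne_zero e
      simpa using this
    apply mul_left_cancel₀ h3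
    linear_combination h2
  refine ⟨hs1, ?_⟩
  have hreal : ∀ ψ ∈ Y, conj ((ψ : G → ℂ) g) = (ψ : G → ℂ) g := fun ψ hψ => val_real hT hord he hψ hi
  have h1 := Cfsg.Agent.Lib.Char.CompleteCor.column_orth_conj (IsConj.refl g)
  rw [card_centralizer_XX hord hcen hi, sum_split hT hne hY _ (fun ψ hψ => by rw [hout ψ hψ, zero_mul]), hreal θ hθY, hreal θ' hθ'Y] at h1
  have h2 : ∑ χ ∈ X, (χ : G → ℂ) g * conj ((χ : G → ℂ) g) = e := by
    have h3 : ∀ χ ∈ X, (χ : G → ℂ) g * conj ((χ : G → ℂ) g) = 1 := by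
      intro χ hχ
      rw [hT.valX χ hχ i hi]
      rcases hT.signX χ hχ with h | h <;> rw [h] <;> simp
    rw [sum_congr rfl h3, sum_const, hT.cardX]
    simp
  rw [h2, hpC] at h1
  linear_combination h1

end Two

end Cfsg.Agent.Lib.DefectOne.BT
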