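import Mathlib
import Cfsg.Agent.Lib.DefectOne.BTVal

/-!
# The degrees of the non-exceptional characters when `t = 2`
-/

set_option autoImplicit false
set_option linter.style.haveILetI false
set_option linter.unusedVariables false
set_option linter.unusedSectionVars false
set_option linter.unusedSimpArgs false

namespace Cfsg.Agent.Lib.DefectOne.BT

open Cfsg Subgroup Finset
open Cfsg.Agent.Lib.DefectOne Cfsg.Agent.Lib.DefectOne.FewInd
open scoped ComplexConjugate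

universe u

section Bounds

variable {ι : Type*} [Fintype ι] [DecidableEq ι]

lemma bound_minus (X Y : Finset ι) (A D δ : ι → ℤ) {e p : ℤ} (hA : ∀ χ, 0 ≤ A χ) (hD : ∀ χ, 0 ≤ D χ)
    (hpe : p = 2 * e + 1) (he : 0 ≤ e) (hs : 2 * ∑ χ ∈ X, A χ * δ χ + ∑ χ ∈ Y, A χ = -e)
    (htotal : ∑ χ, A χ * D χ = (e + 1) ^ 2) (hsign : ∀ χ ∈ X, δ χ = 1 ∨ δ χ = -1)
    (hlow : ∀ χ ∈ X, δ χ = -1 → p - 1 ≤ D χ) {χ₀ : ι} (h0 : χ₀ ∈ X) (hδ0 : δ χ₀ = -1) (hA0 : 1 ≤ A χ₀) :
    D χ₀ < 3 * p - 1 := by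
  by_contra hge
  push Not at hge
  have h1 : ∀ χ ∈ X, 0 ≤ A χ * (D χ + 2 * e * δ χ) := by
    intro χ hχ
    apply mul_nonneg (hA χ)
    rcases hsign χ hχ with h | h
    · rw [h]
      have := hD χ
      nlinarith
    · rw [h]
      have := hlow χ hχ h
      linarith
  have h2 := single_le_sum h1 h0
  rw [hδ0] at h2
  have h3 : 2 * p ≤ A χ₀ * (D χ₀ + 2 * e * -1) := by
    have h4 : 2 * p ≤ D χ₀ + 2 * e * -1 := by linarith
    have h5 : 0 ≤ p := by linarith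
    nlinarith
  have h6 : ∑ χ ∈ X, A χ * (D χ + 2 * e * δ χ) = ∑ χ ∈ X, A χ * D χ + 2 * e * ∑ χ ∈ X, A χ * δ χ := by
    rw [mul_sum, ← sum_add_distrib]
    exact sum_congr rfl fun χ _ => by ring
  have h7 : ∑ χ ∈ X, A χ * D χ ≤ ∑ χ, A χ * D χ :=
    sum_le_sum_of_subset_of_nonneg (subset_univ _) fun χ _ _ => mul_nonneg (hA χ) (hD χ)
  have h8 : 0 ≤ ∑ χ ∈ Y, A χ := sum_nonneg fun χ _ => hA χ
  rw [htotal] at h7
  have h9 : e * (2 * ∑ χ ∈ X, A χ * δ χ + ∑ χ ∈ Y, A χ) = e * -e := by rw [hs]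
  have h10 : 0 ≤ e * ∑ χ ∈ Y, A χ := mul_nonneg he h8
  nlinarith

lemma bound_plus (X Y : Finset ι) (A D δ : ι → ℤ) {e p : ℤ} (T : ι) (hA : ∀ χ, 0 ≤ A χ) (hD : ∀ χ, 0 ≤ D χ)
    (hpe : p = 2 * e + 1) (he : 0 ≤ e) (hdisj : Disjoint X Y) (hs : 2 * ∑ χ ∈ X, A χ * δ χ + ∑ χ ∈ Y, A χ = e + 1)
    (htotal : ∑ χ, A χ * D χ = (e + 1) ^ 2) (hsign : ∀ χ ∈ X, δ χ = 1 ∨ δ χ = -1)
    (hTX : T ∈ X) (hδT : δ T = 1) (hDT : D T = 1) (hAT : A T ≤ 1)
    (hlow : ∀ χ ∈ X, χ ≠ T → δ χ = 1 → p + 1 ≤ D χ) (hY : ∀ χ ∈ Y, D χ = e + 1)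
    {χ₀ : ι} (h0 : χ₀ ∈ X) (h0T : χ₀ ≠ T) (hδ0 : δ χ₀ = 1) (hA0 : 1 ≤ A χ₀) :
    D χ₀ < 3 * p + 1 := by
  classical
  by_contra hge
  push Not at hge
  have h1 : ∀ χ ∈ X.erase T, 0 ≤ A χ * (D χ - 2 * (e + 1) * δ χ) := by
    intro χ hχ
    have hχX := mem_of_mem_erase hχ
    apply mul_nonneg (hA χ)
    rcases hsign χ hχX with h | h
    · rw [h]
      have := hlow χ hχX (ne_of_mem_erase hχ) h
      linarith
    · rw [h]
      have := hD χ
      nlinarith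
  have h2 := single_le_sum h1 (mem_erase.2 ⟨h0T, h0⟩)
  rw [hδ0] at h2
  have h3 : 2 * p ≤ A χ₀ * (D χ₀ - 2 * (e + 1) * 1) := by
    have h4 : 2 * p ≤ D χ₀ - 2 * (e + 1) * 1 := by linarith
    have h5 : 0 ≤ p := by linarith
    nlinarith
  have h6 : ∑ χ ∈ X, A χ * (D χ - 2 * (e + 1) * δ χ) = ∑ χ ∈ X, A χ * D χ - 2 * (e + 1) * ∑ χ ∈ X, A χ * δ χ := by
    rw [mul_sum, ← sum_sub_distrib]
    exact sum_congr rfl fun χ _ => by ring
  rw [← add_sum_erase X _ hTX, hδT, hDT] at h6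
  have h7 : ∑ χ ∈ X ∪ Y, A χ * D χ ≤ ∑ χ, A χ * D χ :=
    sum_le_sum_of_subset_of_nonneg (subset_univ _) fun χ _ _ => mul_nonneg (hA χ) (hD χ)
  have hYs : ∑ χ ∈ Y, A χ * D χ = (∑ χ ∈ Y, A χ) * (e + 1) := by
    rw [sum_mul]
    exact sum_congr rfl fun χ hχ => by rw [hY χ hχ]
  rw [sum_union hdisj, htotal, hYs] at h7
  have h9 : (e + 1) * (2 * ∑ χ ∈ X, A χ * δ χ + ∑ χ ∈ Y, A χ) = (e + 1) * (e + 1) := by rw [hs]
  have h10 : 0 ≤ A T := hA T
  have h11 : A T * (2 * e + 1) ≤ 1 * (2 * e + 1) := mul_le_mul_of_nonneg_right hAT (by linarith)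
  nlinarith

end Bounds

variable {G : Type u} [Group G] [Fintype G]
variable {p : ℕ} [hp : Fact p.Prime] {x : G}
variable {ζ : ℂ} {e t : ℕ} {X Y : Finset (IrrCharacter G)} {δ : IrrCharacter G → ℤ} {ε : ℤ} {b : IrrCharacter G → ZMod p}
variable {θ θ' : IrrCharacter G}

/-- The product of the two exceptional values. -/
lemma t2_prod [Fintype (IrrCharacter G)] (hT : SCTable x ζ e 2 X Y δ (-1) b) (hord : orderOf x = p)
    (hcen : ∀ c : G, c * x = x * c → c ∈ zpowers x) (he : Even e) (hdeg : ∀ θ ∈ Y, charDegree (θ : G → ℂ) + e = p)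
    (hne : θ ≠ θ') (hY : Y = {θ, θ'}) {i : ZMod p} (hi : i ≠ 0) :
    (θ : G → ℂ) (XX x i) * (θ' : G → ℂ) (XX x i) = -((e : ℂ) / 2) := by
  obtain ⟨h1, h2⟩ := t2_vals hT hord hcen he hdeg hne hY hi
  have h3 : (θ' : G → ℂ) (XX x i) = 1 - (θ : G → ℂ) (XX x i) := by linear_combination h1
  rw [h3] at h2 ⊢
  linear_combination (-1 / 2 : ℂ) * h2

/-- The inner product with a non-exceptional character of the difference of the two products. -/
theorem inner_diff [Fintype (IrrCharacter G)] (hζ : IsPrimitiveRoot ζ p) (hT : SCTable x ζ e 2 X Y δ (-1) b) (hord : orderOf x = p)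
    (hcen : ∀ c : G, c * x = x * c → c ∈ zpowers x) (P : Sylow p G) (hz : zpowers x = (P : Subgroup G)) (he : Even e)
    (hdeg : ∀ θ ∈ Y, charDegree (θ : G → ℂ) + e = p)
    (hne : θ ≠ θ') (hY : Y = {θ, θ'}) (hGc : Nat.card G = p * e * Nat.card (Sylow p G)) {χ : IrrCharacter G} (hχ : χ ∈ X) :
    classInner (fun g => (θ : G → ℂ) g * (θ : G → ℂ) g) (χ : G → ℂ) -
      classInner (fun g => (θ : G → ℂ) g * (θ' : G → ℂ) g) (χ : G → ℂ) = (δ χ : ℂ) := by
  classical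
  have hp' := hp.out
  have hhet := hT.het
  have hpe : p = e * 2 + 1 := by
    have := hp'.two_le
    omega
  have hpC : (p : ℂ) = 2 * e + 1 := by
    rw [hpe]
    push_cast
    ring
  have hθY : θ ∈ Y := by rw [hY]; simp
  have hθ'Y : θ' ∈ Y := by rw [hY]; simp
  have hclθ := Cfsg.Agent.Lib.Char.CompleteCor.isIrr_classFunction θ.2
  have hclθ' := Cfsg.Agent.Lib.Char.CompleteCor.isIrr_classFunction θ'.2
  have hclχ := Cfsg.Agent.Lib.Char.CompleteCor.isIrr_classFunction χ.2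
  let F : G → ℂ := fun g => ((θ : G → ℂ) g * (θ : G → ℂ) g - (θ : G → ℂ) g * (θ' : G → ℂ) g) * conj ((χ : G → ℂ) g)
  have hFcl : IsClassFunction G F := by
    intro g c
    simp only [F]
    rw [hclθ g c, hclθ' g c, hclχ g c]
  have hGne : (Nat.card G : ℂ) ≠ 0 := by exact_mod_cast Nat.card_pos.ne'
  have h1 : classInner (fun g => (θ : G → ℂ) g * (θ : G → ℂ) g) (χ : G → ℂ) -
      classInner (fun g => (θ : G → ℂ) g * (θ' : G → ℂ) g) (χ : G → ℂ) = (Nat.card G : ℂ)⁻¹ * ∑ g, F g := by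
    rw [Cfsg.Agent.Lib.Char.Induced.classInner_def, Cfsg.Agent.Lib.Char.Induced.classInner_def, ← mul_sub, ← sum_sub_distrib]
    congr 1
    exact sum_congr rfl fun g _ => by simp only [F]; ring
  rw [h1]
  have hreg : ∑ g ∈ univ.filter (fun g : G => ¬ p ∣ orderOf g), F g = 0 := by
    refine sum_eq_zero fun g hg => ?_
    have hg' := (mem_filter.1 hg).2
    simp only [F]
    rw [same_reg hT hg' hθY hθ'Y]
    ring
  have hsing := sum_singular hord hcen P hz hFcl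
  have h2 := sum_filter_add_sum_filter_not univ (fun g : G => p ∣ orderOf g) F
  rw [hreg, add_zero, hsing] at h2
  rw [← h2]
  have hval : ∀ i ∈ univ.erase (0 : ZMod p), F (XX x i) =
      ((θ : G → ℂ) (XX x i) * conj ((θ : G → ℂ) (XX x i)) + (e : ℂ) / 2) * (δ χ : ℂ) := by
    intro i hi
    have hi' := (mem_erase.1 hi).1
    simp only [F]
    rw [t2_prod hT hord hcen he hdeg hne hY hi', val_real hT hord he hθY hi', hT.valX χ hχ i hi']
    simp only [map_intCast]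
    ring
  rw [sum_congr rfl hval, ← sum_mul, sum_add_distrib, hT.sum_normSq hζ hθY, sum_const, card_erase_of_mem (mem_univ _), card_univ, ZMod.card, nsmul_eq_mul]
  have hp1 : ((p - 1 : ℕ) : ℂ) = 2 * e := by
    rw [hhet]
    push_cast
    ring
  rw [hp1]
  have hGC : (Nat.card G : ℂ) = (2 * e + 1) * e * (Nat.card (Sylow p G) : ℂ) := by
    conv_lhs => rw [hGc]
    push_cast
    rw [hpC]
  rw [hGC, hpC]
  have h3 : (Nat.card (Sylow p G) : ℂ) ≠ 0 := by exact_mod_cast Nat.card_pos.ne'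
  have h4 : ((2 : ℂ) * e + 1) ≠ 0 := by
    rw [← hpC]
    exact_mod_cast hp'.ne_zero
  have h5 : (e : ℂ) ≠ 0 := by exact_mod_cast hT.epos.ne'
  field_simp
  ring

/-- The degrees of the non-exceptional characters. -/
theorem t2_degs [Fintype (IrrCharacter G)] (hperf : commutator G = ⊤) (hζ : IsPrimitiveRoot ζ p) (hT : SCTable x ζ e 2 X Y δ (-1) b)
    (hord : orderOf x = p) (hcen : ∀ c : G, c * x = x * c → c ∈ zpowers x) (P : Sylow p G) (hz : zpowers x = (P : Subgroup G))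
    (he : Even e) (hdeg : ∀ θ ∈ Y, charDegree (θ : G → ℂ) + e = p)
    (hne : θ ≠ θ') (hY : Y = {θ, θ'}) (hGc : Nat.card G = p * e * Nat.card (Sylow p G))
    (hXev : ∀ χ ∈ X, χ ≠ Cfsg.Agent.Lib.Blocks.Principal.trivChar G → Even (charDegree (χ : G → ℂ))) :
    (∀ χ ∈ X, δ χ = -1 → charDegree (χ : G → ℂ) + 1 = p) ∧
      ∀ χ ∈ X, δ χ = 1 → χ ≠ Cfsg.Agent.Lib.Blocks.Principal.trivChar G → charDegree (χ : G → ℂ) = p + 1 := by
  classical
  have hp' := hp.out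
  have hhet := hT.het
  have hpe : p = e * 2 + 1 := by
    have := hp'.two_le
    omega
  have hpC : (p : ℂ) = 2 * e + 1 := by
    rw [hpe]
    push_cast
    ring
  have hpZ : (p : ℤ) = 2 * e + 1 := by
    rw [hpe]
    push_cast
    ring
  have heC : (e : ℂ) ≠ 0 := by exact_mod_cast hT.epos.ne'
  have heZ : (0 : ℤ) < e := by exact_mod_cast hT.epos
  have hθY : θ ∈ Y := by rw [hY]; simp
  have hθ'Y : θ' ∈ Y := by rw [hY]; simp
  obtain ⟨hTX, hδT⟩ := hT.triv (by norm_num)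
  set T := Cfsg.Agent.Lib.Blocks.Principal.trivChar G with hTdef
  have hDT : charDegree ((T : IrrCharacter G) : G → ℂ) = 1 := by
    have h3 := irr_degree_cast T
    have h4 : ((T : IrrCharacter G) : G → ℂ) 1 = 1 := rfl
    rw [h4] at h3
    exact_mod_cast h3.symm
  have hθch := Cfsg.Agent.Lib.Char.Basic.isCharacter_of_isIrrCharacter θ.2
  have hθ'ch := Cfsg.Agent.Lib.Char.Basic.isCharacter_of_isIrrCharacter θ'.2
  have hf : IsCharacter G (fun g => (θ : G → ℂ) g * (θ' : G → ℂ) g) := Cfsg.Agent.Lib.Char.Basic.isCharacter_mul hθch hθ'ch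
  have hgg : IsCharacter G (fun g => (θ : G → ℂ) g * (θ : G → ℂ) g) := Cfsg.Agent.Lib.Char.Basic.isCharacter_mul hθch hθch
  obtain ⟨A, hA, hAval⟩ := exists_decomp hf
  obtain ⟨B, hB, hBval⟩ := exists_decomp hgg
  have hdc : ∀ ψ ∈ Y, (ψ : G → ℂ) 1 = (e : ℂ) + 1 := by
    intro ψ hψ
    rw [irr_degree_cast]
    have h1 := hdeg ψ hψ
    have h2 : charDegree (ψ : G → ℂ) = e + 1 := by omega
    rw [h2]
    push_cast
    ring
  -- the degree equations
  have hAtotal : ∑ χ, (A χ : ℤ) * (charDegree (χ : G → ℂ) : ℤ) = ((e : ℤ) + 1) ^ 2 := by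
    have h1 := hAval 1
    simp only [hdc θ hθY, hdc θ' hθ'Y] at h1
    simp_rw [irr_degree_cast] at h1
    have h2 : ((((e : ℤ) + 1) ^ 2 : ℤ) : ℂ) = ((∑ χ, (A χ : ℤ) * (charDegree (χ : G → ℂ) : ℤ) : ℤ) : ℂ) := by
      push_cast
      rw [← h1]
      ring
    exact_mod_cast h2.symm
  have hBtotal : ∑ χ, (B χ : ℤ) * (charDegree (χ : G → ℂ) : ℤ) = ((e : ℤ) + 1) ^ 2 := by
    have h1 := hBval 1
    simp only [hdc θ hθY] at h1
    simp_rw [irr_degree_cast] at h1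
    have h2 : ((((e : ℤ) + 1) ^ 2 : ℤ) : ℂ) = ((∑ χ, (B χ : ℤ) * (charDegree (χ : G → ℂ) : ℤ) : ℤ) : ℂ) := by
      push_cast
      rw [← h1]
      ring
    exact_mod_cast h2.symm
  have hp1 : ((p : ℂ) - 1) = 2 * e := by
    rw [hpC]
    ring
  -- the sums on `⟨x⟩`
  have hAsum : 2 * ∑ χ ∈ X, (A χ : ℤ) * δ χ + ∑ χ ∈ Y, (A χ : ℤ) = -(e : ℤ) := by
    have h1 := hT.sum_char hζ (fun χ => (A χ : ℂ))
    have h2 : ∑ i ∈ univ.erase (0 : ZMod p), ∑ χ : IrrCharacter G, (A χ : ℂ) * (χ : G → ℂ) (XX x i) = 2 * e * (-((e : ℂ) / 2)) := by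
      have h3 : ∀ i ∈ univ.erase (0 : ZMod p), ∑ χ : IrrCharacter G, (A χ : ℂ) * (χ : G → ℂ) (XX x i) = -((e : ℂ) / 2) := by
        intro i hi
        rw [← hAval]
        exact t2_prod hT hord hcen he hdeg hne hY (mem_erase.1 hi).1
      rw [sum_congr rfl h3, sum_const, card_erase_of_mem (mem_univ _), card_univ, ZMod.card, nsmul_eq_mul]
      congr 1
      rw [hhet]
      push_cast
      ring
    rw [h2, hp1] at h1
    have h3 : ((2 * ∑ χ ∈ X, (A χ : ℤ) * δ χ + ∑ χ ∈ Y, (A χ : ℤ) : ℤ) : ℂ) = ((-(e : ℤ) : ℤ) : ℂ) := by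
      push_cast
      apply mul_left_cancel₀ heC
      push_cast at h1
      linear_combination -h1
    exact_mod_cast h3
  have hBsum : 2 * ∑ χ ∈ X, (B χ : ℤ) * δ χ + ∑ χ ∈ Y, (B χ : ℤ) = (e : ℤ) + 1 := by
    have h1 := hT.sum_char hζ (fun χ => (B χ : ℂ))
    have h2 : ∑ i ∈ univ.erase (0 : ZMod p), ∑ χ : IrrCharacter G, (B χ : ℂ) * (χ : G → ℂ) (XX x i) = (e : ℂ) * ((p : ℂ) - e) := by
      rw [← hT.sum_normSq hζ hθY]
      refine sum_congr rfl fun i hi => ?_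
      rw [← hBval, val_real hT hord he hθY (mem_erase.1 hi).1]
    rw [h2, hp1] at h1
    have h3 : ((2 * ∑ χ ∈ X, (B χ : ℤ) * δ χ + ∑ χ ∈ Y, (B χ : ℤ) : ℤ) : ℂ) = (((e : ℤ) + 1 : ℤ) : ℂ) := by
      push_cast
      apply mul_left_cancel₀ heC
      push_cast at h1
      rw [hpC] at h1
      linear_combination -h1
    exact_mod_cast h3
  have hdiff : ∀ χ ∈ X, (B χ : ℤ) - A χ = δ χ := by
    intro χ hχ
    have h1 := inner_diff hζ hT hord hcen P hz he hdeg hne hY hGc hχ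
    rw [hB, hA] at h1
    exact_mod_cast h1
  -- the multiplicity of the trivial character
  have hBT : (B T : ℤ) ≤ 1 := by
    have h1 : classInner (fun g => (θ : G → ℂ) g * (θ : G → ℂ) g) ((T : IrrCharacter G) : G → ℂ) =
        classInner (θ : G → ℂ) (barChar θ : G → ℂ) := by
      rw [Cfsg.Agent.Lib.Char.Induced.classInner_def, Cfsg.Agent.Lib.Char.Induced.classInner_def]
      congr 1
      refine sum_congr rfl fun g _ => ?_
      rw [barChar_apply, Complex.conj_conj]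
      have h4 : ((T : IrrCharacter G) : G → ℂ) g = 1 := rfl
      rw [h4]
      simp
    rw [hB] at h1
    by_cases hb : θ = barChar θ
    · rw [← hb, Cfsg.Agent.Lib.Char.Ortho.classInner_irr_self θ.2] at h1
      have h2 : B T = 1 := by exact_mod_cast h1
      rw [h2]
      norm_num
    · rw [Cfsg.Agent.Lib.Char.Ortho.classInner_irr_of_ne θ.2 (barChar θ).2 (fun h => hb (Subtype.ext h))] at h1
      have h2 : B T = 0 := by exact_mod_cast h1
      rw [h2]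
      norm_num
  have hDnn : ∀ χ : IrrCharacter G, (0 : ℤ) ≤ (charDegree (χ : G → ℂ) : ℤ) := fun χ => by positivity
  have hpZ1 : (1 : ℤ) < p := by exact_mod_cast hp'.one_lt
  have hlowm : ∀ χ ∈ X, δ χ = -1 → (p : ℤ) - 1 ≤ (charDegree (χ : G → ℂ) : ℤ) := by
    intro χ hχ hδ
    have h1 := hT.degX χ hχ
    rw [hδ] at h1
    obtain ⟨v, hv⟩ := Int.modEq_iff_dvd.1 h1.symm
    have h2 := hDnn χ
    have hv1 : 1 ≤ v := by
      by_contra hneg
      have h3 : v ≤ 0 := by omega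
      have h4 : (p : ℤ) * v ≤ 0 := mul_nonpos_of_nonneg_of_nonpos (by omega) h3
      omega
    have h3 : (p : ℤ) ≤ (p : ℤ) * v := le_mul_of_one_le_right (by omega) hv1
    omega
  have hlowp : ∀ χ ∈ X, χ ≠ T → δ χ = 1 → (p : ℤ) + 1 ≤ (charDegree (χ : G → ℂ) : ℤ) := by
    intro χ hχ hχT hδ
    have h1 := hT.degX χ hχ
    rw [hδ] at h1
    obtain ⟨v, hv⟩ := Int.modEq_iff_dvd.1 h1.symm
    have h2 : 2 ≤ charDegree (χ : G → ℂ) := by
      have h3 := irr_degree_pos' χ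
      by_contra hlt
      have h4 : charDegree (χ : G → ℂ) = 1 := by omega
      exact hχT (eq_triv_of_deg_one hperf χ h4)
    have h2' : (2 : ℤ) ≤ (charDegree (χ : G → ℂ) : ℤ) := by exact_mod_cast h2
    have hv1 : 1 ≤ v := by
      by_contra hneg
      have h3 : v ≤ 0 := by omega
      have h4 : (p : ℤ) * v ≤ 0 := mul_nonpos_of_nonneg_of_nonpos (by omega) h3
      omega
    have h3 : (p : ℤ) ≤ (p : ℤ) * v := le_mul_of_one_le_right (by omega) hv1
    omega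
  have hYdeg : ∀ χ ∈ Y, (charDegree (χ : G → ℂ) : ℤ) = (e : ℤ) + 1 := by
    intro χ hχ
    have h1 := hdeg χ hχ
    have h2 : charDegree (χ : G → ℂ) = e + 1 := by omega
    rw [h2]
    push_cast
    ring
  constructor
  · intro χ₀ hχ₀ hδ
    have h0T : χ₀ ≠ T := by
      rintro rfl
      rw [hδT] at hδ
      norm_num at hδ
    have h1 := bound_minus X Y (fun χ => (A χ : ℤ)) (fun χ => (charDegree (χ : G → ℂ) : ℤ)) δ (e := (e : ℤ)) (p := (p : ℤ))
      (fun χ => by positivity) hDnn hpZ (by omega) hAsum hAtotal hT.signX hlowm hχ₀ hδ (by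
        have h2 := hdiff χ₀ hχ₀
        rw [hδ] at h2
        have h3 : (0 : ℤ) ≤ B χ₀ := by positivity
        show 1 ≤ (A χ₀ : ℤ)
        omega)
    have h2 := hT.degX χ₀ hχ₀
    rw [hδ] at h2
    obtain ⟨v, hv⟩ := Int.modEq_iff_dvd.1 h2.symm
    have h3 := hlowm χ₀ hχ₀ hδ
    have h4 : Even (charDegree (χ₀ : G → ℂ)) := hXev χ₀ hχ₀ h0T
    have hv1 : 1 ≤ v := by
      by_contra hneg
      have h5 : v ≤ 0 := by omega
      have h6 : (p : ℤ) * v ≤ 0 := mul_nonpos_of_nonneg_of_nonpos (by omega) h5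
      omega
    have hv3 : v < 3 := by
      by_contra hge
      have h5 : 3 ≤ v := by omega
      have h6 : (p : ℤ) * 3 ≤ (p : ℤ) * v := mul_le_mul_of_nonneg_left h5 (by omega)
      omega
    have hv12 : v = 1 ∨ v = 2 := by omega
    rcases hv12 with h5 | h5
    · rw [h5] at hv
      have h6 : ((charDegree (χ₀ : G → ℂ) + 1 : ℕ) : ℤ) = p := by
        push_cast
        linarith
      exact_mod_cast h6
    · exfalso
      rw [h5] at hv
      obtain ⟨w, hw⟩ := h4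
      have h6 : ((charDegree (χ₀ : G → ℂ) : ℕ) : ℤ) = (w : ℤ) + w := by exact_mod_cast hw
      omega
  · intro χ₀ hχ₀ hδ h0T
    have h1 := bound_plus X Y (fun χ => (B χ : ℤ)) (fun χ => (charDegree (χ : G → ℂ) : ℤ)) δ (e := (e : ℤ)) (p := (p : ℤ)) T
      (fun χ => by positivity) hDnn hpZ (by omega) hT.disj hBsum hBtotal hT.signX hTX hδT (by simp only [hDT]; norm_num) hBT hlowp hYdeg
      hχ₀ h0T hδ (by
        have h2 := hdiff χ₀ hχ₀
        rw [hδ] at h2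
        have h3 : (0 : ℤ) ≤ A χ₀ := by positivity
        show 1 ≤ (B χ₀ : ℤ)
        omega)
    have h2 := hT.degX χ₀ hχ₀
    rw [hδ] at h2
    obtain ⟨v, hv⟩ := Int.modEq_iff_dvd.1 h2.symm
    have h3 := hlowp χ₀ hχ₀ h0T hδ
    have h4 : Even (charDegree (χ₀ : G → ℂ)) := hXev χ₀ hχ₀ h0T
    have hv1 : 1 ≤ v := by
      by_contra hneg
      have h5 : v ≤ 0 := by omega
      have h6 : (p : ℤ) * v ≤ 0 := mul_nonpos_of_nonneg_of_nonpos (by omega) h5
      omega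
    have hv3 : v < 3 := by
      by_contra hge
      have h5 : 3 ≤ v := by omega
      have h6 : (p : ℤ) * 3 ≤ (p : ℤ) * v := mul_le_mul_of_nonneg_left h5 (by omega)
      omega
    have hv12 : v = 1 ∨ v = 2 := by omega
    rcases hv12 with h5 | h5
    · rw [h5] at hv
      have h6 : ((charDegree (χ₀ : G → ℂ) : ℕ) : ℤ) = ((p + 1 : ℕ) : ℤ) := by
        push_cast
        linarith
      exact_mod_cast h6
    · exfalso
      rw [h5] at hv
      obtain ⟨w, hw⟩ := h4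
      have h6 : ((charDegree (χ₀ : G → ℂ) : ℕ) : ℤ) = (w : ℤ) + w := by exact_mod_cast hw
      omega

end Cfsg.Agent.Lib.DefectOne.BT
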