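import Mathlib
import Cfsg.Agent.Lib.DefectOne.BTT2
import Cfsg.Agent.Lib.Char.Burnside2

/-!
# Involutions for the Brauer-Tuan theorem
-/

set_option autoImplicit false
set_option linter.style.haveILetI false
set_option linter.unusedVariables false
set_option linter.unusedSectionVars false
set_option linter.unusedSimpArgs false

namespace Cfsg.Agent.Lib.DefectOne.BT

open Cfsg Subgroup Finset
open Cfsg.Agent.Lib.DefectOne Cfsg.Agent.Lib.DefectOne.FewInd
open scoped ComplexConjugate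

universe u

variable {G : Type u} [Group G]

/-- An involution in the centre of a Sylow 2-subgroup. -/
lemma exists_central_invol [Finite G] {b : ℕ} (hb : 1 ≤ b) (h2 : 2 ^ b ∣ Nat.card G) :
    ∃ z : G, orderOf z = 2 ∧ 2 ^ b ∣ Nat.card (centralizer ({z} : Set G)) := by
  classical
  haveI : Fact (Nat.Prime 2) := ⟨Nat.prime_two⟩
  obtain ⟨Q⟩ : Nonempty (Sylow 2 G) := inferInstance
  have hQ : 2 ^ b ∣ Nat.card Q := Q.pow_dvd_card_of_pow_dvd_card h2
  have hQ2 : 2 ∣ Nat.card Q := Dvd.dvd.trans (dvd_pow_self 2 (by omega)) hQ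
  haveI : Nontrivial Q := by
    apply Finite.one_lt_card_iff_nontrivial.1
    have := Nat.le_of_dvd Nat.card_pos hQ2
    omega
  have hpg : IsPGroup 2 Q := Q.isPGroup'
  haveI : Nontrivial (center Q) := hpg.center_nontrivial
  have hZ2 : 2 ∣ Nat.card (center Q) := by
    obtain ⟨k, hk⟩ := IsPGroup.iff_card.1 (hpg.to_subgroup (center Q))
    rw [hk]
    apply dvd_pow_self
    rintro rfl
    rw [pow_zero] at hk
    have := Finite.one_lt_card (α := center Q)
    omega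
  obtain ⟨w, hw⟩ := exists_prime_orderOf_dvd_card' 2 hZ2
  refine ⟨((w : Q) : G), ?_, ?_⟩
  · rw [Subgroup.orderOf_coe, Subgroup.orderOf_coe]
    exact hw
  · have hle : (Q : Subgroup G) ≤ centralizer ({((w : Q) : G)} : Set G) := by
      intro c hc
      rw [Subgroup.mem_centralizer_singleton_iff]
      have h3 := Subgroup.mem_center_iff.1 w.2 ⟨c, hc⟩
      have h4 := congrArg Subtype.val h3
      exact h4
    exact hQ.trans (Subgroup.card_dvd_of_le hle)

/-- The lower bound for the number of ways to write `x` as a product of two involutions conjugate to `z`. -/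
lemma count_lower [Fintype G] [DecidableEq G] {p : ℕ} {x z : G} (hord : orderOf x = p) (hodd : Odd p) (hzo : z * z = 1)
    {a₀ b₀ : G} (h0 : a₀ * z * a₀⁻¹ * (b₀ * z * b₀⁻¹) * x⁻¹ = 1) :
    p * Nat.card (centralizer ({z} : Set G)) ^ 2 ≤
      (univ.filter (fun ab : G × G => ab.1 * z * ab.1⁻¹ * (ab.2 * z * ab.2⁻¹) * x⁻¹ = 1)).card := by
  classical
  set C := centralizer ({z} : Set G) with hC
  obtain ⟨z₁, hz₁⟩ : ∃ z₁, z₁ = a₀ * z * a₀⁻¹ := ⟨_, rfl⟩
  obtain ⟨z₂, hz₂⟩ : ∃ z₂, z₂ = b₀ * z * b₀⁻¹ := ⟨_, rfl⟩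
  rw [← hz₁, ← hz₂] at h0
  have hz₁2 : z₁ * z₁ = 1 := by
    have : z₁ * z₁ = a₀ * (z * z) * a₀⁻¹ := by rw [hz₁]; group
    rw [this, hzo]
    group
  have hz₂2 : z₂ * z₂ = 1 := by
    have : z₂ * z₂ = b₀ * (z * z) * b₀⁻¹ := by rw [hz₂]; group
    rw [this, hzo]
    group
  have hx : z₁ * z₂ = x := by
    have h1 : z₁ * z₂ * x⁻¹ * x = 1 * x := by rw [h0]
    simpa using h1
  have hz₁i : z₁⁻¹ = z₁ := inv_eq_of_mul_eq_one_left hz₁2
  have hz₂i : z₂⁻¹ = z₂ := inv_eq_of_mul_eq_one_left hz₂2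
  have hinv : z₁ * x * z₁⁻¹ = x⁻¹ := by
    calc z₁ * x * z₁⁻¹ = z₁ * (z₁ * z₂) * z₁ := by rw [hz₁i, hx]
      _ = (z₁ * z₁) * z₂ * z₁ := by group
      _ = z₂ * z₁ := by rw [hz₁2, one_mul]
      _ = (z₁ * z₂)⁻¹ := by rw [mul_inv_rev, hz₁i, hz₂i]
      _ = x⁻¹ := by rw [hx]
  have hinvy : ∀ u ∈ zpowers x, z₁ * u * z₁⁻¹ = u⁻¹ := by
    intro u hu
    obtain ⟨k, rfl⟩ := Subgroup.mem_zpowers_iff.1 hu
    have h1 := (MulAut.conj z₁).toMonoidHom.map_zpow x k
    simp only [MulEquiv.coe_toMonoidHom, MulAut.conj_apply] at h1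
    rw [h1, hinv, inv_zpow]
  have hu1 : ∀ u ∈ zpowers x, z₁ * u = u * z₁ → u = 1 := by
    intro u hu hc
    have h1 := hinvy u hu
    have h2 : z₁ * u * z₁⁻¹ = u := by
      rw [hc]
      group
    rw [h2] at h1
    have h3 : u * u = 1 := by
      nth_rw 2 [h1]
      group
    have h4 : u ^ 2 = 1 := by rw [pow_two, h3]
    have h5 : orderOf u ∣ 2 := orderOf_dvd_of_pow_eq_one h4
    have h6 : orderOf u ∣ p := by
      have := Subgroup.orderOf_dvd_natCard (zpowers x) hu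
      rwa [Nat.card_zpowers, hord] at this
    have h7 : orderOf u ∣ Nat.gcd 2 p := Nat.dvd_gcd h5 h6
    have h8 : Nat.gcd 2 p = 1 := (Nat.coprime_two_left.2 hodd)
    rw [h8] at h7
    exact orderOf_eq_one_iff.1 (Nat.dvd_one.1 h7)
  let φ : (zpowers x) × C × C → {ab : G × G // ab.1 * z * ab.1⁻¹ * (ab.2 * z * ab.2⁻¹) * x⁻¹ = 1} := fun w =>
    ⟨((w.1 : G) * a₀ * (w.2.1 : G), (w.1 : G) * b₀ * (w.2.2 : G)), by
      have hc1 : (w.2.1 : G) * z * (w.2.1 : G)⁻¹ = z := by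
        have := Subgroup.mem_centralizer_singleton_iff.1 w.2.1.2
        rw [this]
        group
      have hc2 : (w.2.2 : G) * z * (w.2.2 : G)⁻¹ = z := by
        have := Subgroup.mem_centralizer_singleton_iff.1 w.2.2.2
        rw [this]
        group
      have h1 : ((w.1 : G) * a₀ * (w.2.1 : G)) * z * ((w.1 : G) * a₀ * (w.2.1 : G))⁻¹ = (w.1 : G) * z₁ * (w.1 : G)⁻¹ := by
        calc ((w.1 : G) * a₀ * (w.2.1 : G)) * z * ((w.1 : G) * a₀ * (w.2.1 : G))⁻¹
            = (w.1 : G) * a₀ * ((w.2.1 : G) * z * (w.2.1 : G)⁻¹) * a₀⁻¹ * (w.1 : G)⁻¹ := by group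
          _ = (w.1 : G) * z₁ * (w.1 : G)⁻¹ := by rw [hc1, hz₁]; group
      have h2 : ((w.1 : G) * b₀ * (w.2.2 : G)) * z * ((w.1 : G) * b₀ * (w.2.2 : G))⁻¹ = (w.1 : G) * z₂ * (w.1 : G)⁻¹ := by
        calc ((w.1 : G) * b₀ * (w.2.2 : G)) * z * ((w.1 : G) * b₀ * (w.2.2 : G))⁻¹
            = (w.1 : G) * b₀ * ((w.2.2 : G) * z * (w.2.2 : G)⁻¹) * b₀⁻¹ * (w.1 : G)⁻¹ := by group
          _ = (w.1 : G) * z₂ * (w.1 : G)⁻¹ := by rw [hc2, hz₂]; group
      show ((w.1 : G) * a₀ * (w.2.1 : G)) * z * ((w.1 : G) * a₀ * (w.2.1 : G))⁻¹ * (((w.1 : G) * b₀ * (w.2.2 : G)) * z * ((w.1 : G) * b₀ * (w.2.2 : G))⁻¹) * x⁻¹ = 1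
      rw [h1, h2]
      obtain ⟨k, hk⟩ := Subgroup.mem_zpowers_iff.1 w.1.2
      have h3 : (w.1 : G) * z₁ * (w.1 : G)⁻¹ * ((w.1 : G) * z₂ * (w.1 : G)⁻¹) * x⁻¹ = (w.1 : G) * (z₁ * z₂) * (w.1 : G)⁻¹ * x⁻¹ := by group
      rw [h3, hx, ← hk]
      have h4 : Commute (x ^ k) x := (Commute.refl x).zpow_left k
      rw [h4.eq]
      group⟩
  have hφ : Function.Injective φ := by
    rintro ⟨u, c₁, c₂⟩ ⟨u', c₁', c₂'⟩ h
    have h1 : (u : G) * a₀ * (c₁ : G) = (u' : G) * a₀ * (c₁' : G) := congrArg (fun w => w.1.1) h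
    have h2 : (u : G) * b₀ * (c₂ : G) = (u' : G) * b₀ * (c₂' : G) := congrArg (fun w => w.1.2) h
    set v : G := (u' : G)⁻¹ * (u : G) with hv
    have hvz : v ∈ zpowers x := mul_mem (inv_mem u'.2) u.2
    have h3 : v * a₀ = a₀ * ((c₁' : G) * (c₁ : G)⁻¹) := by
      have : (u' : G) * (v * a₀ * (c₁ : G)) = (u' : G) * (a₀ * (c₁' : G)) := by
        rw [hv]
        calc (u' : G) * ((u' : G)⁻¹ * (u : G) * a₀ * (c₁ : G)) = (u : G) * a₀ * (c₁ : G) := by group
          _ = (u' : G) * a₀ * (c₁' : G) := h1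
          _ = _ := by group
      have h5 := mul_left_cancel this
      calc v * a₀ = (v * a₀ * (c₁ : G)) * (c₁ : G)⁻¹ := by group
        _ = a₀ * (c₁' : G) * (c₁ : G)⁻¹ := by rw [h5]
        _ = _ := by group
    have hcc : (c₁' : G) * (c₁ : G)⁻¹ ∈ C := mul_mem c₁'.2 (inv_mem c₁.2)
    have hcz : ((c₁' : G) * (c₁ : G)⁻¹) * z * ((c₁' : G) * (c₁ : G)⁻¹)⁻¹ = z := by
      have := Subgroup.mem_centralizer_singleton_iff.1 hcc
      rw [this]
      group
    have h4 : z₁ * v = v * z₁ := by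
      have h5 : v * z₁ * v⁻¹ = z₁ := by
        calc v * z₁ * v⁻¹ = (v * a₀) * z * (v * a₀)⁻¹ := by rw [hz₁]; group
          _ = a₀ * (((c₁' : G) * (c₁ : G)⁻¹) * z * ((c₁' : G) * (c₁ : G)⁻¹)⁻¹) * a₀⁻¹ := by rw [h3]; group
          _ = z₁ := by rw [hcz, hz₁]
      calc z₁ * v = (v * z₁ * v⁻¹) * v := by rw [h5]
        _ = v * z₁ := by group
    have hv1 := hu1 v hvz h4
    have huu : (u : G) = (u' : G) := by
      have : (u' : G)⁻¹ * (u : G) = 1 := hv1
      exact (inv_mul_eq_one.1 this).symm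
    rw [huu] at h1 h2
    have hc1 : (c₁ : G) = (c₁' : G) := by
      simpa using h1
    have hc2 : (c₂ : G) = (c₂' : G) := by
      simpa using h2
    have : u = u' := Subtype.ext huu
    rw [this, Subtype.ext hc1, Subtype.ext hc2]
  have h1 := Nat.card_le_card_of_injective φ hφ
  rw [Nat.card_prod, Nat.card_prod, Nat.card_zpowers, hord] at h1
  have h2 : Nat.card {ab : G × G // ab.1 * z * ab.1⁻¹ * (ab.2 * z * ab.2⁻¹) * x⁻¹ = 1} =
      (univ.filter (fun ab : G × G => ab.1 * z * ab.1⁻¹ * (ab.2 * z * ab.2⁻¹) * x⁻¹ = 1)).card := by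
    rw [Nat.card_eq_fintype_card, Fintype.card_subtype]
  rw [h2] at h1
  calc p * Nat.card C ^ 2 = p * (Nat.card C * Nat.card C) := by ring
    _ ≤ _ := h1

/-- Burnside's vanishing lemma for a simple group with trivial centre. -/
lemma vanish_of_coprime [Finite G] [IsSimpleGroup G] (hcen : ∀ g ∈ center G, g = 1) (χ : IrrCharacter G)
    (hχ : χ ≠ Cfsg.Agent.Lib.Blocks.Principal.trivChar G) {z : G} (hz : z ≠ 1)
    (hcop : Nat.Coprime (charDegree (χ : G → ℂ)) (centralizer ({z} : Set G)).index) : (χ : G → ℂ) z = 0 := by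
  classical
  cases nonempty_fintype G
  obtain ⟨f, n, ρ, hirr, rfl⟩ := χ
  haveI := hirr
  have hne' : (ρ.character ≠ fun _ => 1) := fun h => hχ (Subtype.ext h)
  have hdeg : charDegree ρ.character = n := by
    refine Cfsg.Agent.Lib.Char.Values.IsCharacter.charDegree_eq ⟨n, ρ, rfl⟩ ?_
    rw [Representation.char_one]
    simp
  have hcop' : Nat.Coprime (Module.finrank ℂ (Fin n → ℂ)) (centralizer ({z} : Set G)).index := by
    rw [Module.finrank_fin_fun, ← hdeg]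
    exact hcop
  by_contra hz0
  have hnorm := (Cfsg.Agent.Lib.Char.Burnside.character_eq_zero_or_norm_eq_of_coprime ρ z hcop').resolve_left hz0
  obtain ⟨ω, hω⟩ := (Cfsg.Agent.Lib.Char.Values.norm_character_eq_iff ρ z).1 hnorm
  have hker : ρ.ker = ⊥ ∨ ρ.ker = ⊤ := (inferInstance : IsSimpleGroup G).eq_bot_or_eq_top_of_normal _
    (MonoidHom.normal_ker ρ)
  rcases hker with hker | hker
  · have hinj : Function.Injective ρ := (MonoidHom.ker_eq_bot_iff ρ).1 hker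
    apply hz
    apply hcen
    rw [Subgroup.mem_center_iff]
    intro h
    apply hinj
    rw [map_mul, map_mul, hω]
    ext v
    simp
  · apply hne'
    have htriv : ∀ x : G, ρ x = 1 := fun x => by
      have : x ∈ ρ.ker := by rw [hker]; trivial
      exact this
    have hchar : ∀ x : G, ρ.character x = (n : ℂ) := by
      intro x
      show LinearMap.trace ℂ _ (ρ x) = _
      rw [htriv]
      simp
    have hs := Cfsg.Agent.Lib.Char.Integrality.sum_character_mul_inv ρ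
    simp only [hchar, Finset.sum_const, Finset.card_univ, nsmul_eq_mul, Nat.card_eq_fintype_card] at hs
    have hG : (Fintype.card G : ℂ) ≠ 0 := Nat.cast_ne_zero.mpr Fintype.card_ne_zero
    have hn2 : (n : ℂ) * n = 1 := mul_left_cancel₀ hG (by rw [hs, mul_one])
    have hn1 : n * n = 1 := by exact_mod_cast hn2
    have hn : n = 1 := Nat.eq_one_of_mul_eq_one_right hn1
    funext x
    rw [hchar, hn]
    simp

end Cfsg.Agent.Lib.DefectOne.BT
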