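import Mathlib
import Cfsg.Agent.Lib.DefectOne.BTInv

/-!
# The bound on the Sylow 2-subgroup in the case `t = 2`
-/

set_option autoImplicit false
set_option linter.style.haveILetI false
set_option linter.unusedVariables false
set_option linter.unusedSectionVars false
set_option linter.unusedSimpArgs false

namespace Cfsg.Agent.Lib.DefectOne.BT

open Cfsg Subgroup Finset
open Cfsg.Agent.Lib.DefectOne Cfsg.Agent.Lib.DefectOne.FewInd
open scoped ComplexConjugate

universe u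

variable {G : Type u} [Group G] [Fintype G]
variable {p : ℕ} [hp : Fact p.Prime] {x : G}
variable {ζ : ℂ} {e c b' : ℕ} {X Y : Finset (IrrCharacter G)} {δ : IrrCharacter G → ℤ} {b : IrrCharacter G → ZMod p}
variable {θ θ' : IrrCharacter G}

set_option maxHeartbeats 2000000 in
theorem t2_bound [Fintype (IrrCharacter G)] [DecidableEq G] [IsSimpleGroup G] (hcenter : ∀ g ∈ center G, g = 1)
    (hperf : commutator G = ⊤) (hζ : IsPrimitiveRoot ζ p) (hT : SCTable x ζ e 2 X Y δ (-1) b)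
    (hord : orderOf x = p) (hcen : ∀ c : G, c * x = x * c → c ∈ zpowers x) (P : Sylow p G) (hz : zpowers x = (P : Subgroup G))
    (he : e = 2 ^ c) (hc : 1 ≤ c) (hdeg : ∀ θ ∈ Y, charDegree (θ : G → ℂ) + e = p)
    (hne : θ ≠ θ') (hY : Y = {θ, θ'}) (hGc : Nat.card G = p * e * Nat.card (Sylow p G))
    (hXev : ∀ χ ∈ X, χ ≠ Cfsg.Agent.Lib.Blocks.Principal.trivChar G → Even (charDegree (χ : G → ℂ)))
    (hG2 : Nat.card G = p * 2 ^ b' * (e + 1)) : 2 ^ b' ≤ p := by
  classical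
  have hp' := hp.out
  have hhet := hT.het
  have hpe : p = e * 2 + 1 := by
    have := hp'.two_le
    omega
  have heev : Even e := by
    rw [he]
    exact (Nat.even_pow.2 ⟨even_two, by omega⟩)
  have he0 : 0 < e := hT.epos
  have hpodd : Odd p := ⟨e, by omega⟩
  have hpC : (p : ℂ) = 2 * e + 1 := by
    rw [hpe]
    push_cast
    ring
  have hθY : θ ∈ Y := by rw [hY]; simp
  have hθ'Y : θ' ∈ Y := by rw [hY]; simp
  obtain ⟨hTX, hδT⟩ := hT.triv (by norm_num)
  set T := Cfsg.Agent.Lib.Blocks.Principal.trivChar G with hTdef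
  obtain ⟨hdXm, hdXp⟩ := t2_degs hperf hζ hT hord hcen P hz heev hdeg hne hY hGc hXev
  -- `b' ≥ 1`
  have hb1 : 1 ≤ b' := by
    by_contra hlt
    have hb0 : b' = 0 := by omega
    rw [hb0, pow_zero, mul_one] at hG2
    have h1 : e * Nat.card (Sylow p G) = e + 1 := by
      have h2 : p * (e * Nat.card (Sylow p G)) = p * (e + 1) := by
        rw [← mul_assoc, ← hGc, hG2]
      exact Nat.eq_of_mul_eq_mul_left hp'.pos h2
    have h3 : e ∣ 1 := by
      have h4 : e ∣ e + 1 := ⟨_, h1.symm⟩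
      exact (Nat.dvd_add_right (dvd_refl e)).1 h4
    have h4 := Nat.le_of_dvd (by norm_num) h3
    obtain ⟨w, hw⟩ := heev
    omega
  -- the involution
  have hdvd : 2 ^ b' ∣ Nat.card G := by
    rw [hG2]
    exact Dvd.dvd.mul_right (dvd_mul_left _ _) _
  obtain ⟨z, hzo, hzC⟩ := exists_central_invol hb1 hdvd
  have hz2 : z * z = 1 := by
    rw [← pow_two, ← hzo, pow_orderOf_eq_one]
  have hz1 : z ≠ 1 := by
    rintro rfl
    rw [orderOf_one] at hzo
    norm_num at hzo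
  have hzinv : z⁻¹ = z := inv_eq_of_mul_eq_one_left hz2
  have hzreg : ¬ p ∣ orderOf z := by
    rw [hzo]
    intro h
    have h1 := Nat.le_of_dvd (by norm_num) h
    have := hp'.two_le
    obtain ⟨w, hw⟩ := heev
    omega
  set C := Nat.card (centralizer ({z} : Set G)) with hCdef
  have hC0 : 0 < C := Nat.card_pos
  -- the index is odd
  have hidx : Odd (centralizer ({z} : Set G)).index := by
    obtain ⟨k, hk⟩ := hzC
    have h1 := Subgroup.card_mul_index (centralizer ({z} : Set G))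
    rw [hG2, ← hCdef, hk] at h1
    have h2 : (2 ^ b') * (k * (centralizer ({z} : Set G)).index) = (2 ^ b') * (p * (e + 1)) := by
      calc (2 ^ b') * (k * (centralizer ({z} : Set G)).index) = 2 ^ b' * k * (centralizer ({z} : Set G)).index := by ring
        _ = p * 2 ^ b' * (e + 1) := h1
        _ = _ := by ring
    have h3 := Nat.eq_of_mul_eq_mul_left (by positivity) h2
    have h4 : Odd (k * (centralizer ({z} : Set G)).index) := by
      rw [h3]
      refine hpodd.mul ?_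
      exact heev.add_one
    exact (Nat.odd_mul.1 h4).2
  -- the characters of sign `-1` vanish
  have hvan : ∀ χ ∈ X, δ χ = -1 → (χ : G → ℂ) z = 0 := by
    intro χ hχ hδ
    have hχT : χ ≠ T := by
      rintro rfl
      rw [hδT] at hδ
      norm_num at hδ
    refine vanish_of_coprime hcenter χ hχT hz1 ?_
    have h1 := hdXm χ hχ hδ
    have h2 : charDegree (χ : G → ℂ) = 2 ^ (c + 1) := by
      rw [pow_succ, ← he]
      omega
    rw [h2]
    exact Nat.Coprime.pow_left _ (Nat.coprime_two_left.2 hidx)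
  -- realness
  have hreal : ∀ ψ : IrrCharacter G, conj ((ψ : G → ℂ) z) = (ψ : G → ℂ) z := by
    intro ψ
    have h1 := Cfsg.Agent.Lib.Char.Ortho.character_inv_of_isCharacter
      (Cfsg.Agent.Lib.Char.Basic.isCharacter_of_isIrrCharacter ψ.2) z
    rw [hzinv] at h1
    exact h1.symm
  let w : IrrCharacter G → ℝ := fun ψ => Complex.normSq ((ψ : G → ℂ) z)
  have hw0 : ∀ ψ, 0 ≤ w ψ := fun ψ => Complex.normSq_nonneg _
  have hwsq : ∀ ψ : IrrCharacter G, (ψ : G → ℂ) z * (ψ : G → ℂ) z = (w ψ : ℂ) := by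
    intro ψ
    nth_rw 2 [← hreal ψ]
    exact Complex.mul_conj _
  -- column orthogonality
  have hcol : ∑ ψ, w ψ = C := by
    have h1 := Cfsg.Agent.Lib.Char.CompleteCor.column_orth_conj (G := G) (IsConj.refl z)
    simp_rw [hreal, hwsq] at h1
    exact_mod_cast h1
  have hwT : w T = 1 := by
    have h4 : ((T : IrrCharacter G) : G → ℂ) z = 1 := rfl
    simp only [w]
    rw [h4]
    simp
  have hwθ' : w θ' = w θ := by
    simp only [w]
    rw [same_reg hT hzreg hθ'Y hθY]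
  set X₁ := (X.erase T).filter (fun χ => δ χ = 1) with hX₁
  set S : ℝ := ∑ χ ∈ X₁, w χ + 2 * w θ with hS
  have hS0 : 0 ≤ S := by
    have h1 : 0 ≤ ∑ χ ∈ X₁, w χ := sum_nonneg fun χ _ => hw0 χ
    have h2 := hw0 θ
    linarith
  have hSC : S + 1 ≤ C := by
    rw [← hcol]
    have h1 : ∑ ψ ∈ X ∪ Y, w ψ ≤ ∑ ψ, w ψ := sum_le_sum_of_subset_of_nonneg (subset_univ _) fun ψ _ _ => hw0 ψ
    rw [sum_union hT.disj, hY, sum_pair hne, ← add_sum_erase X w hTX, hwT, hwθ'] at h1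
    have h2 : ∑ χ ∈ X₁, w χ ≤ ∑ χ ∈ X.erase T, w χ :=
      sum_le_sum_of_subset_of_nonneg (filter_subset _ _) fun ψ _ _ => hw0 ψ
    simp only [hS]
    linarith
  -- the count
  have hi1 : (-1 : ZMod p) ≠ 0 := neg_ne_zero.2 one_ne_zero
  have hxinv : XX x (-1 : ZMod p) = x⁻¹ := by rw [XX_neg hord, XX_one hord]
  have hep1 : (e : ℂ) + 1 ≠ 0 := by
    have : ((e + 1 : ℕ) : ℂ) ≠ 0 := by exact_mod_cast Nat.succ_ne_zero e
    simpa using this
  have hdc : ∀ ψ ∈ Y, (ψ : G → ℂ) 1 = (e : ℂ) + 1 := by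
    intro ψ hψ
    rw [irr_degree_cast]
    have h1 := hdeg ψ hψ
    have h2 : charDegree (ψ : G → ℂ) = e + 1 := by omega
    rw [h2]
    push_cast
    ring
  have hsum : ∑ ψ : IrrCharacter G, (ψ : G → ℂ) z * (ψ : G → ℂ) z * (ψ : G → ℂ) x⁻¹ / (ψ : G → ℂ) 1 =
      (((1 : ℝ) + S / (p + 1) : ℝ) : ℂ) := by
    rw [sum_split hT hne hY _ (fun ψ hψ => by
      rw [← hxinv, hT.out ψ hψ _ hi1, mul_zero, zero_div])]
    rw [← add_sum_erase X _ hTX]
    have hTt : ((T : IrrCharacter G) : G → ℂ) z * ((T : IrrCharacter G) : G → ℂ) z * ((T : IrrCharacter G) : G → ℂ) x⁻¹ / ((T : IrrCharacter G) : G → ℂ) 1 = 1 := by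
      have h4 : ∀ g, ((T : IrrCharacter G) : G → ℂ) g = 1 := fun g => rfl
      simp only [h4]
      norm_num
    rw [hTt]
    have hX : ∑ ψ ∈ X.erase T, (ψ : G → ℂ) z * (ψ : G → ℂ) z * (ψ : G → ℂ) x⁻¹ / (ψ : G → ℂ) 1 =
        ∑ ψ ∈ X₁, (w ψ : ℂ) / ((p : ℂ) + 1) := by
      rw [hX₁, sum_filter]
      refine sum_congr rfl fun χ hχ => ?_
      have hχX := mem_of_mem_erase hχ
      have hχT := ne_of_mem_erase hχ
      have h5 : (χ : G → ℂ) x⁻¹ = (δ χ : ℂ) := by
        rw [← hxinv]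
        exact hT.valX χ hχX _ hi1
      split_ifs with hδ
      · rw [hwsq, h5, hδ, irr_degree_cast, hdXp χ hχX hδ hχT]
        push_cast
        ring
      · have hδ' : δ χ = -1 := (hT.signX χ hχX).resolve_left hδ
        rw [hvan χ hχX hδ']
        simp
    rw [hX, hdc θ hθY, hdc θ' hθ'Y]
    have hτ := (t2_vals hT hord hcen heev hdeg hne hY hi1).1
    rw [hxinv] at hτ
    rw [same_reg hT hzreg hθ'Y hθY, hwsq θ]
    have hp1 : (p : ℂ) + 1 = 2 * ((e : ℂ) + 1) := by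
      rw [hpC]
      ring
    have h6 : ((w θ : ℂ) * (θ : G → ℂ) x⁻¹ / ((e : ℂ) + 1) + (w θ : ℂ) * (θ' : G → ℂ) x⁻¹ / ((e : ℂ) + 1)) =
        2 * (w θ : ℂ) / ((p : ℂ) + 1) := by
      rw [hp1]
      field_simp
      linear_combination (w θ : ℂ) * hτ
    rw [add_assoc, h6, ← sum_div, hS]
    push_cast
    rw [add_div]
  have hcount := count_formula z z x⁻¹
  rw [hsum] at hcount
  set cnt := (univ.filter (fun ab : G × G => ab.1 * z * ab.1⁻¹ * (ab.2 * z * ab.2⁻¹) * x⁻¹ = 1)).card with hcnt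
  have hcountR : (cnt : ℝ) = (Nat.card G : ℝ) * ((1 : ℝ) + S / (p + 1)) := by
    have h1 : ((cnt : ℝ) : ℂ) = (((Nat.card G : ℝ) * ((1 : ℝ) + S / (p + 1)) : ℝ) : ℂ) := by
      push_cast
      push_cast at hcount
      exact hcount
    exact Complex.ofReal_injective h1
  have hGpos : (0 : ℝ) < Nat.card G := by exact_mod_cast Nat.card_pos
  have hpR : (0 : ℝ) < p := by exact_mod_cast hp'.pos
  have hfr : 0 ≤ S / (p + 1) := div_nonneg hS0 (by positivity)
  have hcntpos : 0 < cnt := by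
    have h1 : (0 : ℝ) < cnt := by
      rw [hcountR]
      positivity
    exact_mod_cast h1
  obtain ⟨⟨a₀, b₀⟩, hab⟩ := card_pos.1 hcntpos
  have hab' := (mem_filter.1 hab).2
  have hlow := count_lower hord hpodd hz2 hab'
  rw [← hCdef, ← hcnt] at hlow
  have hlowR : (p : ℝ) * (C : ℝ) ^ 2 ≤ cnt := by exact_mod_cast hlow
  rw [hcountR] at hlowR
  -- the inequality
  have h2b : 2 ^ b' ≤ C := Nat.le_of_dvd hC0 hzC
  have h2bR : (2 : ℝ) ^ b' ≤ C := by exact_mod_cast h2b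
  have hGR : (Nat.card G : ℝ) = p * 2 ^ b' * ((e : ℝ) + 1) := by
    rw [hG2]
    push_cast
    ring
  have hpeR : (p : ℝ) + 1 = 2 * ((e : ℝ) + 1) := by
    rw [hpe]
    push_cast
    ring
  have hepos : (0 : ℝ) < (e : ℝ) + 1 := by positivity
  have hkey : 2 * (C : ℝ) ^ 2 ≤ 2 ^ b' * ((p : ℝ) + C) := by
    have h1 : (Nat.card G : ℝ) * ((1 : ℝ) + S / (p + 1)) = p * 2 ^ b' * (((p : ℝ) + 1 + S) / 2) := by
      rw [hGR, hpeR]
      have : (p : ℝ) + 1 = 2 * ((e : ℝ) + 1) := hpeR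
      field_simp
    rw [h1] at hlowR
    have h2 : (p : ℝ) * (C : ℝ) ^ 2 ≤ p * (2 ^ b' * (((p : ℝ) + 1 + S) / 2)) := by
      calc (p : ℝ) * (C : ℝ) ^ 2 ≤ p * 2 ^ b' * (((p : ℝ) + 1 + S) / 2) := hlowR
        _ = _ := by ring
    have h3 := le_of_mul_le_mul_left h2 hpR
    have h4 : (0 : ℝ) ≤ 2 ^ b' := by positivity
    nlinarith
  have hCR : (0 : ℝ) < C := by exact_mod_cast hC0
  have hCp : (C : ℝ) ≤ p := by
    by_contra hgt
    push Not at hgt
    have h1 : (2 : ℝ) ^ b' * ((p : ℝ) + C) ≤ C * ((p : ℝ) + C) := mul_le_mul_of_nonneg_right h2bR (by positivity)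
    nlinarith
  have h3 : (2 : ℝ) ^ b' ≤ p := h2bR.trans hCp
  exact_mod_cast h3

end Cfsg.Agent.Lib.DefectOne.BT
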