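import Mathlib
import Cfsg.Agent.Lib.DefectOne.BTEnd

/-!
# Reduction to `t = 2` in the case of sign `-1`
-/

set_option autoImplicit false
set_option linter.style.haveILetI false
set_option linter.unusedVariables false
set_option linter.unusedSectionVars false
set_option linter.unusedSimpArgs false

namespace Cfsg.Agent.Lib.DefectOne.BT

open Cfsg Subgroup Finset
open Cfsg.Agent.Lib.DefectOne Cfsg.Agent.Lib.DefectOne.FewInd
open scoped ComplexConjugate

universe u

variable {G : Type u} [Group G] [Fintype G]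
variable {p : ℕ} [hp : Fact p.Prime] {x : G}
variable {ζ : ℂ} {e t c b' : ℕ} {X Y : Finset (IrrCharacter G)} {δ : IrrCharacter G → ℤ} {b : IrrCharacter G → ZMod p}

/-- If `e = 2^c ≥ 4` then `t ≤ 2`. -/
theorem t_small (hperf : commutator G = ⊤) (hT : SCTable x ζ e t X Y δ (-1) b)
    (he : e = 2 ^ c) (he4 : 4 ≤ e) (ht3 : 3 ≤ t) (hdeg : ∀ θ ∈ Y, charDegree (θ : G → ℂ) + e = p)
    (hXev : ∀ χ ∈ X, χ ≠ Cfsg.Agent.Lib.Blocks.Principal.trivChar G → Even (charDegree (χ : G → ℂ)))
    (hG2 : Nat.card G = p * 2 ^ b' * (p - e)) : False := by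
  classical
  have hp' := hp.out
  have hhet := hT.het
  have hpe : p = e * t + 1 := by
    have := hp'.two_le
    omega
  have hep : e < p := by
    have : e * 1 ≤ e * t := Nat.mul_le_mul_left _ (by omega)
    omega
  obtain ⟨hTX, hδT⟩ := hT.triv (by omega)
  set T := Cfsg.Agent.Lib.Blocks.Principal.trivChar G with hTdef
  have hDT : charDegree ((T : IrrCharacter G) : G → ℂ) = 1 := by
    have h3 := irr_degree_cast T
    have h4 : ((T : IrrCharacter G) : G → ℂ) 1 = 1 := rfl
    rw [h4] at h3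
    exact_mod_cast h3.symm
  have hpZ : (0 : ℤ) < p := by exact_mod_cast hp'.pos
  have hdZ : ∀ χ ∈ X, (p : ℤ) ∣ (charDegree (χ : G → ℂ) : ℤ) - δ χ := fun χ hχ => Int.modEq_iff_dvd.1 (hT.degX χ hχ).symm
  let n : IrrCharacter G → ℤ := fun χ => ((charDegree (χ : G → ℂ) : ℤ) - δ χ) / p
  have hn : ∀ χ ∈ X, (p : ℤ) * n χ = (charDegree (χ : G → ℂ) : ℤ) - δ χ := fun χ hχ => Int.mul_ediv_cancel' (hdZ χ hχ)
  have hnT : n T = 0 := by
    simp only [n]
    rw [hDT, hδT]
    simp
  have hδsq : ∀ χ ∈ X, δ χ * δ χ = 1 := by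
    intro χ hχ
    rcases hT.signX χ hχ with h | h <;> rw [h] <;> norm_num
  obtain ⟨θ₀, hθ₀⟩ : Y.Nonempty := card_pos.1 (by rw [hT.cardY]; omega)
  have hsum : ∑ χ ∈ X, δ χ * n χ = -1 := by
    have h1 := rel_one hT hθ₀
    have h2 : ∑ χ ∈ X, δ χ * (charDegree (χ : G → ℂ) : ℤ) = (p : ℤ) * ∑ χ ∈ X, δ χ * n χ + e := by
      rw [mul_sum]
      have h3 : (e : ℤ) = ∑ χ ∈ X, (1 : ℤ) := by
        rw [sum_const, hT.cardX]
        simp
      rw [h3, ← sum_add_distrib]
      refine sum_congr rfl fun χ hχ => ?_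
      have h4 := hn χ hχ
      have h5 := hδsq χ hχ
      have h6 : (charDegree (χ : G → ℂ) : ℤ) = (p : ℤ) * n χ + δ χ := by linarith
      rw [h6]
      linear_combination h5
    rw [h2] at h1
    have h3 : ((charDegree (θ₀ : G → ℂ) + e : ℕ) : ℤ) = p := by rw [hdeg θ₀ hθ₀]
    push_cast at h3
    have h4 : (p : ℤ) * ∑ χ ∈ X, δ χ * n χ = (p : ℤ) * (-1) := by linarith
    exact mul_left_cancel₀ hpZ.ne' h4
  have hdvd : ∀ χ ∈ X, charDegree (χ : G → ℂ) ∣ 2 ^ b' * (p - e) := by
    intro χ hχ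
    have h1 := Cfsg.Agent.Lib.Blocks.HeightZero.charDegree_dvd_card χ.2
    rw [hG2, mul_assoc] at h1
    have hnp : ¬ p ∣ charDegree (χ : G → ℂ) := by
      apply not_dvd_of_cong hp'
      have h2 := hT.degX χ hχ
      rcases hT.signX χ hχ with h | h <;> rw [h] at h2
      · exact Or.inl h2
      · exact Or.inr h2
    exact (((Nat.Prime.coprime_iff_not_dvd hp').2 hnp).symm).dvd_of_dvd_mul_left h1
  let r : ℕ := if t ∣ e then t else e
  have hre : r ∣ e := by
    simp only [r]
    split_ifs with h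
    · exact h
    · exact dvd_refl e
  have hr3 : 3 ≤ r := by
    simp only [r]
    split_ifs with h
    · exact ht3
    · omega
  have hrZ : (r : ℤ) ∣ (e : ℤ) := by exact_mod_cast hre
  have hr : ∀ χ ∈ X, χ ≠ T → (r : ℤ) ∣ δ χ * n χ + 1 := by
    intro χ hχ hχT
    have hev := hXev χ hχ hχT
    have hnχ := hn χ hχ
    have hD0 : 0 < charDegree (χ : G → ℂ) := irr_degree_pos' χ
    rcases hT.signX χ hχ with h | h
    · rw [h, one_mul]
      rw [h] at hnχ
      have hD2 : 2 ≤ charDegree (χ : G → ℂ) := by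
        by_contra hlt
        have h4 : charDegree (χ : G → ℂ) = 1 := by omega
        exact hχT (eq_triv_of_deg_one hperf χ h4)
      have hD2' : (2 : ℤ) ≤ (charDegree (χ : G → ℂ) : ℤ) := by exact_mod_cast hD2
      have hn1 : 1 ≤ n χ := by
        by_contra hneg
        have h5 : n χ ≤ 0 := by omega
        have h6 : (p : ℤ) * n χ ≤ 0 := mul_nonpos_of_nonneg_of_nonpos hpZ.le h5
        omega
      obtain ⟨u, hu⟩ := Int.eq_ofNat_of_zero_le (show 0 ≤ n χ by omega)
      rw [hu] at hnχ hn1 ⊢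
      have hu1 : 1 ≤ u := by exact_mod_cast hn1
      have hDu : charDegree (χ : G → ℂ) = u * p + 1 := by
        have h5 : ((charDegree (χ : G → ℂ) : ℕ) : ℤ) = ((u * p + 1 : ℕ) : ℤ) := by
          push_cast
          linarith
        exact_mod_cast h5
      rcases plus_case he hhet hp'.one_le hep rfl (hdvd χ hχ) hDu hu1 hev with h5 | ⟨h5, h6⟩
      · exact hrZ.trans h5
      · have h7 : r = t := by
          simp only [r]
          rw [if_pos h6]
        rw [h7]
        have h8 : ((u + 1 : ℕ) : ℤ) = t := by rw [h5]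
        push_cast at h8
        rw [h8]
    · rw [h]
      rw [h] at hnχ
      have hn1 : 1 ≤ n χ := by
        by_contra hneg
        have h5 : n χ ≤ 0 := by omega
        have h6 : (p : ℤ) * n χ ≤ 0 := mul_nonpos_of_nonneg_of_nonpos hpZ.le h5
        have h7 : (0 : ℤ) < (charDegree (χ : G → ℂ) : ℤ) := by exact_mod_cast hD0
        omega
      obtain ⟨v, hv⟩ := Int.eq_ofNat_of_zero_le (show 0 ≤ n χ by omega)
      rw [hv] at hnχ hn1 ⊢
      have hv1 : 1 ≤ v := by exact_mod_cast hn1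
      have hDv : charDegree (χ : G → ℂ) + 1 = v * p := by
        have h5 : ((charDegree (χ : G → ℂ) + 1 : ℕ) : ℤ) = ((v * p : ℕ) : ℤ) := by
          push_cast
          linarith
        exact_mod_cast h5
      have h5 := minus_case he hhet hp'.one_le hep rfl (hdvd χ hχ) hD0.ne' hDv hv1
      have h6 : (r : ℤ) ∣ (v : ℤ) - 1 := hrZ.trans h5
      have h7 : -1 * (v : ℤ) + 1 = -((v : ℤ) - 1) := by ring
      rw [h7]
      exact (dvd_neg).2 h6
  have h2 := t_eq_two_aux X (fun χ => δ χ * n χ) T hTX (by show δ T * n T = 0; rw [hnT, mul_zero]) hsum hT.cardX hre hr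
  have := Nat.le_of_dvd (by norm_num) h2
  omega

end Cfsg.Agent.Lib.DefectOne.BT
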