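import Mathlib
import Cfsg.Agent.Lib.DefectOne.BTArith
import Cfsg.Agent.S4503
import Cfsg.Agent.S4504
import Cfsg.Agent.S4705

/-!
# Simple groups of order `p q^b g₀` with `g₀ < p - 1`
-/

set_option autoImplicit false
set_option linter.style.haveILetI false
set_option linter.unusedVariables false
set_option linter.unusedSectionVars false
set_option linter.unusedSimpArgs false

namespace Cfsg.Agent.Lib.DefectOne.BT

open Cfsg Subgroup Finset
open Cfsg.Agent.Lib.DefectOne Cfsg.Agent.Lib.DefectOne.FewInd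
open scoped ComplexConjugate MatrixGroups

universe u

/-- The conclusion of the theorem of Brauer and Tuan. -/
def Concl (G : Type u) [Group G] (p : ℕ) : Prop :=
  (∃ (m : ℕ) (F : Type) (_ : Field F) (_ : Fintype F), Fintype.card F = p ∧ (p = 2 ^ m + 1 ∨ p = 2 ^ m - 1) ∧
      Nonempty (G ≃* Matrix.ProjectiveSpecialLinearGroup (Fin 2) F)) ∨
    (∃ (m : ℕ) (F : Type) (_ : Field F) (_ : Fintype F), Fintype.card F = 2 ^ m ∧ p = 2 ^ m + 1 ∧ 3 < p ∧
      Nonempty (G ≃* Matrix.ProjectiveSpecialLinearGroup (Fin 2) F))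

section Simple

variable {G : Type u} [Group G] [Finite G] [IsSimpleGroup G]

lemma not_comm (hG : ¬ IsCyclic G) : ¬ ∀ a b : G, a * b = b * a := by
  intro hcomm
  apply hG
  obtain ⟨g, hg⟩ : ∃ g : G, g ≠ 1 := exists_ne 1
  have hn : (Subgroup.zpowers g).Normal := by
    refine ⟨fun u hu c => ?_⟩
    rw [hcomm c u]
    simpa using hu
  rcases hn.eq_bot_or_eq_top with h | h
  · exact absurd (Subgroup.zpowers_eq_bot.1 h) hg
  · exact isCyclic_iff_exists_zpowers_eq_top.2 ⟨g, h⟩

lemma perfect (hG : ¬ IsCyclic G) : commutator G = ⊤ := by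
  rcases (inferInstance : (commutator G).Normal).eq_bot_or_eq_top with h | h
  · exfalso
    apply not_comm hG
    intro a b
    rw [commutator_def, Subgroup.commutator_eq_bot_iff_le_centralizer] at h
    have h1 := Subgroup.mem_centralizer_iff.1 (h (Subgroup.mem_top a)) b (Subgroup.mem_top b)
    exact h1.symm
  · exact h

lemma center_bot (hG : ¬ IsCyclic G) : center G = ⊥ := by
  rcases (center G).normal_of_characteristic.eq_bot_or_eq_top with h1 | h1
  · exact h1
  · exfalso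
    apply not_comm hG
    intro a b
    have h2 : a ∈ Subgroup.center G := by rw [h1]; exact Subgroup.mem_top a
    exact (Subgroup.mem_center_iff.1 h2 b).symm

lemma center_triv (hG : ¬ IsCyclic G) : ∀ g ∈ center G, g = 1 := by
  intro g hg
  rw [center_bot hG] at hg
  exact hg

lemma no_normal {p : ℕ} (hG : ¬ IsCyclic G) (hp : p.Prime) : ∀ H : Subgroup G, H.Normal → Nat.card H ≠ p := by
  intro H hH hc
  rcases hH.eq_bot_or_eq_top with h | h
  · rw [h, Subgroup.card_bot] at hc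
    exact hp.one_lt.ne hc
  · rw [h, Subgroup.card_top] at hc
    haveI : Fact p.Prime := ⟨hp⟩
    exact hG (isCyclic_of_prime_card hc)

/-- A nontrivial irreducible character of a simple group is faithful. -/
lemma faithful (hG : ¬ IsCyclic G) (θ : IrrCharacter G) (hθ : θ ≠ Cfsg.Agent.Lib.Blocks.Principal.trivChar G) :
    ∀ g : G, (θ : G → ℂ) g = (θ : G → ℂ) 1 → g = 1 := by
  classical
  cases nonempty_fintype G
  obtain ⟨K, hKn, hK⟩ := Cfsg.Agent.Lib.Blocks.Kernel.exists_ker_of_irr θ.2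
  rcases hKn.eq_bot_or_eq_top with h | h
  · intro g hg
    have h1 := (hK g).2 hg
    rw [h] at h1
    exact h1
  · exfalso
    have hall : ∀ g : G, (θ : G → ℂ) g = (θ : G → ℂ) 1 := fun g => (hK g).1 (by rw [h]; exact Subgroup.mem_top g)
    have h1 := Cfsg.Agent.Lib.Char.Ortho.classInner_irr_self θ.2
    rw [Cfsg.Agent.Lib.Char.Induced.classInner_def] at h1
    simp_rw [hall] at h1
    rw [sum_const, card_univ, nsmul_eq_mul, ← mul_assoc, ← Nat.card_eq_fintype_card, inv_mul_cancel₀ (by exact_mod_cast Nat.card_pos.ne'),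
      one_mul, Cfsg.Agent.Lib.Char.CompleteCor.conj_apply_one θ.2, irr_degree_cast] at h1
    have h2 : charDegree (θ : G → ℂ) * charDegree (θ : G → ℂ) = 1 := by exact_mod_cast h1
    exact hθ (eq_triv_of_deg_one (perfect hG) θ (Nat.eq_one_of_mul_eq_one_right h2))

/-- `p` divides the order exactly once. -/
lemma not_sq_dvd {p q b g₀ : ℕ} (hp : p.Prime) (hq : q.Prime) (hpq : p ≠ q) (hG' : Nat.card G = p * q ^ b * g₀) (hg : g₀ < p - 1) :
    ¬ p ^ 2 ∣ Nat.card G := by
  intro h
  have hg0 : 0 < g₀ := by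
    rcases Nat.eq_zero_or_pos g₀ with h | h
    · rw [h, mul_zero] at hG'
      exact absurd hG' Nat.card_pos.ne'
    · exact h
  rw [hG', pow_two, mul_assoc] at h
  have h1 := Nat.dvd_of_mul_dvd_mul_left hp.pos h
  have h2 : Nat.Coprime p (q ^ b) := Nat.Coprime.pow_right _ ((Nat.coprime_primes hp hq).2 hpq)
  have h3 := h2.dvd_of_dvd_mul_left h1
  have h4 := Nat.le_of_dvd hg0 h3
  omega

/-- The case where an exceptional character has degree `e`. -/
theorem finish_plus (hG : ¬ IsCyclic G) {p q b g₀ e t : ℕ} (hp : p.Prime) (hq : q.Prime) (hpq : p ≠ q)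
    (hG' : Nat.card G = p * q ^ b * g₀) (hg : g₀ < p - 1) (ht2 : 2 ≤ t) (he0 : 0 < e) (het : p - 1 = e * t)
    (θ : IrrCharacter G) (hθT : θ ≠ Cfsg.Agent.Lib.Blocks.Principal.trivChar G) (hdv : charDegree (θ : G → ℂ) ∣ g₀)
    (hd : charDegree (θ : G → ℂ) = e) : Concl G p := by
  classical
  cases nonempty_fintype G
  haveI : Fact p.Prime := ⟨hp⟩
  have hg0 : 0 < g₀ := by
    rcases Nat.eq_zero_or_pos g₀ with h | h
    · rw [h, mul_zero] at hG'
      exact absurd hG' Nat.card_pos.ne'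
    · exact h
  have hdiv : p ∣ Nat.card G := by
    rw [hG', mul_assoc]
    exact dvd_mul_right _ _
  have hsq := not_sq_dvd hp hq hpq hG' hg
  have hnn := no_normal (p := p) hG hp
  have hch := Cfsg.Agent.Lib.Char.Basic.isCharacter_of_isIrrCharacter θ.2
  have hfaith := faithful hG θ hθT
  have hp2 := hp.two_le
  have h1 := Cfsg.Agent.S4503.result p hp hdiv hsq hnn θ hch hfaith
  rw [hd] at h1
  have hpe : p = e * t + 1 := by omega
  have ht : t = 2 := by
    have h2 : e * t ≤ e * 2 := by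
      rw [mul_comm e 2]
      omega
    have := Nat.le_of_mul_le_mul_left h2 he0
    omega
  rw [ht] at hpe
  have hdeg2 : 2 * charDegree (θ : G → ℂ) + 1 = p := by
    rw [hd]
    omega
  obtain ⟨iso⟩ := Cfsg.Agent.S4504.result p hp hdiv hsq hnn θ hch hfaith hdeg2
  have hc := center_bot hG
  have iso2 : G ≃* PSL(2, ZMod p) :=
    ((QuotientGroup.quotientBot (G := G)).symm.trans (QuotientGroup.quotientMulEquivOfEq hc.symm)).trans iso
  have he2 : 2 ≤ e := by
    by_contra hlt
    have h4 : charDegree (θ : G → ℂ) = 1 := by omega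
    exact hθT (eq_triv_of_deg_one (perfect hG) θ h4)
  have h3p : 3 < p := by omega
  have hcard := card_psl_zmod (p := p) h3p
  rw [← Nat.card_congr iso2.toEquiv, hG'] at hcard
  obtain ⟨k, hk⟩ := hdv
  rw [hd] at hk
  have hk1 : k = 1 := by
    have hk0 : k ≠ 0 := by
      rintro rfl
      omega
    by_contra hne
    have hk2 : 2 ≤ k := by omega
    have h5 : e * 2 ≤ e * k := Nat.mul_le_mul_left _ hk2
    omega
  rw [hk1, mul_one] at hk
  rw [hk] at hcard
  have hqb : q ^ b = p + 1 := by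
    have h5 : p ^ 2 - 1 = (2 * e) * (p + 1) := by
      have h6 : p ^ 2 = (2 * e) * (p + 1) + 1 := by
        rw [hpe]
        ring
      omega
    rw [h5] at hcard
    have h6 : (p * e * 2) * q ^ b = (p * e * 2) * (p + 1) := by
      calc (p * e * 2) * q ^ b = p * q ^ b * e * 2 := by ring
        _ = p * (2 * e * (p + 1)) := hcard
        _ = _ := by ring
    exact Nat.eq_of_mul_eq_mul_left (by positivity) h6
  have hb0 : b ≠ 0 := by
    rintro rfl
    rw [pow_zero] at hqb
    omega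
  have hq2 : q = 2 := by
    have h5 : 2 ∣ q ^ b := by
      rw [hqb, hpe]
      omega
    have h6 := Nat.Prime.dvd_of_dvd_pow Nat.prime_two h5
    exact ((Nat.prime_dvd_prime_iff_eq Nat.prime_two hq).1 h6).symm
  rw [hq2] at hqb
  left
  refine ⟨b, ZMod p, inferInstance, inferInstance, ZMod.card p, Or.inr (by omega), ⟨iso2⟩⟩

end Simple

section Sc

variable {G : Type u} [Group G] [Fintype G] [IsSimpleGroup G]

theorem main_sc (hG : ¬ IsCyclic G) {p q b g₀ : ℕ} [hp : Fact p.Prime] (hq : q.Prime) (hpq : p ≠ q)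
    (hG' : Nat.card G = p * q ^ b * g₀) (hg : g₀ < p - 1) {x : G} (hord : orderOf x = p)
    (hcen : ∀ c : G, c * x = x * c → c ∈ zpowers x) (P : Sylow p G) (hz : zpowers x = (P : Subgroup G)) : Concl G p := by
  classical
  haveI : Finite (IrrCharacter G) := Cfsg.Agent.Lib.Char.Complete.finite_irr
  letI : Fintype (IrrCharacter G) := Fintype.ofFinite _
  have hp' := hp.out
  have hperf := perfect hG
  have hPc : Nat.card P = p := by
    have h1 : Nat.card (P : Subgroup G) = Nat.card (zpowers x) := by rw [hz]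
    rw [Nat.card_zpowers, hord] at h1
    exact h1
  have hdvdG : p ∣ Nat.card G := by
    rw [hG', mul_assoc]
    exact dvd_mul_right _ _
  have hζ : IsPrimitiveRoot (Complex.exp (2 * Real.pi * Complex.I / p)) p := Complex.isPrimitiveRoot_exp p hp'.ne_zero
  obtain ⟨e, t, X, Y, δ, ε, b', hT⟩ := exists_scTable hord hcen P hz hζ
  have hdegY : ∀ θ ∈ Y, (charDegree (θ : G → ℂ) : ℤ) ≡ ε * e [ZMOD p] := by
    intro θ hθ
    obtain ⟨m, hm, -⟩ := hT.degY θ hθ
    rw [hm]
    symm
    apply Int.modEq_iff_dvd.2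
    exact ⟨m, by ring⟩
  obtain ⟨ht2, hTX, hδT, hXq, hYd⟩ := table_deg hp' hq hperf hG' hg hT.cardY hT.disj hT.signX hT.sign hT.degX hdegY
    (fun θ hθ => rel_one hT hθ) hT.triv (triv_mem hT) hT.epos hT.het
  set T := Cfsg.Agent.Lib.Blocks.Principal.trivChar G with hTdef
  obtain ⟨θ₀, hθ₀⟩ : Y.Nonempty := card_pos.1 (by rw [hT.cardY]; omega)
  have hθ₀T : θ₀ ≠ T := by
    rintro rfl
    exact (disjoint_left.1 hT.disj hTX) hθ₀
  rcases hT.sign with hε | hε
  · have h1 := (hYd θ₀ hθ₀).2.2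
    rcases h1 with ⟨-, h1⟩ | ⟨h2, -⟩
    · exact finish_plus hG hp' hq hpq hG' hg ht2 hT.epos hT.het θ₀ hθ₀T (hYd θ₀ hθ₀).2.1 h1
    · rw [hε] at h2
      norm_num at h2
  subst hε
  have hdeg : ∀ θ ∈ Y, charDegree (θ : G → ℂ) + e = p := by
    intro θ hθ
    rcases (hYd θ hθ).2.2 with ⟨h2, -⟩ | ⟨-, h1⟩
    · norm_num at h2
    · exact h1
  have hd0 := hdeg θ₀ hθ₀
  have he0 := hT.epos
  have hhet := hT.het
  have hp2 := hp'.two_le
  have hpe : p = e * t + 1 := by omega
  have h2e : 2 * e + 1 ≤ p := by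
    have : e * 2 ≤ e * t := Nat.mul_le_mul_left _ ht2
    omega
  have hodd : p ≠ 2 := by omega
  -- `g₀` is the degree
  have hg₀ : g₀ = charDegree (θ₀ : G → ℂ) := by
    obtain ⟨k, hk⟩ := (hYd θ₀ hθ₀).2.1
    have hk1 : k = 1 := by
      have hk0 : k ≠ 0 := by
        rintro rfl
        rw [mul_zero] at hk
        rw [hk, mul_zero] at hG'
        exact absurd hG' Nat.card_pos.ne'
      by_contra hne
      have hk2 : 2 ≤ k := by omega
      have h5 : charDegree (θ₀ : G → ℂ) * 2 ≤ charDegree (θ₀ : G → ℂ) * k := Nat.mul_le_mul_left _ hk2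
      omega
    rw [hk, hk1, mul_one]
  rw [hg₀] at hG'
  -- the order of `G`
  have hN : normalizer ((P : Subgroup G) : Set G) = normalizer (zpowers x : Set G) := by rw [hz]
  have hCc : centralizer ((P : Subgroup G) : Set G) = centralizer (zpowers x : Set G) := by rw [hz]
  have hnot := not_normalizer_le_of_perfect hperf P hdvdG
  have he2 : 2 ≤ e := by
    by_contra hlt
    have he1 : e = 1 := by omega
    apply hnot
    rw [hN, hCc]
    have h1 : normalizer (zpowers x : Set G) = zpowers x := by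
      symm
      refine Subgroup.eq_of_le_of_card_ge le_normalizer ?_
      rw [hT.cardN, he1, Nat.card_zpowers, hord, mul_one]
    rw [h1]
    intro c hc
    rw [Subgroup.mem_centralizer_iff]
    intro y hy
    obtain ⟨k, rfl⟩ := Subgroup.mem_zpowers_iff.1 hc
    obtain ⟨l, rfl⟩ := Subgroup.mem_zpowers_iff.1 hy
    exact (Commute.refl x).zpow_zpow _ _
  have hM1 : (normalizer (zpowers x : Set G)).index = Nat.card (Sylow p G) := by
    rw [← hN]
    exact (Sylow.card_eq_index_normalizer P).symm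
  have hGc : Nat.card G = p * e * Nat.card (Sylow p G) := by
    rw [← Subgroup.card_mul_index (normalizer (zpowers x : Set G)), hT.cardN, hM1]
  -- `e` is a power of `q`
  have hep : e < p := by omega
  have hcop : Nat.Coprime e (charDegree (θ₀ : G → ℂ)) := by
    have h1 : Nat.Coprime e (charDegree (θ₀ : G → ℂ) + e) := by
      rw [hd0]
      exact (Nat.coprime_of_lt_prime he0.ne' hep hp').symm
    exact (Nat.coprime_add_self_right).1 h1
  have hqbd : q ^ b * charDegree (θ₀ : G → ℂ) = e * Nat.card (Sylow p G) := by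
    have h1 : p * (q ^ b * charDegree (θ₀ : G → ℂ)) = p * (e * Nat.card (Sylow p G)) := by
      calc p * (q ^ b * charDegree (θ₀ : G → ℂ)) = p * q ^ b * charDegree (θ₀ : G → ℂ) := by ring
        _ = Nat.card G := hG'.symm
        _ = p * e * Nat.card (Sylow p G) := hGc
        _ = _ := by ring
    exact Nat.eq_of_mul_eq_mul_left hp'.pos h1
  have hedv : e ∣ q ^ b := by
    have h1 : e ∣ q ^ b * charDegree (θ₀ : G → ℂ) := ⟨_, hqbd⟩
    exact hcop.dvd_of_dvd_mul_right h1
  obtain ⟨c, hcb, he⟩ := (Nat.dvd_prime_pow hq).1 hedv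
  have hc1 : 1 ≤ c := by
    by_contra hlt
    have hc0 : c = 0 := by omega
    rw [hc0, pow_zero] at he
    omega
  have hqe : q ∣ e := by
    rw [he]
    exact dvd_pow_self q (by omega)
  -- `q = 2`
  have hq2 : q = 2 := by
    have h1 := rel_one hT hθ₀
    rw [← add_sum_erase X _ hTX, hδT] at h1
    have h2 : charDegree ((T : IrrCharacter G) : G → ℂ) = 1 := Cfsg.Agent.Lib.Blocks.Principal.charDegree_trivChar
    rw [h2] at h1
    have h3 : (q : ℤ) ∣ ∑ χ ∈ X.erase T, δ χ * (charDegree (χ : G → ℂ) : ℤ) := by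
      refine dvd_sum fun χ hχ => ?_
      refine Dvd.dvd.mul_left ?_ _
      exact_mod_cast hXq χ (mem_of_mem_erase hχ) (ne_of_mem_erase hχ)
    have hqeZ : (q : ℤ) ∣ (e : ℤ) := by exact_mod_cast hqe
    have hpZ : (p : ℤ) = e * t + 1 := by exact_mod_cast hpe
    have hdZ : (charDegree (θ₀ : G → ℂ) : ℤ) + e = p := by exact_mod_cast hd0
    have h4 : (2 : ℤ) = -(∑ χ ∈ X.erase T, δ χ * (charDegree (χ : G → ℂ) : ℤ)) - e * t + e := by
      push_cast at h1
      linarith
    have h5 : (q : ℤ) ∣ 2 := by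
      rw [h4]
      exact dvd_add (dvd_sub (dvd_neg.2 h3) (Dvd.dvd.mul_right hqeZ _)) hqeZ
    have h6 : q ∣ 2 := by exact_mod_cast h5
    exact (Nat.prime_dvd_prime_iff_eq hq Nat.prime_two).1 h6
  subst hq2
  have hXev : ∀ χ ∈ X, χ ≠ T → Even (charDegree (χ : G → ℂ)) := fun χ hχ hne =>
    even_iff_two_dvd.2 (hXq χ hχ hne)
  have hdpe : charDegree (θ₀ : G → ℂ) = p - e := by omega
  rw [hdpe] at hG'
  rcases Nat.lt_or_ge t 3 with ht3 | ht3
  · -- the case `t = 2`
    have ht : t = 2 := by omega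
    subst ht
    obtain ⟨θ, θ', hne, hY⟩ := card_eq_two.1 hT.cardY
    have hpe2 : p = 2 * e + 1 := by omega
    have hG2 : Nat.card G = p * 2 ^ b * (e + 1) := by
      rw [hG']
      congr 2
      omega
    have hle := t2_bound (center_triv hG) hperf hζ hT hord hcen P hz he hc1 hdeg hne hY hGc hXev hG2
    have hMc : ((Nat.card (Sylow p G) : ℕ) : ℤ) ≡ 1 [ZMOD p] := by
      have h1 := card_sylow_modEq_one p G
      exact_mod_cast (Int.natCast_modEq_iff.2 h1)
    have hqbd2 : 2 ^ b * (e + 1) = e * Nat.card (Sylow p G) := by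
      rw [← hqbd, hdpe]
      congr 2
      omega
    obtain ⟨h2b, hM⟩ := two_pow_eq (by omega) hpe2 hqbd2 hMc hle
    rw [hM] at hGc
    obtain ⟨h3, ⟨iso⟩⟩ := few_one hperf hord hcen P hz hPc hodd hhet hM hGc
    left
    refine ⟨b, ZMod p, inferInstance, inferInstance, ZMod.card p, Or.inl (by omega), ⟨iso⟩⟩
  · -- the case `t ≥ 3`
    by_cases he4 : 4 ≤ e
    · exact (t_small hperf hT he he4 ht3 hdeg hXev hG').elim
    have he22 : e = 2 := by
      have h1 : c = 1 := by
        by_contra hne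
        have h2 : 2 ≤ c := by omega
        have h3 : 2 ^ 2 ≤ 2 ^ c := Nat.pow_le_pow_right (by norm_num) h2
        omega
      rw [he, h1]
      norm_num
    have h5p : 5 < p := by
      rw [he22] at hpe
      omega
    have hdp2 : charDegree (θ₀ : G → ℂ) = p - 2 := by
      rw [he22] at hd0
      omega
    have hPn : ¬ (P : Subgroup G).Normal := fun h => no_normal hG hp' _ h hPc
    obtain ⟨a, F, i1, i2, hpa, hF, ⟨iso⟩⟩ := Cfsg.Agent.S4705.result p h5p P hPc hPn (θ₀ : G → ℂ) θ₀.2 (faithful hG θ₀ hθ₀T) hdp2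
    have ha1 : 1 ≤ a := by
      rcases Nat.eq_zero_or_pos a with h | h
      · rw [h] at hpa
        omega
      · exact h
    obtain ⟨iso2⟩ := sl_equiv_psl F ha1 hF
    have hcb : center G = ⊥ := center_bot hG
    haveI : Unique (center G) := by
      rw [hcb]
      infer_instance
    have iso3 : G ≃* PSL(2, F) := (iso.trans MulEquiv.prodUnique).trans iso2
    right
    exact ⟨a, F, i1, i2, hF, hpa, by omega, ⟨iso3⟩⟩

end Sc

section Main

open Cfsg.Agent.Lib.Blocks.Local Cfsg.Agent.Lib.Blocks.Central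

variable {G : Type u} [Group G] [Finite G] [IsSimpleGroup G]

/-- **Theorem of Brauer and Tuan.** -/
theorem bt_main (hG : ¬ IsCyclic G) {p q b g₀ : ℕ} (hp : p.Prime) (hq : q.Prime) (hpq : p ≠ q)
    (hG' : Nat.card G = p * q ^ b * g₀) (hg : g₀ < p - 1) : Concl G p := by
  classical
  letI : Fintype G := Fintype.ofFinite _
  haveI hfp : Fact p.Prime := ⟨hp⟩
  haveI : Finite (IrrCharacter G) := Cfsg.Agent.Lib.Char.Complete.finite_irr
  letI : Fintype (IrrCharacter G) := Fintype.ofFinite _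
  have hp2 := hp.two_le
  have hperf := perfect hG
  have hdvdG : p ∣ Nat.card G := by
    rw [hG', mul_assoc]
    exact dvd_mul_right _ _
  have hsq := not_sq_dvd hp hq hpq hG' hg
  obtain ⟨P⟩ : Nonempty (Sylow p G) := inferInstance
  have hPc : Nat.card P = p := by
    obtain ⟨k, hk⟩ := IsPGroup.iff_card.1 P.isPGroup'
    have hk0 : k ≠ 0 := by
      rintro rfl
      rw [pow_zero] at hk
      have h1 : (P : Subgroup G) = ⊥ := Subgroup.eq_bot_of_card_eq _ hk
      exact P.ne_bot_of_dvd_card hdvdG h1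
    have hk1 : k = 1 := by
      by_contra hne
      have h2 : p ^ 2 ∣ p ^ k := pow_dvd_pow p (by omega)
      apply hsq
      refine h2.trans ?_
      have h3 := Subgroup.card_subgroup_dvd_card (P : Subgroup G)
      rwa [show Nat.card (P : Subgroup G) = p ^ k from hk] at h3
    rw [hk1, pow_one] at hk
    exact hk
  obtain ⟨x, hxP, hx1⟩ : ∃ x ∈ (P : Subgroup G), x ≠ 1 := by
    by_contra hno
    push Not at hno
    exact P.ne_bot_of_dvd_card hdvdG ((Subgroup.eq_bot_iff_forall _).2 hno)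
  obtain ⟨hz, H, hL⟩ := exists_localData P hPc hxP hx1
  have hord := hL.ord
  letI : Fintype H := Fintype.ofFinite _
  obtain ⟨A, hA⟩ := Cfsg.Agent.Lib.Blocks.ClassIndep.exists_modular p hp
  have hζ : IsPrimitiveRoot (Complex.exp (2 * Real.pi * Complex.I / p)) p := Complex.isPrimitiveRoot_exp p hp.ne_zero
  obtain ⟨e, t, X, Y, δ, ε, b', hT⟩ := exists_pTable hL hA P hz hζ
  have hrel1 : ∀ θ ∈ Y, ε * (charDegree (θ : G → ℂ) : ℤ) = ∑ χ ∈ X, δ χ * (charDegree (χ : G → ℂ) : ℤ) := by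
    intro θ hθ
    have h1 : ¬ p ∣ orderOf (1 : G) := by
      rw [orderOf_one]
      exact fun h => hp.one_lt.ne' (Nat.dvd_one.1 h)
    have h2 := hT.rel 1 h1 θ hθ
    simp_rw [irr_degree_cast] at h2
    exact_mod_cast h2
  have hTin : Cfsg.Agent.Lib.Blocks.Principal.trivChar G ∈ X ∪ Y := by
    haveI := Cfsg.Agent.Lib.Blocks.Local.isPrime_of_isPModular hA
    have h1 : Cfsg.Agent.Lib.Blocks.Principal.trivChar G ∈ principalBlock A G :=
      Cfsg.Agent.Lib.Blocks.Principal.trivChar_mem_principalBlock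
    rw [hT.block] at h1
    exact mem_coe.1 h1
  obtain ⟨ht2, hTX, hδT, hXq, hYd⟩ := table_deg hp hq hperf hG' hg hT.cardY hT.disj hT.signX hT.sign hT.degX hT.degY
    hrel1 hT.triv hTin hT.epos hT.het
  set T := Cfsg.Agent.Lib.Blocks.Principal.trivChar G with hTdef
  obtain ⟨θ₀, hθ₀⟩ : Y.Nonempty := card_pos.1 (by rw [hT.cardY]; omega)
  have hθ₀T : θ₀ ≠ T := by
    rintro rfl
    exact (disjoint_left.1 hT.disj hTX) hθ₀
  rcases (hYd θ₀ hθ₀).2.2 with ⟨-, h1⟩ | ⟨hε, hd0⟩
  · exact finish_plus hG hp hq hpq hG' hg ht2 hT.epos hT.het θ₀ hθ₀T (hYd θ₀ hθ₀).2.1 h1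
  -- the sign `-1`: the subgroup `H` is trivial
  have hfaith := faithful hG θ₀ hθ₀T
  have hirr := Cfsg.Agent.Lib.Char.Basic.isCharacter_of_isIrrCharacter θ₀.2
  have hdc : (θ₀ : G → ℂ) 1 = (charDegree (θ₀ : G → ℂ) : ℂ) := irr_degree_cast θ₀
  have hSS : SS H (θ₀ : G → ℂ) (fun _ => 1) 1 = (Nat.card H : ℂ)⁻¹ * ∑ y : H, (θ₀ : G → ℂ) y := by
    unfold SS idemCoeff
    rw [mul_sum]
    refine sum_congr rfl fun y _ => ?_
    simp
  have hSSnorm : ‖SS H (θ₀ : G → ℂ) (fun _ => 1) 1‖ ≤ (charDegree (θ₀ : G → ℂ) : ℝ) := by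
    rw [hSS, norm_mul, norm_inv, Complex.norm_natCast]
    have h1 : ‖∑ y : H, (θ₀ : G → ℂ) y‖ ≤ ∑ _y : H, (charDegree (θ₀ : G → ℂ) : ℝ) := by
      refine (norm_sum_le _ _).trans (sum_le_sum fun y _ => ?_)
      have h2 := Cfsg.Agent.Lib.Char.Values.IsCharacter.norm_le hirr (y : G)
      rw [hdc, Complex.norm_natCast] at h2
      exact h2
    rw [sum_const, card_univ, ← Nat.card_eq_fintype_card, nsmul_eq_mul] at h1
    have hpos : (0 : ℝ) < Nat.card H := by exact_mod_cast Nat.card_pos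
    calc (Nat.card H : ℝ)⁻¹ * ‖∑ y : H, (θ₀ : G → ℂ) y‖ ≤ (Nat.card H : ℝ)⁻¹ * ((Nat.card H : ℝ) * (charDegree (θ₀ : G → ℂ) : ℝ)) :=
          mul_le_mul_of_nonneg_left h1 (by positivity)
      _ = _ := by field_simp
  obtain ⟨m, hm, hm1⟩ := hT.avgY θ₀ hθ₀
  have hm1' := hm1 hε
  rw [hε] at hm
  have hep : e ≤ p := by omega
  have hm_one : m = 1 := by
    by_contra hmne
    have hm2 : 2 ≤ m := by omega
    rw [hm] at hSSnorm
    have h2 : ‖(p : ℂ) * m + (((-1 : ℤ) : ℂ)) * e‖ = (p : ℝ) * m - e := by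
      have h3 : e ≤ p * m := by nlinarith
      have h4 : (p : ℂ) * m + (((-1 : ℤ) : ℂ)) * e = (((p * m - e : ℕ)) : ℂ) := by
        push_cast [Nat.cast_sub h3]
        ring
      rw [h4, Complex.norm_natCast]
      push_cast [Nat.cast_sub h3]
      ring
    rw [h2] at hSSnorm
    have h3 : (charDegree (θ₀ : G → ℂ) : ℝ) = (p : ℝ) - e := by
      have h4 : ((charDegree (θ₀ : G → ℂ) + e : ℕ) : ℝ) = p := by rw [hd0]
      push_cast at h4
      linarith
    rw [h3] at hSSnorm
    have h4 : (0 : ℝ) < p := by exact_mod_cast hp.pos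
    have h5 : (2 : ℝ) ≤ m := by exact_mod_cast hm2
    nlinarith
  have hyd : ∀ y : H, (θ₀ : G → ℂ) y = (θ₀ : G → ℂ) 1 := by
    intro y
    rw [hdc]
    refine Cfsg.Agent.Lib.DefectOne.eq_of_avg hirr hdc ?_ y
    rw [← hSS, hm, hm_one]
    have h4 : ((charDegree (θ₀ : G → ℂ) + e : ℕ) : ℂ) = p := by rw [hd0]
    push_cast at h4 ⊢
    linear_combination -h4
  have hy1 : ∀ y ∈ H, y = 1 := fun y hy => hfaith y (hyd ⟨y, hy⟩)
  have hcen : ∀ c : G, c * x = x * c → c ∈ zpowers x := by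
    intro c hc
    obtain ⟨i, y, hy, rfl⟩ := hL.exists_decomp hc
    rw [hy1 y hy, mul_one]
    exact XX_mem_zpowers i
  exact main_sc hG hq hpq hG' hg hord hcen P hz

end Main

end Cfsg.Agent.Lib.DefectOne.BT
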