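import Mathlib
import Cfsg.Agent.S0997
import Cfsg.Agent.Lib.DefectOne.BTMain

/-!
# Simple groups of order `p r q^b`
-/

set_option autoImplicit false
set_option linter.style.haveILetI false
set_option linter.unusedVariables false
set_option linter.unusedSectionVars false
set_option linter.unusedSimpArgs false

namespace Cfsg.Agent.Lib.DefectOne.BT

open Cfsg Subgroup Finset
open Cfsg.Agent.Lib.DefectOne Cfsg.Agent.Lib.DefectOne.FewInd
open scoped MatrixGroups

universe u

lemma two_odd_unique {b m r w : ℕ} (hr : Odd r) (hw : Odd w) (h : 2 ^ b * r = 2 ^ m * w) : r = w := by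
  rcases Nat.lt_trichotomy b m with hlt | heq | hgt
  · exfalso
    obtain ⟨k, rfl⟩ : ∃ k, m = b + (k + 1) := ⟨m - b - 1, by omega⟩
    rw [pow_add, mul_assoc] at h
    have h1 := Nat.eq_of_mul_eq_mul_left (by positivity) h
    rw [h1, pow_succ] at hr
    have h2 : Even (2 ^ k * 2 * w) := ⟨2 ^ k * w, by ring⟩
    exact (Nat.not_even_iff_odd.2 hr) h2
  · subst heq
    exact Nat.eq_of_mul_eq_mul_left (by positivity) h
  · exfalso
    obtain ⟨k, rfl⟩ : ∃ k, b = m + (k + 1) := ⟨b - m - 1, by omega⟩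
    rw [pow_add, mul_assoc] at h
    have h1 := Nat.eq_of_mul_eq_mul_left (by positivity) h
    rw [← h1, pow_succ] at hw
    have h2 : Even (2 ^ k * 2 * r) := ⟨2 ^ k * r, by ring⟩
    exact (Nat.not_even_iff_odd.2 hw) h2

/-- If `q^b r = 2^m w`, with `m ≥ 2` and `w` odd, then `q = 2` and `r = w`. -/
lemma q_two {q r b m w : ℕ} (hq : q.Prime) (hr : r.Prime) (hqr : q ≠ r) (hm : 2 ≤ m) (hw : Odd w) (h : q ^ b * r = 2 ^ m * w) :
    q = 2 ∧ r = w := by
  by_cases hq2 : q = 2
  · refine ⟨hq2, ?_⟩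
    subst hq2
    have hr2 : r ≠ 2 := fun h => hqr h.symm
    exact two_odd_unique (hr.odd_of_ne_two hr2) hw h
  · exfalso
    have h1 : 2 ^ m ∣ q ^ b * r := ⟨w, h⟩
    have h2 : Nat.Coprime (2 ^ m) (q ^ b) :=
      Nat.Coprime.pow _ _ ((Nat.coprime_primes Nat.prime_two hq).2 (fun h => hq2 h.symm))
    have h3 := h2.dvd_of_dvd_mul_left h1
    have h4 : 2 ∣ r := (dvd_pow_self 2 (by omega)).trans h3
    have h5 : r = 2 := ((Nat.prime_dvd_prime_iff_eq Nat.prime_two hr).1 h4).symm
    rw [h5] at h3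
    have h6 := Nat.le_of_dvd (by norm_num) h3
    have h7 : 2 ^ 2 ≤ 2 ^ m := Nat.pow_le_pow_right (by norm_num) hm
    omega

lemma three_dvd_add {m : ℕ} (hm : Odd m) : 3 ∣ 2 ^ m + 1 := by
  obtain ⟨k, rfl⟩ := hm
  have h1 : 4 ^ k % 3 = 1 := by
    rw [Nat.pow_mod]
    norm_num
  rw [pow_succ, pow_mul]
  norm_num
  omega

lemma three_dvd_sub {m : ℕ} (hm : Even m) : 3 ∣ 2 ^ m - 1 := by
  obtain ⟨k, rfl⟩ := hm
  have h1 : 4 ^ k % 3 = 1 := by
    rw [Nat.pow_mod]
    norm_num
  rw [← two_mul, pow_mul]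
  norm_num
  omega

lemma odd_pow_add {k : ℕ} (hk : 1 ≤ k) : Odd (2 ^ k + 1) :=
  Even.add_one ((Nat.even_pow' (by omega)).2 even_two)

lemma odd_pow_sub {k : ℕ} (hk : 1 ≤ k) : Odd (2 ^ k - 1) := by
  have h1 : Even (2 ^ k) := (Nat.even_pow' (by omega)).2 even_two
  have h2 : 1 ≤ 2 ^ k := Nat.one_le_two_pow
  obtain ⟨w, hw⟩ := h1
  exact ⟨w - 1, by omega⟩

/-- The numerics of the first case. -/
lemma num_plus {p q r b m : ℕ} (hp : p.Prime) (hq : q.Prime) (hr : r.Prime) (hqr : q ≠ r) (hp5 : 5 ≤ p) (hpm : p = 2 ^ m + 1)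
    (h : 2 * (q ^ b * r) = p ^ 2 - 1) : p = 5 := by
  have hm2 : 2 ≤ m := by
    by_contra hlt
    have : m = 0 ∨ m = 1 := by omega
    rcases this with rfl | rfl <;> norm_num at hpm <;> omega
  obtain ⟨k, rfl⟩ : ∃ k, m = k + 1 := ⟨m - 1, by omega⟩
  have hk1 : 1 ≤ k := by omega
  have hp2 : p ^ 2 - 1 = 2 * (2 ^ (k + 1) * (2 ^ k + 1)) := by
    rw [hpm]
    have : (2 ^ (k + 1) + 1) ^ 2 = 2 * (2 ^ (k + 1) * (2 ^ k + 1)) + 1 := by
      rw [pow_succ]
      ring
    rw [this]
    omega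
  rw [hp2] at h
  have h1 := Nat.eq_of_mul_eq_mul_left (by norm_num) h
  obtain ⟨hq2, hrk⟩ := q_two hq hr hqr hm2 (odd_pow_add hk1) h1
  -- the parity of `k + 1`
  have hk_odd : Odd k := by
    by_contra hne
    have hk_even : Even k := Nat.not_odd_iff_even.1 hne
    have h3 : 3 ∣ p := by
      rw [hpm]
      exact three_dvd_add hk_even.add_one
    have h4 := (Nat.prime_dvd_prime_iff_eq Nat.prime_three hp).1 h3
    omega
  have h3 : 3 ∣ r := by
    rw [hrk]
    exact three_dvd_add hk_odd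
  have h4 := (Nat.prime_dvd_prime_iff_eq Nat.prime_three hr).1 h3
  have h5 : 2 ^ k = 2 := by omega
  have hk : k = 1 := Nat.pow_right_injective (le_refl 2) (by simpa using h5)
  rw [hpm, hk]
  norm_num

/-- The numerics of the second case. -/
lemma num_minus {p q r b m : ℕ} (hp : p.Prime) (hq : q.Prime) (hr : r.Prime) (hqr : q ≠ r) (hp5 : 5 ≤ p) (hpm : p = 2 ^ m - 1)
    (h : 2 * (q ^ b * r) = p ^ 2 - 1) : p = 7 := by
  have hm3 : 3 ≤ m := by
    by_contra hlt
    have : m = 0 ∨ m = 1 ∨ m = 2 := by omega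
    rcases this with rfl | rfl | rfl <;> norm_num at hpm <;> omega
  obtain ⟨k, rfl⟩ : ∃ k, m = k + 1 := ⟨m - 1, by omega⟩
  have hk2 : 2 ≤ k := by omega
  have h2k : 4 ≤ 2 ^ k := by
    calc 4 = 2 ^ 2 := by norm_num
      _ ≤ 2 ^ k := Nat.pow_le_pow_right (by norm_num) hk2
  have hpp : p + 1 = 2 * 2 ^ k := by
    rw [hpm, pow_succ]
    omega
  have hp2 : p ^ 2 - 1 = 2 * (2 ^ (k + 1) * (2 ^ k - 1)) := by
    obtain ⟨w, hw⟩ : ∃ w, 2 ^ k = w + 1 := ⟨2 ^ k - 1, by omega⟩
    have hp3 : p = 2 * w + 1 := by omega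
    have h2k1 : 2 ^ (k + 1) = 2 * (w + 1) := by rw [pow_succ, hw]; ring
    rw [h2k1, hw, hp3]
    have : (2 * w + 1) ^ 2 = 2 * (2 * (w + 1) * w) + 1 := by ring
    rw [this, Nat.add_sub_cancel, Nat.add_sub_cancel]
  rw [hp2] at h
  have h1 := Nat.eq_of_mul_eq_mul_left (by norm_num) h
  obtain ⟨hq2, hrk⟩ := q_two hq hr hqr (by omega) (odd_pow_sub (by omega)) h1
  have hk_even : Even k := by
    by_contra hne
    have hk_odd : Odd k := Nat.not_even_iff_odd.1 hne
    have h3 : 3 ∣ p := by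
      rw [hpm]
      exact three_dvd_sub hk_odd.add_one
    have h4 := (Nat.prime_dvd_prime_iff_eq Nat.prime_three hp).1 h3
    omega
  have h3 : 3 ∣ r := by
    rw [hrk]
    exact three_dvd_sub hk_even
  have h4 := (Nat.prime_dvd_prime_iff_eq Nat.prime_three hr).1 h3
  have h5 : 2 ^ k = 2 ^ 2 := by omega
  have hk : k = 2 := Nat.pow_right_injective (le_refl 2) h5
  rw [hk] at hpp
  omega

/-- The numerics of the third case. -/
lemma num_two {p q r b m : ℕ} (hp : p.Prime) (hq : q.Prime) (hr : r.Prime) (hqr : q ≠ r) (hp5 : 5 ≤ p) (hpm : p = 2 ^ m + 1)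
    (h : q ^ b * r = 2 ^ m * (2 ^ m - 1)) : p = 5 ∧ q ^ b * r = 12 := by
  have hm2 : 2 ≤ m := by
    by_contra hlt
    have : m = 0 ∨ m = 1 := by omega
    rcases this with rfl | rfl <;> norm_num at hpm <;> omega
  obtain ⟨hq2, hrk⟩ := q_two hq hr hqr hm2 (odd_pow_sub (by omega)) h
  have hm_even : Even m := by
    by_contra hne
    have hm_odd : Odd m := Nat.not_even_iff_odd.1 hne
    have h3 : 3 ∣ p := by
      rw [hpm]
      exact three_dvd_add hm_odd
    have h4 := (Nat.prime_dvd_prime_iff_eq Nat.prime_three hp).1 h3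
    omega
  have h3 : 3 ∣ r := by
    rw [hrk]
    exact three_dvd_sub hm_even
  have h4 := (Nat.prime_dvd_prime_iff_eq Nat.prime_three hr).1 h3
  have h5 : 2 ^ m = 2 ^ 2 := by omega
  have hk : m = 2 := Nat.pow_right_injective (le_refl 2) h5
  subst hk
  norm_num at hpm h
  exact ⟨hpm, h⟩

section Main

variable {G : Type u} [Group G] [Finite G] [IsSimpleGroup G]

/-- A group with a Sylow 2-subgroup of order 2 is not perfect. -/
lemma not_sylow_two (hperf : commutator G = ⊤) (h2 : (2 : ℕ) ∣ Nat.card G) (hsq : ¬ 2 ^ 2 ∣ Nat.card G) : False := by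
  classical
  haveI : Fact (Nat.Prime 2) := ⟨Nat.prime_two⟩
  obtain ⟨P⟩ : Nonempty (Sylow 2 G) := inferInstance
  have hPc : Nat.card P = 2 := by
    obtain ⟨k, hk⟩ := IsPGroup.iff_card.1 P.isPGroup'
    have hk0 : k ≠ 0 := by
      rintro rfl
      rw [pow_zero] at hk
      have h1 : (P : Subgroup G) = ⊥ := Subgroup.eq_bot_of_card_eq _ hk
      exact P.ne_bot_of_dvd_card h2 h1
    have hk1 : k = 1 := by
      by_contra hne
      have h3 : 2 ^ 2 ∣ 2 ^ k := pow_dvd_pow 2 (by omega)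
      apply hsq
      refine h3.trans ?_
      have h4 := Subgroup.card_subgroup_dvd_card (P : Subgroup G)
      rwa [show Nat.card (P : Subgroup G) = 2 ^ k from hk] at h4
    rw [hk1, pow_one] at hk
    exact hk
  apply not_normalizer_le_of_perfect hperf P h2
  intro g hg
  rw [Subgroup.mem_centralizer_iff]
  intro y hy
  by_cases hy1 : y = 1
  · rw [hy1, one_mul, mul_one]
  have hgy : g * y * g⁻¹ ∈ (P : Subgroup G) := (Subgroup.mem_normalizer_iff.1 hg y).1 hy
  have hgy1 : g * y * g⁻¹ ≠ 1 := by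
    intro h
    apply hy1
    have h3 : y = g⁻¹ * (g * y * g⁻¹) * g := by group
    rw [h3, h]
    group
  obtain ⟨u, -, hu⟩ := (Nat.card_eq_two_iff' (1 : P)).1 hPc
  have h4 : (⟨y, hy⟩ : P) = u := hu _ (fun h => hy1 (congrArg Subtype.val h))
  have h5 : (⟨g * y * g⁻¹, hgy⟩ : P) = u := hu _ (fun h => hgy1 (congrArg Subtype.val h))
  have h6 : y = g * y * g⁻¹ := congrArg Subtype.val (h4.trans h5.symm)
  calc y * g = (g * y * g⁻¹) * g := by rw [← h6]
    _ = g * y := by group

/-- A simple group of order `60`. -/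
theorem psl_of_sixty (hG : ¬ IsCyclic G) (h60 : Nat.card G = 60) : Nonempty (G ≃* PSL(2, ZMod 5)) := by
  classical
  haveI : Fact (Nat.Prime 5) := ⟨by norm_num⟩
  have hperf := perfect hG
  have hdv : 5 ∣ Nat.card G := by rw [h60]; norm_num
  obtain ⟨P⟩ : Nonempty (Sylow 5 G) := inferInstance
  have hPc : Nat.card P = 5 := by
    obtain ⟨k, hk⟩ := IsPGroup.iff_card.1 P.isPGroup'
    have hk0 : k ≠ 0 := by
      rintro rfl
      rw [pow_zero] at hk
      have h1 : (P : Subgroup G) = ⊥ := Subgroup.eq_bot_of_card_eq _ hk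
      exact P.ne_bot_of_dvd_card hdv h1
    have hk1 : k = 1 := by
      by_contra hne
      have h3 : 5 ^ 2 ∣ 5 ^ k := pow_dvd_pow 5 (by omega)
      have h4 := Subgroup.card_subgroup_dvd_card (P : Subgroup G)
      rw [show Nat.card (P : Subgroup G) = 5 ^ k from hk, h60] at h4
      have h5 := h3.trans h4
      norm_num at h5
    rw [hk1, pow_one] at hk
    exact hk
  have hM : Nat.card (Sylow 5 G) = 5 + 1 := by
    have h1 : Nat.card (Sylow 5 G) ∣ (P : Subgroup G).index := Sylow.card_dvd_index P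
    have h2 := Subgroup.card_mul_index (P : Subgroup G)
    rw [show Nat.card (P : Subgroup G) = 5 from hPc, h60] at h2
    have h3 : (P : Subgroup G).index = 12 := by omega
    rw [h3] at h1
    have h4 := card_sylow_modEq_one 5 G
    have h5 : Nat.card (Sylow 5 G) ≠ 1 := by
      intro h
      haveI : Subsingleton (Sylow 5 G) := by
        obtain ⟨h6, -⟩ := Nat.card_eq_one_iff_unique.1 h
        exact h6
      exact no_normal hG (by norm_num : Nat.Prime 5) _ (Sylow.normal_of_subsingleton P) hPc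
    have h6 := Nat.le_of_dvd (by norm_num) h1
    unfold Nat.ModEq at h4
    interval_cases hn : Nat.card (Sylow 5 G) <;> simp_all <;> omega
  obtain ⟨h3, f, hf⟩ := PerfectN1.surj_of_card hperf P hPc hM (by rw [h60]; norm_num)
  haveI : Nontrivial (PSL(2, ZMod 5)) := by
    have hc := card_psl_zmod (p := 5) h3
    refine (Finite.one_lt_card_iff_nontrivial).1 ?_
    have hc2 : Nat.card (PSL(2, ZMod 5)) * 2 = 120 := by rw [hc]; norm_num
    omega
  have hker : f.ker = ⊥ := by
    rcases (MonoidHom.normal_ker f).eq_bot_or_eq_top with h | h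
    · exact h
    · exfalso
      obtain ⟨y, hy⟩ : ∃ y : PSL(2, ZMod 5), y ≠ 1 := exists_ne 1
      obtain ⟨g, rfl⟩ := hf y
      apply hy
      have : g ∈ f.ker := by rw [h]; exact Subgroup.mem_top g
      exact this
  exact equiv_of_surj hf hker

/-- The core of the corollary, where `r < p`. -/
theorem cor_core (hG : ¬ IsCyclic G) {p q r b : ℕ} (hp : p.Prime) (hq : q.Prime) (hr : r.Prime) (hpq : p ≠ q) (hqr : q ≠ r)
    (hrp : r < p) (hG' : Nat.card G = p * r * q ^ b) :
    (∃ (F : Type) (_ : Field F) (_ : Fintype F), Fintype.card F = 5 ∧ Nonempty (G ≃* Matrix.ProjectiveSpecialLinearGroup (Fin 2) F)) ∨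
      (∃ (F : Type) (_ : Field F) (_ : Fintype F), Fintype.card F = 7 ∧ Nonempty (G ≃* Matrix.ProjectiveSpecialLinearGroup (Fin 2) F)) := by
  classical
  have hr2 := hr.two_le
  have hperf := perfect hG
  by_cases hcase : r < p - 1
  · have hG2 : Nat.card G = p * q ^ b * r := by rw [hG']; ring
    have hp5 : 5 ≤ p := by
      have h4 : 4 ≤ p := by omega
      by_contra hlt
      have : p = 4 := by omega
      rw [this] at hp
      norm_num at hp
    have hp2 : 2 ≤ p := hp.two_le
    have hoddp : p ≠ 2 := by omega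
    have hdd : ∀ (F : Type) [Field F] [Fintype F], Fintype.card F = p → Nat.card (Matrix.ProjectiveSpecialLinearGroup (Fin 2) F) * 2 = p * (p ^ 2 - 1) := by
      intro F _ _ hF
      have h1 := Cfsg.Agent.Lib.PSL2.DicksonCor.card_PSL2_mul_dd F
      rw [hF] at h1
      have h2 : Cfsg.Agent.Lib.PSL2.DicksonCor.dd F = 2 := by
        unfold Cfsg.Agent.Lib.PSL2.DicksonCor.dd
        rw [hF]
        apply Nat.gcd_eq_left
        have := hp.eq_two_or_odd
        omega
      rwa [h2] at h1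
    have hcard2 : ∀ (F : Type) [Field F] [Fintype F], Fintype.card F = p → Nonempty (G ≃* Matrix.ProjectiveSpecialLinearGroup (Fin 2) F) →
        2 * (q ^ b * r) = p ^ 2 - 1 := by
      intro F _ _ hF ⟨iso⟩
      have h1 := hdd F hF
      rw [← Nat.card_congr iso.toEquiv, hG2] at h1
      have h2 : p * (2 * (q ^ b * r)) = p * (p ^ 2 - 1) := by
        rw [← h1]
        ring
      exact Nat.eq_of_mul_eq_mul_left hp.pos h2
    rcases Cfsg.Agent.S0997.result hG p q b r hp hq hpq hG2 hcase with ⟨m, F, i1, i2, hF, hpm, hiso⟩ | ⟨m, F, i1, i2, hF, hpm, h3, ⟨iso⟩⟩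
    · have h2 := hcard2 F hF hiso
      rcases hpm with hpm | hpm
      · have h5 := num_plus hp hq hr hqr hp5 hpm h2
        left
        exact ⟨F, i1, i2, by rw [hF, h5], hiso⟩
      · have h7 := num_minus hp hq hr hqr hp5 hpm h2
        right
        exact ⟨F, i1, i2, by rw [hF, h7], hiso⟩
    · have hm1 : 1 ≤ m := by
        rcases Nat.eq_zero_or_pos m with h | h
        · rw [h] at hpm
          omega
        · exact h
      have h1 := card_psl_two hm1 hF
      rw [← Nat.card_congr iso.toEquiv, hG2] at h1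
      have h4 : q ^ b * r = 2 ^ m * (2 ^ m - 1) := by
        have h5 : (2 ^ m) ^ 2 - 1 = (2 ^ m - 1) * p := by
          obtain ⟨w, hw⟩ : ∃ w, 2 ^ m = w + 1 := ⟨2 ^ m - 1, by have := Nat.one_le_two_pow (n := m); omega⟩
          rw [hpm, hw]
          have : (w + 1) ^ 2 = (w + 1 - 1) * (w + 1 + 1) + 1 := by
            simp only [Nat.add_sub_cancel]
            ring
          rw [this, Nat.add_sub_cancel]
        rw [h5] at h1
        have h6 : p * (q ^ b * r) = p * (2 ^ m * (2 ^ m - 1)) := by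
          calc p * (q ^ b * r) = p * q ^ b * r := by ring
            _ = 2 ^ m * ((2 ^ m - 1) * p) := h1
            _ = _ := by ring
        exact Nat.eq_of_mul_eq_mul_left hp.pos h6
      obtain ⟨h5, h12⟩ := num_two hp hq hr hqr hp5 hpm h4
      have h60 : Nat.card G = 60 := by
        rw [hG2, mul_assoc, h12, h5]
        norm_num
      obtain ⟨iso5⟩ := psl_of_sixty hG h60
      haveI : Fact (Nat.Prime 5) := ⟨by norm_num⟩
      left
      exact ⟨ZMod 5, inferInstance, inferInstance, ZMod.card 5, ⟨iso5⟩⟩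
  · exfalso
    -- `p = 3` and `r = 2`
    have h1 : r + 1 = p := by omega
    have hr2' : r = 2 := by
      by_contra hne
      have h3 := hr.odd_of_ne_two hne
      have h4 : Even p := by
        rw [← h1]
        exact h3.add_one
      have h5 := hp.even_iff.1 h4
      omega
    subst hr2'
    have hp3 : p = 3 := by omega
    subst hp3
    have hq2 : q ≠ 2 := hqr
    refine not_sylow_two hperf ?_ ?_
    · rw [hG']
      exact Dvd.dvd.mul_right (by norm_num) _
    · rw [hG']
      intro h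
      have h2 : 2 ∣ 3 * q ^ b := by
        have h3 : 2 * 2 ∣ 2 * (3 * q ^ b) := by
          convert h using 1 <;> ring
        exact Nat.dvd_of_mul_dvd_mul_left (by norm_num) h3
      have h3 : Nat.Coprime 2 (q ^ b) := Nat.Coprime.pow_right _ ((Nat.coprime_primes Nat.prime_two hq).2 hq2.symm)
      have h4 := h3.dvd_of_dvd_mul_right h2
      norm_num at h4

end Main

end Cfsg.Agent.Lib.DefectOne.BT
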