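import Mathlib
import Cfsg.Agent.Lib.DefectOne.BlockD
import Cfsg.Agent.Lib.Char.Gagola
import Cfsg.Agent.Lib.Char.GaloisC

/-!
# A character of `C_G(x)` with `x` in its kernel
-/

set_option autoImplicit false
set_option linter.unusedSectionVars false

namespace Cfsg.Agent.Lib.DefectOne

open Cfsg Subgroup Finset Cfsg.Agent.Lib.Blocks.Local Cfsg.Agent.Lib.Blocks.Central
open scoped ComplexConjugate

universe u

section Main

variable {G : Type u} [Group G] [Fintype G] {p : ℕ} [hp : Fact p.Prime] {x : G} {H : Subgroup G}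
  [Fintype H] (hL : LocalData p x H) {C' : Subgroup G} (hC' : ∀ c : G, c ∈ C' ↔ c * x = x * c)

omit [Fintype G] [Fintype H] in
include hL hC' in
lemma H_le_C' : H ≤ C' := fun y hy => (hC' y).2 (hL.comm y hy)

omit [Fintype H] in
include hC' in
lemma XX_mem_C' (i : ZMod p) : XX x i ∈ C' := by
  rw [hC']
  have : Commute (XX x i) x := by
    unfold XX
    exact (Commute.refl x).pow_left _
  exact this.eq

/-- The decomposition of `C'`. -/
noncomputable def prodC (hL : LocalData p x H) (hC' : ∀ c : G, c ∈ C' ↔ c * x = x * c) : ZMod p × H ≃ C' :=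
  Equiv.ofBijective (fun q => ⟨XX x q.1 * q.2, C'.mul_mem (XX_mem_C' hC' q.1) (H_le_C' hL hC' q.2.2)⟩) (by
    constructor
    · rintro ⟨i, y⟩ ⟨j, z⟩ h
      have h1 : XX x i * (y : G) = XX x j * z := congrArg Subtype.val h
      obtain ⟨h2, h3⟩ := hL.decomp_unique y.2 z.2 h1
      exact Prod.ext h2 (Subtype.ext h3)
    · rintro ⟨c, hc⟩
      obtain ⟨i, y, hy, rfl⟩ := hL.exists_decomp ((hC' c).1 hc)
      exact ⟨(i, ⟨y, hy⟩), rfl⟩)

lemma prodC_coe (i : ZMod p) (y : H) : ((prodC hL hC' (i, y) : C') : G) = XX x i * y := rfl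

/-- The restriction of a character of `C'` to `H`. -/
def resH (hL : LocalData p x H) (hC' : ∀ c : G, c ∈ C' ↔ c * x = x * c) (θ : C' → ℂ) (y : H) : ℂ :=
  θ ⟨y, H_le_C' hL hC' y.2⟩

variable {θ : C' → ℂ} (hθ : IsIrrCharacter C' θ)
  (hθP : ∀ u : C', (u : G) ∈ zpowers x → θ u = θ 1)

include hθ hθP in
/-- The values of a character with `x` in its kernel. -/
lemma theta_val (i : ZMod p) (y : H) : θ (prodC hL hC' (i, y)) = resH hL hC' θ y := by
  have h1 : prodC hL hC' (i, y) = (⟨y, H_le_C' hL hC' y.2⟩ : C') * ⟨XX x i, XX_mem_C' hC' i⟩ := by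
    apply Subtype.ext
    show XX x i * (y : G) = y * XX x i
    rw [hL.comm_XX y.2]
  rw [h1]
  refine Cfsg.Agent.Lib.Char.Gagola.irr_mul_of_eq_one hθ ?_
  apply hθP
  show XX x i ∈ zpowers x
  rw [XX]
  exact Subgroup.npow_mem_zpowers x _

include hθ hθP in
/-- The restriction to `H` is irreducible. -/
theorem isIrr_resH [Fintype C'] : IsIrrCharacter H (resH hL hC' θ) := by
  have hc : IsCharacter H (resH hL hC' θ) :=
    Cfsg.Agent.Lib.Char.Basic.isCharacter_comp_hom (Cfsg.Agent.Lib.Char.Basic.isCharacter_of_isIrrCharacter hθ)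
      (Subgroup.inclusion (H_le_C' hL hC'))
  refine Cfsg.Agent.Lib.Char.GaloisC.isIrr_of_sum_norm_sq hc ?_
  have h1 := Cfsg.Agent.Lib.Char.GaloisC.sum_norm_sq_of_isIrr hθ
  rw [← Equiv.sum_comp (prodC hL hC'), Fintype.sum_prod_type] at h1
  simp_rw [theta_val hL hC' hθ hθP] at h1
  rw [sum_const, card_univ, ZMod.card, nsmul_eq_mul] at h1
  have h2 : Nat.card C' = p * Nat.card H := by
    rw [← Nat.card_congr (prodC hL hC'), Nat.card_prod, Nat.card_zmod]
  rw [h2] at h1
  have hp0 : (p : ℝ) ≠ 0 := by exact_mod_cast hp.out.ne_zero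
  push_cast at h1
  exact mul_left_cancel₀ hp0 h1

include hθ hθP in
/-- The induced central character. -/
theorem inducedCentralChar_eq [Fintype C'] (g : G) :
    open scoped Classical in
    inducedCentralChar C' θ g = (resH hL hC' θ 1)⁻¹ *
      ∑ i : ZMod p, ∑ y : H, (if IsConj g (XX x i * y) then 1 else 0) * resH hL hC' θ y := by
  classical
  unfold inducedCentralChar
  have h1 : resH hL hC' θ 1 = θ 1 := rfl
  rw [Cfsg.Agent.Lib.Blocks.Osima.finsum_mem_eq_sum_filter]
  rw [sum_filter, ← Equiv.sum_comp (prodC hL hC'), Fintype.sum_prod_type, mul_sum]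
  refine sum_congr rfl fun i _ => ?_
  rw [mul_sum]
  refine sum_congr rfl fun y _ => ?_
  simp only [prodC_coe, theta_val hL hC' hθ hθP, h1, Set.mem_setOf_eq]
  split_ifs
  · rw [one_mul, div_eq_inv_mul]
  · simp

include hθ hθP in
/-- The inertia group of the restriction. -/
theorem mem_TT_iff (g : G) :
    g ∈ TT hL (resH hL hC' θ) ↔ g ∈ normalizer (zpowers x : Set G) ∧
      ∀ c c' : C', (c' : G) = g * c * g⁻¹ → θ c' = θ c := by
  constructor
  · rintro ⟨hg, h⟩
    refine ⟨hg, fun c c' hcc => ?_⟩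
    obtain ⟨⟨i, y⟩, rfl⟩ := (prodC hL hC').surjective c
    have hα := alphaG_spec hL hg
    have h1 : (c' : G) = XX x (alphaG hL g * i) * (conjH hL g hg y : H) := by
      rw [hcc, prodC_coe, ← hL.conj_XX hα]
      show g * (XX x i * y) * g⁻¹ = g * XX x i * g⁻¹ * (g * y * g⁻¹)
      group
    have h2 : c' = prodC hL hC' (alphaG hL g * i, conjH hL g hg y) := Subtype.ext h1
    rw [h2, theta_val hL hC' hθ hθP, theta_val hL hC' hθ hθP]
    exact h y
  · rintro ⟨hg, h⟩
    refine ⟨hg, fun y => ?_⟩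
    exact h ⟨y, H_le_C' hL hC' y.2⟩ ⟨conjH hL g hg y, H_le_C' hL hC' (conjH hL g hg y).2⟩ rfl

end Main

end Cfsg.Agent.Lib.DefectOne
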