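import Mathlib
import Cfsg.Agent.Lib.DefectOne.TopC
import Cfsg.Agent.Lib.PSL2.Torus
import Cfsg.Agent.S3043
import Cfsg.Agent.S0252
import Cfsg.Agent.S0253

/-!
# The even branch: the involution theorem
-/

set_option autoImplicit false
set_option linter.unusedSectionVars false

namespace Cfsg.Agent.Lib.DefectOne.TopD

open Cfsg Subgroup Cfsg.Agent.Lib.DefectOne Cfsg.Agent.Lib.DefectOne.TopA
open scoped commutatorElement Pointwise MatrixGroups

universe u v

section Char2

open Cfsg.Agent.Lib.PSL2.Basic Cfsg.Agent.Lib.PSL2.Torus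

variable {F : Type*} [Field F]

lemma sl2_sq_of_four (h2 : (2 : F) = 0) (A : SL(2, F)) (h4 : (A * A) * (A * A) = 1) : A * A = 1 := by
  have hneg : (-1 : SL(2, F)) = 1 := neg_eq_self_of_two_eq_zero h2 1
  have h1 : (A * A) * (A * A) = -1 := by rw [h4, hneg]
  have h3 := (mul_self_eq_neg_one_iff (A * A)).1 h1
  have h5 : tr (A * A) = (tr A) ^ 2 - 2 := by
    simp only [tr, mul_self_00, mul_self_11]
    ring
  rw [h5, h2, sub_zero] at h3
  have ht : tr A = 0 := by
    exact pow_eq_zero_iff (two_ne_zero) |>.1 h3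
  rw [(mul_self_eq_neg_one_iff A).2 ht, hneg]

lemma sl2_sq_of_pow (h2 : (2 : F) = 0) (A : SL(2, F)) (n : ℕ) (h : A ^ (2 ^ n) = 1) : A ^ 2 = 1 := by
  induction n with
  | zero => simp at h; simp [h]
  | succ n ih =>
    rcases n with _ | m
    · simpa using h
    · apply ih
      have h3 : (A ^ 2 ^ m) ^ 2 = 1 := by
        apply (by
          intro B hB
          have := sl2_sq_of_four h2 B hB
          rwa [← pow_two] at this : ∀ B : SL(2, F), (B * B) * (B * B) = 1 → B ^ 2 = 1)
        rw [← pow_two, ← pow_two, ← pow_mul, ← pow_mul, ← h]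
        congr 1
        rw [pow_succ, pow_succ]
        ring
      rw [← pow_mul, ← pow_succ] at h3
      exact h3

lemma psl_sq_of_pow (h2 : (2 : F) = 0) (w : PSL(2, F)) (n : ℕ) (h : w ^ (2 ^ n) = 1) : w ^ 2 = 1 := by
  have h3 := sl2_sq_of_pow h2 (pslEquivSL h2 w) n (by rw [← map_pow, h, map_one])
  rw [← map_pow] at h3
  exact (map_eq_one_iff _ (MulEquiv.injective _)).1 h3

end Char2

section PGL

variable {F : Type*} [Field F] [Fintype F]

lemma pgl_hom (h2 : ringChar F ≠ 2) :
    ∃ (φ : (GL (Fin 2) F ⧸ center (GL (Fin 2) F)) →* ℤˣ) (g : GL (Fin 2) F ⧸ center (GL (Fin 2) F)), φ g ≠ 1 := by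
  classical
  let χ : Fˣ →* ℤˣ := (quadraticChar F).toUnitHom
  let φ₀ : GL (Fin 2) F →* ℤˣ := χ.comp Matrix.GeneralLinearGroup.det
  have hker : center (GL (Fin 2) F) ≤ φ₀.ker := by
    intro g hg
    obtain ⟨a, ha⟩ := Matrix.GeneralLinearGroup.mem_center_iff_val_mem_range_scalar.1 hg
    rw [MonoidHom.mem_ker]
    apply Units.ext
    have h1 : ((φ₀ g : ℤˣ) : ℤ) = quadraticChar F ((Matrix.GeneralLinearGroup.det g : Fˣ) : F) :=
      MulChar.coe_toUnitHom _ _
    rw [h1]
    have h3 : ((Matrix.GeneralLinearGroup.det g : Fˣ) : F) = a ^ 2 := by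
      rw [Matrix.GeneralLinearGroup.val_det_apply, ← ha, Matrix.scalar_apply, Matrix.det_diagonal]
      simp [Fin.prod_univ_two, pow_two]
    rw [h3]
    have h4 : a ≠ 0 := by
      intro h5
      have h6 : ((Matrix.GeneralLinearGroup.det g : Fˣ) : F) = 0 := by
        rw [h3, h5]
        simp
      exact (Units.ne_zero _) h6
    have h5 := (quadraticChar_one_iff_isSquare (pow_ne_zero 2 h4)).2 (IsSquare.sq a)
    simpa using h5
  refine ⟨QuotientGroup.lift _ φ₀ hker, ?_⟩
  obtain ⟨n, hn⟩ := FiniteField.exists_nonsquare h2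
  have hn0 : n ≠ 0 := by
    rintro rfl
    exact hn IsSquare.zero
  let M : Matrix (Fin 2) (Fin 2) F := Matrix.diagonal ![n, 1]
  have hdet : M.det = n := by
    simp [M, Matrix.det_diagonal, Fin.prod_univ_two]
  let g : GL (Fin 2) F := Matrix.GeneralLinearGroup.mkOfDetNeZero M (by rw [hdet]; exact hn0)
  refine ⟨(g : GL (Fin 2) F ⧸ center (GL (Fin 2) F)), ?_⟩
  rw [QuotientGroup.lift_mk]
  intro h1
  have h3 : ((φ₀ g : ℤˣ) : ℤ) = quadraticChar F ((Matrix.GeneralLinearGroup.det g : Fˣ) : F) :=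
    MulChar.coe_toUnitHom _ _
  rw [h1, Matrix.GeneralLinearGroup.val_det_apply] at h3
  have h4 : (g : Matrix (Fin 2) (Fin 2) F).det = n := hdet
  rw [h4, (quadraticChar_neg_one_iff_not_isSquare).2 hn] at h3
  exact absurd h3 (by decide)

end PGL

variable {G : Type u} [Group G] [Finite G] {p : ℕ} [hp : Fact p.Prime] {x : G}
variable {E : Subgroup G} {P : Sylow p G}

lemma cen_le (h : Loc p x E P) {z : G} (hz : z ∈ E) (hz1 : z ≠ 1) :
    centralizer ({z} : Set G) ≤ normalizer (E : Set G) := by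
  intro c hc
  by_contra hcn
  have h1 := h.hTI c hcn
  have h2 : c * z * c⁻¹ = z := by
    have h3 := Subgroup.mem_centralizer_singleton_iff.1 hc
    rw [h3]
    group
  have h3 : z ∈ E ⊓ E.map (MulAut.conj c).toMonoidHom := by
    refine Subgroup.mem_inf.2 ⟨hz, z, hz, ?_⟩
    simpa using h2
  rw [h1, Subgroup.mem_bot] at h3
  exact hz1 h3

lemma card_invol_ge {z : G} (hz : orderOf z = 2) :
    (centralizer ({z} : Set G)).index ≤ Nat.card {g : G // orderOf g = 2} := by
  classical
  have hfin : Finite {g : G // orderOf g = 2} := inferInstance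
  let f : G ⧸ centralizer ({z} : Set G) → {g : G // orderOf g = 2} := fun q =>
    ⟨q.out * z * q.out⁻¹, by
      have : q.out * z * q.out⁻¹ = (MulAut.conj q.out).toMonoidHom z := by simp
      rw [this, orderOf_injective _ (MulEquiv.injective _), hz]⟩
  have hinj : Function.Injective f := by
    intro q₁ q₂ h1
    have h2 : q₁.out * z * q₁.out⁻¹ = q₂.out * z * q₂.out⁻¹ := congrArg Subtype.val h1
    have h3 : q₁.out⁻¹ * q₂.out ∈ centralizer ({z} : Set G) := by
      rw [Subgroup.mem_centralizer_singleton_iff]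
      calc q₁.out⁻¹ * q₂.out * z = q₁.out⁻¹ * (q₂.out * z * q₂.out⁻¹) * q₂.out := by group
        _ = q₁.out⁻¹ * (q₁.out * z * q₁.out⁻¹) * q₂.out := by rw [h2]
        _ = z * (q₁.out⁻¹ * q₂.out) := by group
    have h4 := QuotientGroup.eq.2 h3
    rwa [QuotientGroup.out_eq', QuotientGroup.out_eq'] at h4
  exact Nat.card_le_card_of_injective f hinj

theorem even_branch [IsSimpleGroup G] (h : Loc p x E P) (hle : p ^ 2 ≤ Nat.card G) (hperf : commutator G = ⊤)
    (heven : Even (Nat.card E)) (h2e : 2 * Nat.card E ≤ p - 1) (hp5 : 5 ≤ p) :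
    ∃ (F : Type) (_ : Field F) (_ : Fintype F), Fintype.card F = p ∧ Nonempty (G ≃* PSL(2, F)) := by
  classical
  cases nonempty_fintype G
  have hp' := hp.out
  obtain ⟨z₀, hz₀⟩ := exists_prime_orderOf_dvd_card' 2 (even_iff_two_dvd.1 heven)
  set z : G := (z₀ : G) with hzdef
  have hzE : z ∈ E := z₀.2
  have hz : orderOf z = 2 := by
    rw [hzdef, Subgroup.orderOf_coe, hz₀]
  have hz1 : z ≠ 1 := by
    intro h1
    rw [h1, orderOf_one] at hz
    omega
  have hcardM : Nat.card (zpowers x) = p := by rw [Nat.card_zpowers, h.hord]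
  have hx1 : x ≠ 1 := by
    intro h1
    have h3 := h.hord
    rw [h1, orderOf_one] at h3
    omega
  have hM1 : zpowers x ≠ ⊥ := by
    simpa using hx1
  have hTI : ∀ g : G, zpowers x ⊓ (zpowers x).map (MulAut.conj g).toMonoidHom ≠ ⊥ →
      (zpowers x).map (MulAut.conj g).toMonoidHom = zpowers x := by
    intro g hg
    obtain ⟨⟨u, hu⟩, hu1⟩ := (Subgroup.ne_bot_iff_exists_ne_one.1 hg)
    have hu1' : u ≠ 1 := fun h1 => hu1 (Subtype.ext h1)
    obtain ⟨hu2, hu3⟩ := Subgroup.mem_inf.1 hu
    have horder := TopC.order_of_mem h hu2 hu1'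
    have hc1 : Nat.card (zpowers u) = p := by rw [Nat.card_zpowers, horder]
    have hc2 : Nat.card ((zpowers x).map (MulAut.conj g).toMonoidHom) = p := by
      rw [Subgroup.card_map_of_injective (MulEquiv.injective _), hcardM]
    have h1 : zpowers u = zpowers x :=
      Subgroup.eq_of_le_of_card_ge ((zpowers_le).2 hu2) (by rw [hc1, hcardM])
    have h3 : zpowers u = (zpowers x).map (MulAut.conj g).toMonoidHom :=
      Subgroup.eq_of_le_of_card_ge ((zpowers_le).2 hu3) (by rw [hc1, hc2])
    rw [← h3, h1]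
  have hzN : z ∈ normalizer (zpowers x : Set G) := h.hEN hzE
  have hfac : zpowers x ⊔ (normalizer (zpowers x : Set G) ⊓ centralizer ({z} : Set G)) =
      normalizer (zpowers x : Set G) := by
    apply le_antisymm
    · exact sup_le Subgroup.le_normalizer inf_le_left
    · nth_rewrite 1 [← h.hPE]
      apply sup_le_sup_left
      intro w hw
      refine Subgroup.mem_inf.2 ⟨h.hEN hw, ?_⟩
      rw [Subgroup.mem_centralizer_singleton_iff]
      exact h.hEcomm w hw z hzE
  have hodd : ∀ u ∈ zpowers x, u ≠ 1 → Odd (Nat.card ↥(centralizer ({u} : Set G))) := by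
    intro u hu hu1
    have horder := TopC.order_of_mem h hu hu1
    have h1 : centralizer ({u} : Set G) = zpowers u := by
      apply le_antisymm
      · intro c hc
        exact h.hcenall u horder c (Subgroup.mem_centralizer_singleton_iff.1 hc)
      · rw [zpowers_le, Subgroup.mem_centralizer_singleton_iff]
    rw [h1, Nat.card_zpowers, horder]
    exact hp'.odd_of_ne_two (by omega)
  rcases Cfsg.Agent.S3043.result (zpowers x) hM1 hTI z hz hzN hfac hodd with
    h1 | h1 | ⟨F, _, _, q, _, _, hF, -, h1⟩ | ⟨F, _, _, e', he', hF, -, hMc, ⟨ψ⟩⟩ | ⟨d, K, hd, hKn, -, hK, -⟩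
  · exact absurd h1 (TopB.not_normal h hle)
  · exfalso
    have h3 := card_invol_ge hz
    have h4 : Nat.card (centralizer ({z} : Set G)) ≤ 2 * Nat.card E := by
      rw [← h.hNE]
      exact Subgroup.card_le_of_le (cen_le h hzE hz1)
    have h5 := Subgroup.card_mul_index (centralizer ({z} : Set G))
    have h6 := Subgroup.card_mul_index (zpowers x)
    rw [hcardM] at h6
    have h7 : (zpowers x).index ≠ 0 := by
      intro h8
      rw [h8, mul_zero] at h6
      exact Nat.card_pos.ne' h6.symm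
    have h8 : Nat.card G ≤ 2 * Nat.card E * (zpowers x).index := by
      rw [← h5]
      calc _ ≤ (2 * Nat.card E) * (centralizer ({z} : Set G)).index := Nat.mul_le_mul_right _ h4
        _ ≤ _ := Nat.mul_le_mul_left _ (h3.trans h1)
    rw [← h6] at h8
    have h9 := Nat.le_of_mul_le_mul_right h8 (Nat.pos_of_ne_zero h7)
    omega
  · rcases h1 with ψ | ⟨-, h1⟩
    · exfalso
      obtain ⟨ψ⟩ := ψ
      have hring : ringChar F ≠ 2 := by
        intro h3
        have h4 := (FiniteField.even_card_iff_char_two).1 h3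
        rw [hF, hcardM] at h4
        have := hp'.eq_two_or_odd
        omega
      obtain ⟨φ, g, hg⟩ := pgl_hom (F := F) hring
      apply hg
      have h3 := TopC.perfect_hom hperf (φ.comp ψ.toMonoidHom) (ψ.symm g)
      simpa using h3
    · exact ⟨F, _, _, by rw [hF, hcardM], h1⟩
  · -- the case `|F| = 2 ^ e'`
    have hq : p = 2 ^ e' + 1 := by
      have := hMc
      rw [hcardM] at this
      exact this
    have h2F : (2 : F) = 0 := by
      have h3 : ((Fintype.card F : ℕ) : F) = 0 := Nat.cast_card_eq_zero F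
      rw [hF] at h3
      push_cast at h3
      exact pow_eq_zero_iff (by omega) |>.1 h3
    have hsq : ∀ (w : G) (n : ℕ), w ^ (2 ^ n) = 1 → w ^ 2 = 1 := by
      intro w n hw
      have h3 := psl_sq_of_pow h2F (ψ w) n (by rw [← map_pow, hw, map_one])
      rw [← map_pow] at h3
      exact (map_eq_one_iff _ (MulEquiv.injective _)).1 h3
    have hcardG : Nat.card G = 2 ^ e' * ((2 ^ e') ^ 2 - 1) := by
      rw [Nat.card_congr ψ.toEquiv, Cfsg.Agent.Lib.PSL2.Basic.card_PSL2_of_two_eq_zero h2F, hF]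
    have hzp : IsPGroup 2 (zpowers z) := IsPGroup.of_card (n := 1) (by
      rw [Nat.card_zpowers, hz, pow_one])
    obtain ⟨Q, hQ⟩ := hzp.exists_le_sylow
    have hQc : 2 ^ e' ∣ Nat.card (Q : Subgroup G) :=
      Q.pow_dvd_card_of_pow_dvd_card (by rw [hcardG]; exact Dvd.intro _ rfl)
    have hzQ : z ∈ (Q : Subgroup G) := hQ (mem_zpowers z)
    have hQ2 : ∀ c ∈ (Q : Subgroup G), c ^ 2 = 1 := by
      intro c hc
      obtain ⟨n, hn⟩ := Q.isPGroup' ⟨c, hc⟩
      apply hsq c n
      exact congrArg Subtype.val hn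
    have hQC : (Q : Subgroup G) ≤ centralizer ({z} : Set G) := by
      intro c hc
      rw [Subgroup.mem_centralizer_singleton_iff]
      have h3 := hQ2 c hc
      have h4 := hQ2 z hzQ
      have h5 := hQ2 (c * z) (mul_mem hc hzQ)
      rw [pow_two] at h3 h4 h5
      have h6 : z * c * z = c := by
        calc z * c * z = c * c * (z * c * z) := by rw [h3, one_mul]
          _ = c * (c * z * (c * z)) := by group
          _ = c := by rw [h5, mul_one]
      calc c * z = z * c * z * z := by rw [h6]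
        _ = z * c * (z * z) := by group
        _ = z * c := by rw [h4, mul_one]
    have hQN : Nat.card (Q : Subgroup G) ≤ 2 * Nat.card E := by
      rw [← h.hNE]
      exact Subgroup.card_le_of_le (hQC.trans (cen_le h hzE hz1))
    have h2pow : 2 ^ e' ≤ Nat.card (Q : Subgroup G) := Nat.le_of_dvd Nat.card_pos hQc
    haveI := h.isCyclic_E
    obtain ⟨w₀, hw₀⟩ := IsCyclic.exists_generator (α := E)
    have hord : orderOf w₀ = Nat.card E := orderOf_eq_card_of_forall_mem_zpowers hw₀
    have hdvd : orderOf (w₀ : G) ∣ 2 ^ e' := by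
      rw [Subgroup.orderOf_coe, hord]
      have := h.card_E_dvd
      rwa [hq, Nat.add_sub_cancel] at this
    have h2w := hsq (w₀ : G) e' (orderOf_dvd_iff_pow_eq_one.1 hdvd)
    have he2 : Nat.card E ≤ 2 := by
      rw [← hord, ← Subgroup.orderOf_coe]
      exact Nat.le_of_dvd two_pos (orderOf_dvd_of_pow_eq_one h2w)
    have h4 : 2 ^ e' ≤ 4 := by omega
    have h5 : 2 ^ 2 ≤ 2 ^ e' := Nat.pow_le_pow_right two_pos he'
    have h6 : 2 ^ e' = 4 := by omega
    have hp5' : p = 5 := by omega
    subst hp5'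
    have hF4 : Fintype.card F = 4 := by rw [hF, h6]
    obtain ⟨f₁⟩ := Cfsg.Agent.S0252.result hF4
    obtain ⟨f₂⟩ := Cfsg.Agent.S0253.result (F := ZMod 5) (ZMod.card 5)
    exact ⟨ZMod 5, inferInstance, inferInstance, ZMod.card 5, ⟨(ψ.trans f₁).trans f₂.symm⟩⟩
  · exfalso
    rcases hKn.eq_bot_or_eq_top with h3 | h3
    · rw [h3, Subgroup.card_bot] at hK
      have h4 : 2 ^ 1 ≤ 2 ^ (2 * d) := Nat.pow_le_pow_right two_pos (by omega)
      omega
    · rw [h3, Subgroup.card_top] at hK
      have h4 := h.hdvdG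
      rw [hK] at h4
      have h5 := hp'.dvd_of_dvd_pow h4
      have h6 := Nat.le_of_dvd two_pos h5
      omega

end Cfsg.Agent.Lib.DefectOne.TopD
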